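import Mathlib

set_option autoImplicit false

namespace Cfsg.Agent.Lib.Helper39

/-- a finite graph in which any two distinct non-adjacent vertices have a common neighbour, and
which has two distinct non-adjacent vertices, is connected of diameter `2` -/
theorem connected_diam_eq_two {V : Type*} [Finite V] (G : SimpleGraph V)
    (h2 : ∀ u v : V, u ≠ v → ¬ G.Adj u v → ∃ w, G.Adj u w ∧ G.Adj w v)
    (hex : ∃ u v : V, u ≠ v ∧ ¬ G.Adj u v) : G.Connected ∧ G.diam = 2 := by
  obtain ⟨u₀, v₀, huv₀, hadj₀⟩ := hex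
  haveI : Nonempty V := ⟨u₀⟩
  have hreach : ∀ u v : V, G.Reachable u v := by
    intro u v
    by_cases huv : u = v
    · rw [huv]
    · by_cases hadj : G.Adj u v
      · exact hadj.reachable
      · obtain ⟨w, h1, h2'⟩ := h2 u v huv hadj
        exact h1.reachable.trans h2'.reachable
  have hconn : G.Connected := ⟨hreach⟩
  refine ⟨hconn, ?_⟩
  have hle : ∀ u v : V, G.dist u v ≤ 2 := by
    intro u v
    by_cases huv : u = v
    · rw [huv, SimpleGraph.dist_self]
      omega
    · by_cases hadj : G.Adj u v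
      · rw [SimpleGraph.dist_eq_one_iff_adj.mpr hadj]
        omega
      · obtain ⟨w, h1, h2'⟩ := h2 u v huv hadj
        have := SimpleGraph.dist_le (SimpleGraph.Walk.cons h1 (SimpleGraph.Walk.cons h2' SimpleGraph.Walk.nil))
        simpa using this
  have hed : G.ediam ≠ ⊤ := SimpleGraph.connected_iff_ediam_ne_top.mp hconn
  apply le_antisymm
  · obtain ⟨u, v, huv⟩ := G.exists_dist_eq_diam
    rw [← huv]
    exact hle u v
  · have h1 : G.dist u₀ v₀ ≤ G.diam := SimpleGraph.dist_le_diam hed
    have h0 : G.dist u₀ v₀ ≠ 0 := by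
      intro h
      exact huv₀ ((hreach u₀ v₀).dist_eq_zero_iff.mp h)
    have h1' : G.dist u₀ v₀ ≠ 1 := by
      intro h
      exact hadj₀ (SimpleGraph.dist_eq_one_iff_adj.mp h)
    omega

end Cfsg.Agent.Lib.Helper39
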