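import Mathlib
import Cfsg.Agent.Lib.Helper39.GraphDiam
import Cfsg.Agent.Lib.Helper41.SL2
import Cfsg.Agent.Lib.Helper41.SL2Conj
import Cfsg.Agent.Lib.Helper41.SL2Odd
import Cfsg.Agent.Lib.Helper41.PSL2Class

set_option autoImplicit false
set_option linter.unusedSectionVars false
set_option linter.style.haveILetI false

namespace Cfsg.Agent.Lib.Helper39

open Matrix
open Cfsg.Agent.Lib.Helper41

section PSL2Graph

variable {F : Type*} [Field F]

/-- an element of `SL₂` whose image in `PSL₂` has order `2` has trace zero and is not central -/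
theorem tr_zero_of_psl_order_two (x : Matrix.SpecialLinearGroup (Fin 2) F)
    (h : orderOf (QuotientGroup.mk x : Matrix.ProjectiveSpecialLinearGroup (Fin 2) F) = 2) :
    x.1.trace = 0 ∧ x ∉ Subgroup.center (Matrix.SpecialLinearGroup (Fin 2) F) := by
  have hnc : x ∉ Subgroup.center (Matrix.SpecialLinearGroup (Fin 2) F) := by
    intro hc
    have h1 : (QuotientGroup.mk x : Matrix.ProjectiveSpecialLinearGroup (Fin 2) F) = 1 :=
      (QuotientGroup.eq_one_iff x).mpr hc
    rw [h1, orderOf_one] at h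
    omega
  refine ⟨?_, hnc⟩
  have h2 : (QuotientGroup.mk x : Matrix.ProjectiveSpecialLinearGroup (Fin 2) F) ^ 2 = 1 := by
    have := pow_orderOf_eq_one (QuotientGroup.mk x :
      Matrix.ProjectiveSpecialLinearGroup (Fin 2) F)
    rw [h] at this
    exact this
  rw [psl2_pow_eq_one_iff, pow_two, Matrix.SpecialLinearGroup.coe_mul,
    cayley2_det_one x.det_coe] at h2
  by_contra hτ
  apply hnc
  rw [sl2_mem_center_iff]
  have hdet := x.det_coe
  obtain ⟨τ, hτdef⟩ : ∃ τ : F, τ = x.1.trace := ⟨_, rfl⟩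
  obtain ⟨X, hXdef⟩ : ∃ X : Matrix (Fin 2) (Fin 2) F, X = x.1 := ⟨_, rfl⟩
  rw [← hτdef, ← hXdef] at h2
  rw [← hτdef] at hτ
  rw [← hXdef] at hdet ⊢
  have hX : X = τ⁻¹ • (τ • X) := by
    rw [smul_smul, inv_mul_cancel₀ hτ, one_smul]
  rcases h2 with h2 | h2
  · -- τ x = 2
    have h3 : τ • X = (2 : F) • (1 : Matrix (Fin 2) (Fin 2) F) := by
      have : τ • X = (τ • X - 1) + 1 := by abel
      rw [this, h2, two_smul]
    have h4 : X = (τ⁻¹ * 2) • (1 : Matrix (Fin 2) (Fin 2) F) := by
      rw [hX, h3, smul_smul]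
    rw [h4, Matrix.det_smul, Matrix.det_one, Fintype.card_fin] at hdet
    have h5 : (τ⁻¹ * 2 - 1) * (τ⁻¹ * 2 + 1) = 0 := by linear_combination hdet
    rcases mul_eq_zero.mp h5 with h6 | h6
    · left
      rw [h4, sub_eq_zero.mp h6, one_smul]
    · right
      rw [h4, eq_neg_of_add_eq_zero_left h6, neg_smul, one_smul]
  · -- τ x = 0
    exfalso
    have h3 : τ • X = 0 := by
      have : τ • X = (τ • X - 1) + 1 := by abel
      rw [this, h2]
      simp
    have h4 : X = 0 := by
      rw [hX, h3, smul_zero]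
    rw [h4] at hdet
    simp at hdet

/-- a non-central element of `SL₂` of trace zero has image of order `2` in `PSL₂` -/
theorem psl_order_two_of_tr_zero (x : Matrix.SpecialLinearGroup (Fin 2) F)
    (hτ : x.1.trace = 0) (hc : x ∉ Subgroup.center (Matrix.SpecialLinearGroup (Fin 2) F)) :
    orderOf (QuotientGroup.mk x : Matrix.ProjectiveSpecialLinearGroup (Fin 2) F) = 2 := by
  apply orderOf_eq_prime
  · rw [psl2_pow_eq_one_iff, pow_two, Matrix.SpecialLinearGroup.coe_mul,
      cayley2_det_one x.det_coe, hτ]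
    right
    simp
  · intro h
    exact hc ((QuotientGroup.eq_one_iff x).mp h)

/-- in characteristic `2`, an element of nonzero trace has odd order in `PSL₂(q)` -/
theorem psl_odd_of_trace_ne_zero [Fintype F] (h2 : (2 : F) = 0)
    (g : Matrix.SpecialLinearGroup (Fin 2) F) (hτ : g.1.trace ≠ 0) :
    Odd (orderOf (QuotientGroup.mk g : Matrix.ProjectiveSpecialLinearGroup (Fin 2) F)) := by
  haveI : CharP F 2 := CharTwo.of_one_ne_zero_of_two_eq_zero one_ne_zero h2
  have hmod := card_mod_two_of_two_eq_zero h2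
  have hq1 : 1 < Fintype.card F := Fintype.one_lt_card
  have hg : Nat.gcd 2 (Fintype.card F - 1) = 1 :=
    Nat.coprime_two_left.mpr (Nat.odd_iff.mpr (by omega))
  rcases psl2_orderOf_dvd 2 (QuotientGroup.mk g :
    Matrix.ProjectiveSpecialLinearGroup (Fin 2) F) with h | h | h
  · exfalso
    have h3 : (QuotientGroup.mk g : Matrix.ProjectiveSpecialLinearGroup (Fin 2) F) ^ 2 = 1 :=
      orderOf_dvd_iff_pow_eq_one.mp h
    rw [psl2_pow_eq_one_iff, pow_two, Matrix.SpecialLinearGroup.coe_mul,
      cayley2_det_one g.det_coe] at h3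
    have hneg : (-1 : Matrix (Fin 2) (Fin 2) F) = 1 := by
      have : (-1 : F) = 1 := by linear_combination -h2
      ext i j
      fin_cases i <;> fin_cases j <;> simp [this]
    rw [hneg, or_self] at h3
    have h4 : g.1.trace • g.1 = 0 := by
      have : g.1.trace • g.1 = (g.1.trace • g.1 - 1) + 1 := by abel
      rw [this, h3, ← two_smul F (1 : Matrix (Fin 2) (Fin 2) F), h2, zero_smul]
    have h5 : g.1 = 0 := by
      have : g.1 = (g.1.trace)⁻¹ • (g.1.trace • g.1) := by
        rw [smul_smul, inv_mul_cancel₀ hτ, one_smul]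
      rw [this, h4, smul_zero]
    have hdet := g.det_coe
    rw [h5] at hdet
    simp at hdet
  · rw [hg, Nat.div_one] at h
    exact Odd.of_dvd_nat (Nat.odd_iff.mpr (by omega)) h
  · rw [hg, Nat.div_one] at h
    exact Odd.of_dvd_nat (Nat.odd_iff.mpr (by omega)) h

/-- in odd characteristic, an element with an eigenvalue `l` in the field has odd order in
`PSL₂(q)` provided `l² = 1` or `-1` is not a square -/
theorem psl_odd_of_root [Fintype F] (h2 : (2 : F) ≠ 0)
    (g : Matrix.SpecialLinearGroup (Fin 2) F) (l : F)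
    (hl : l * l - g.1.trace * l + 1 = 0) (hcase : l * l = 1 ∨ ¬ IsSquare (-1 : F)) :
    Odd (orderOf (QuotientGroup.mk g : Matrix.ProjectiveSpecialLinearGroup (Fin 2) F)) := by
  have hdet : g.1.det = 1 := g.det_coe
  have hq1 : 1 < Fintype.card F := Fintype.one_lt_card
  have hmod := card_mod_two_of_two_ne_zero h2
  by_cases hl2 : l * l = 1
  · obtain ⟨p, hchar⟩ := CharP.exists F
    haveI := hchar
    obtain ⟨n, hp, hq⟩ := FiniteField.card F p
    haveI : Fact p.Prime := ⟨hp⟩
    have ht : g.1.trace = 2 * l := by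
      have h1 : g.1.trace * l = 2 := by linear_combination -hl + hl2
      calc g.1.trace = g.1.trace * (l * l) := by rw [hl2, mul_one]
        _ = (g.1.trace * l) * l := by ring
        _ = 2 * l := by rw [h1]
    have hpow := pow_char_of_trace p hdet hl2 ht
    have hdvd : orderOf (QuotientGroup.mk g : Matrix.ProjectiveSpecialLinearGroup (Fin 2) F) ∣ p := by
      apply orderOf_dvd_of_pow_eq_one
      rw [psl2_pow_eq_one_iff, Matrix.SpecialLinearGroup.coe_pow, hpow]
      have hlp : (l ^ p) * (l ^ p) = 1 := by rw [← mul_pow, hl2, one_pow]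
      have : (l ^ p - 1) * (l ^ p + 1) = 0 := by linear_combination hlp
      rcases mul_eq_zero.mp this with h | h
      · left
        rw [sub_eq_zero.mp h, one_smul]
      · right
        rw [eq_neg_of_add_eq_zero_left h, neg_smul, one_smul]
    have hpodd : Odd p := by
      rcases hp.eq_two_or_odd' with h | h
      · exfalso
        rw [h] at hq
        have : 2 ∣ Fintype.card F := by
          rw [hq]
          exact dvd_pow_self 2 n.ne_zero
        omega
      · exact h
    exact Odd.of_dvd_nat hpodd hdvd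
  · have hm1 : ¬ IsSquare (-1 : F) := hcase.resolve_left hl2
    have hq4 : Fintype.card F % 4 = 3 := by
      by_contra h
      exact hm1 (FiniteField.isSquare_neg_one_iff.mpr h)
    have hl0 : l ≠ 0 := by
      rintro rfl
      simp at hl
    have hpow := pow_eq_one_of_split hdet hl hl2 (Fintype.card F - 1)
      (FiniteField.pow_card_sub_one_eq_one l hl0)
    have hA : g ^ (Fintype.card F - 1) = 1 := sl2_pow_eq_one_of_coe hpow
    rw [psl2_orderOf_of_two_ne_zero h2]
    have hdvd : orderOf (g ^ 2) ∣ (Fintype.card F - 1) / 2 := by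
      apply orderOf_dvd_of_pow_eq_one
      rw [← pow_mul]
      have : 2 * ((Fintype.card F - 1) / 2) = Fintype.card F - 1 := by omega
      rw [this, hA]
    exact Odd.of_dvd_nat (Nat.odd_iff.mpr (by omega)) hdvd

/-- every element of a finite field is a sum of two squares -/
theorem exists_sq_add_sq [Fintype F] (e : F) : ∃ a b : F, a * a + b * b = e := by
  by_cases h2 : Fintype.card F % 2 = 1
  · have hf : (Polynomial.X ^ 2 : Polynomial F).degree = 2 := Polynomial.degree_X_pow 2
    have hg : (Polynomial.X ^ 2 - Polynomial.C e : Polynomial F).degree = 2 :=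
      Polynomial.degree_X_pow_sub_C (by norm_num) e
    obtain ⟨a, b, hab⟩ := FiniteField.exists_root_sum_quadratic hf hg h2
    refine ⟨a, b, ?_⟩
    simp at hab
    linear_combination hab
  · have hchar : ringChar F = 2 := FiniteField.even_card_iff_char_two.mpr (by omega)
    obtain ⟨a, ha⟩ := FiniteField.isSquare_of_char_two hchar e
    exact ⟨a, 0, by rw [ha]; ring⟩

/-- the non-central elements of trace zero of `SL₂(q)` form one conjugacy class -/
theorem sl2_conj_of_tr_zero [Fintype F] (x y : Matrix.SpecialLinearGroup (Fin 2) F)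
    (hx : x.1.trace = 0) (hy : y.1.trace = 0)
    (hxc : x ∉ Subgroup.center (Matrix.SpecialLinearGroup (Fin 2) F))
    (hyc : y ∉ Subgroup.center (Matrix.SpecialLinearGroup (Fin 2) F)) :
    ∃ g : Matrix.SpecialLinearGroup (Fin 2) F, g * x * g⁻¹ = y := by
  obtain ⟨P, c, hc, hP⟩ := conj_companion x hxc
  obtain ⟨P', c', hc', hP'⟩ := conj_companion y hyc
  rw [hx] at hP
  rw [hy] at hP'
  obtain ⟨a, b, hab⟩ := exists_sq_add_sq (c / c')
  obtain ⟨g₀, hg₀⟩ : ∃ g₀ : Matrix.SpecialLinearGroup (Fin 2) F,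
      g₀.1 = !![a, -b / c; b * c', a * c' / c] :=
    ⟨⟨!![a, -b / c; b * c', a * c' / c], by
      rw [Matrix.det_fin_two_of]
      field_simp
      field_simp at hab
      linear_combination hab⟩, rfl⟩
  obtain ⟨B, hB⟩ : ∃ B : Matrix.SpecialLinearGroup (Fin 2) F, B = P * x * P⁻¹ := ⟨_, rfl⟩
  obtain ⟨B', hB'⟩ : ∃ B' : Matrix.SpecialLinearGroup (Fin 2) F, B' = P' * y * P'⁻¹ := ⟨_, rfl⟩
  rw [← hB] at hP
  rw [← hB'] at hP'
  have hkey : g₀ * B = B' * g₀ := by
    apply Subtype.ext
    rw [Matrix.SpecialLinearGroup.coe_mul, Matrix.SpecialLinearGroup.coe_mul, hP, hP', hg₀]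
    ext i j
    fin_cases i <;> fin_cases j <;> simp [Matrix.mul_apply, Fin.sum_univ_two] <;> field_simp
  rw [hB, hB'] at hkey
  refine ⟨P'⁻¹ * g₀ * P, ?_⟩
  calc P'⁻¹ * g₀ * P * x * (P'⁻¹ * g₀ * P)⁻¹
      = P'⁻¹ * (g₀ * (P * x * P⁻¹)) * g₀⁻¹ * P' := by group
    _ = P'⁻¹ * ((P' * y * P'⁻¹) * g₀) * g₀⁻¹ * P' := by rw [hkey]
    _ = y := by group

/-- two elements of trace zero with product of trace zero, all non-central -/
theorem exists_commuting_tr_zero [Fintype F] (hF : 4 ≤ Fintype.card F) :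
    ∃ x y : Matrix.SpecialLinearGroup (Fin 2) F, x.1.trace = 0 ∧ y.1.trace = 0 ∧
      (x * y).1.trace = 0 ∧ (y * x).1.trace = 0 ∧
      x ∉ Subgroup.center (Matrix.SpecialLinearGroup (Fin 2) F) ∧
      y ∉ Subgroup.center (Matrix.SpecialLinearGroup (Fin 2) F) ∧
      x * y ∉ Subgroup.center (Matrix.SpecialLinearGroup (Fin 2) F) ∧
      y * x ∉ Subgroup.center (Matrix.SpecialLinearGroup (Fin 2) F) := by
  classical
  by_cases h2 : (2 : F) = 0
  · have hex : ∃ s : F, s ≠ 0 ∧ s ≠ 1 := by
      by_contra hno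
      push Not at hno
      have hsub : (Finset.univ : Finset F) ⊆ {0, 1} := by
        intro s _
        simp only [Finset.mem_insert, Finset.mem_singleton]
        by_cases h : s = 0
        · left; exact h
        · right; exact hno s h
      have h1 := Finset.card_le_card hsub
      rw [Finset.card_univ] at h1
      have h3 : ({0, 1} : Finset F).card ≤ 2 := Finset.card_le_two
      omega
    obtain ⟨s, hs0, hs1⟩ := hex
    have hm1 : (-1 : F) = 1 := by linear_combination -h2
    have h11 : (1 : F) + 1 = 0 := by linear_combination h2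
    have hnc : ∀ r : F, r ≠ 0 →
        upperU r ∉ Subgroup.center (Matrix.SpecialLinearGroup (Fin 2) F) := by
      intro r hr hc
      rw [sl2_mem_center_iff, upperU_coe] at hc
      rcases hc with h | h
      · have := congrFun (congrFun h 0) 1
        simp at this
        exact hr this
      · have := congrFun (congrFun h 0) 1
        simp at this
        exact hr this
    have hmul : ∀ r r' : F, upperU r * upperU r' = upperU (r + r') := by
      intro r r'
      apply Subtype.ext
      rw [Matrix.SpecialLinearGroup.coe_mul, upperU_coe, upperU_coe, upperU_coe]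
      ext i j
      fin_cases i <;> fin_cases j <;> simp [Matrix.mul_apply, Fin.sum_univ_two, add_comm]
    have htr : ∀ r : F, (upperU r).1.trace = 0 := by
      intro r
      rw [upperU_coe, Matrix.trace_fin_two_of]
      exact h11
    have hs1' : (1 : F) + s ≠ 0 := by
      intro h
      apply hs1
      linear_combination h - h2
    refine ⟨upperU 1, upperU s, htr 1, htr s, ?_, ?_, hnc 1 one_ne_zero, hnc s hs0, ?_, ?_⟩
    · rw [hmul]; exact htr _
    · rw [hmul]; exact htr _
    · rw [hmul]; exact hnc _ hs1'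
    · rw [hmul, add_comm]; exact hnc _ hs1'
  · obtain ⟨a, b, hab⟩ := exists_sq_add_sq (-1 : F)
    have h4 : (0 : F) * 0 ≠ 4 := by
      intro h
      apply h2
      have : (2 : F) * 2 = 0 := by linear_combination -h
      rcases mul_eq_zero.mp this with h | h <;> exact h
    have hnc : ∀ A : Matrix.SpecialLinearGroup (Fin 2) F, A.1.trace = 0 →
        A ∉ Subgroup.center (Matrix.SpecialLinearGroup (Fin 2) F) := by
      intro A hA
      apply not_mem_center_of_trace h2
      rw [hA]
      exact h4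
    obtain ⟨x, hxdef⟩ : ∃ x : Matrix.SpecialLinearGroup (Fin 2) F, x.1 = !![0, 1; -1, 0] :=
      ⟨⟨!![0, 1; -1, 0], by simp [Matrix.det_fin_two_of]⟩, rfl⟩
    obtain ⟨y, hydef⟩ : ∃ y : Matrix.SpecialLinearGroup (Fin 2) F, y.1 = !![a, b; b, -a] :=
      ⟨⟨!![a, b; b, -a], by
        rw [Matrix.det_fin_two_of]
        linear_combination -hab⟩, rfl⟩
    have hx : x.1.trace = 0 := by rw [hxdef, Matrix.trace_fin_two_of]; ring
    have hy : y.1.trace = 0 := by rw [hydef, Matrix.trace_fin_two_of]; ring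
    have hxy : (x * y).1.trace = 0 := by
      rw [Matrix.SpecialLinearGroup.coe_mul, hxdef, hydef]
      simp [Matrix.trace_fin_two, Matrix.mul_apply, Fin.sum_univ_two]
    have hyx : (y * x).1.trace = 0 := by
      rw [Matrix.SpecialLinearGroup.coe_mul, hxdef, hydef]
      simp [Matrix.trace_fin_two, Matrix.mul_apply, Fin.sum_univ_two]
    exact ⟨x, y, hx, hy, hxy, hyx, hnc x hx, hnc y hy, hnc _ hxy, hnc _ hyx⟩

/-- characteristic `2`: a trace-zero element whose products with two given non-central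
trace-zero elements have nonzero trace -/
theorem exists_z_char_two [Fintype F] (h2 : (2 : F) = 0) (hF : 4 ≤ Fintype.card F)
    (x y : Matrix.SpecialLinearGroup (Fin 2) F) (hx : x.1.trace = 0) (hy : y.1.trace = 0)
    (hxc : x ∉ Subgroup.center (Matrix.SpecialLinearGroup (Fin 2) F))
    (hyc : y ∉ Subgroup.center (Matrix.SpecialLinearGroup (Fin 2) F)) :
    ∃ z : Matrix.SpecialLinearGroup (Fin 2) F, z.1.trace = 0 ∧
      z ∉ Subgroup.center (Matrix.SpecialLinearGroup (Fin 2) F) ∧
      (x * z).1.trace ≠ 0 ∧ (z * y).1.trace ≠ 0 := by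
  classical
  have hm1 : (-1 : F) = 1 := by linear_combination -h2
  -- a non-central trace-zero element has a nonzero off-diagonal entry
  have hoff : ∀ A : Matrix.SpecialLinearGroup (Fin 2) F, A.1.trace = 0 →
      A ∉ Subgroup.center (Matrix.SpecialLinearGroup (Fin 2) F) →
      ¬ (A.1 0 1 = 0 ∧ A.1 1 0 = 0) := by
    rintro A hA hAc ⟨h01, h10⟩
    apply hAc
    rw [sl2_mem_center_iff]
    left
    have hdet := sl2_det_entries A
    rw [Matrix.trace_fin_two] at hA
    have h11 : A.1 1 1 = A.1 0 0 := by linear_combination hA - A.1 0 0 * h2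
    rw [h01, h11] at hdet
    have h00 : A.1 0 0 = 1 := by
      have : (A.1 0 0 - 1) * (A.1 0 0 - 1) = 0 := by linear_combination hdet - A.1 0 0 * h2 + h2
      rcases mul_eq_zero.mp this with h | h <;> linear_combination h
    ext i j
    fin_cases i <;> fin_cases j <;> simp [h01, h10, h11, h00]
  have hxo := hoff x hx hxc
  have hyo := hoff y hy hyc
  -- the parameter `s`
  have hex : ∃ s : F, x.1 0 1 * s + x.1 1 0 ≠ 0 ∧ y.1 0 1 * s + y.1 1 0 ≠ 0 := by
    by_contra hno
    push Not at hno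
    have hsub : (Finset.univ : Finset F) ⊆ {-(x.1 1 0) / x.1 0 1, -(y.1 1 0) / y.1 0 1} := by
      intro s _
      simp only [Finset.mem_insert, Finset.mem_singleton]
      by_cases h : x.1 0 1 * s + x.1 1 0 = 0
      · left
        have hb : x.1 0 1 ≠ 0 := by
          intro hb
          rw [hb, zero_mul, zero_add] at h
          exact hxo ⟨hb, h⟩
        field_simp
        linear_combination h
      · right
        have h' := hno s h
        have hb : y.1 0 1 ≠ 0 := by
          intro hb
          rw [hb, zero_mul, zero_add] at h'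
          exact hyo ⟨hb, h'⟩
        field_simp
        linear_combination h'
    have h1 := Finset.card_le_card hsub
    rw [Finset.card_univ] at h1
    have h3 : ({-(x.1 1 0) / x.1 0 1, -(y.1 1 0) / y.1 0 1} : Finset F).card ≤ 2 :=
      Finset.card_le_two
    omega
  obtain ⟨s, hs1, hs2⟩ := hex
  have hchar : ringChar F = 2 := by
    apply FiniteField.even_card_iff_char_two.mpr
    exact card_mod_two_of_two_eq_zero h2
  obtain ⟨a, ha⟩ := FiniteField.isSquare_of_char_two hchar (1 + s)
  obtain ⟨z, hz⟩ : ∃ z : Matrix.SpecialLinearGroup (Fin 2) F, z.1 = !![a, 1; s, a] :=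
    ⟨⟨!![a, 1; s, a], by
      rw [Matrix.det_fin_two_of]
      linear_combination -ha⟩, rfl⟩
  refine ⟨z, ?_, ?_, ?_, ?_⟩
  · rw [hz, Matrix.trace_fin_two_of]
    linear_combination a * h2
  · intro hc
    rw [sl2_mem_center_iff, hz] at hc
    rcases hc with h | h
    · have := congrFun (congrFun h 0) 1
      simp at this
    · have := congrFun (congrFun h 0) 1
      simp at this
  · rw [Matrix.trace_fin_two] at hx
    have h11 : x.1 1 1 = x.1 0 0 := by linear_combination hx - x.1 0 0 * h2
    intro h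
    apply hs1
    rw [Matrix.SpecialLinearGroup.coe_mul, hz, Matrix.trace_fin_two, Matrix.mul_apply,
      Matrix.mul_apply, Fin.sum_univ_two, Fin.sum_univ_two] at h
    simp only [Matrix.of_apply, Matrix.cons_val_zero, Matrix.cons_val_one, Matrix.cons_val',
      Matrix.empty_val', Matrix.cons_val_fin_one, Matrix.head_cons, Matrix.head_fin_const] at h
    rw [h11] at h
    linear_combination h - x.1 0 0 * a * h2
  · rw [Matrix.trace_fin_two] at hy
    have h11 : y.1 1 1 = y.1 0 0 := by linear_combination hy - y.1 0 0 * h2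
    intro h
    apply hs2
    rw [Matrix.SpecialLinearGroup.coe_mul, hz, Matrix.trace_fin_two, Matrix.mul_apply,
      Matrix.mul_apply, Fin.sum_univ_two, Fin.sum_univ_two] at h
    simp only [Matrix.of_apply, Matrix.cons_val_zero, Matrix.cons_val_one, Matrix.cons_val',
      Matrix.empty_val', Matrix.cons_val_fin_one, Matrix.head_cons, Matrix.head_fin_const] at h
    rw [h11] at h
    linear_combination h - y.1 0 0 * a * h2

theorem z_det_identity (a b c a' b' c' lam mu nu : F) (hx : a * a + b * c = -1)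
    (hy : a' * a' + b' * c' = -1) :
    (lam * a + mu * a' + nu * (b * c' - b' * c)) * (-(lam * a + mu * a' + nu * (b * c' - b' * c)))
      - (lam * b + mu * b' + 2 * nu * (a * b' - b * a')) *
        (lam * c + mu * c' + 2 * nu * (c * a' - a * c'))
      = lam ^ 2 + mu ^ 2 - lam * mu * (2 * a * a' + b * c' + c * b')
        - nu ^ 2 * ((2 * a * a' + b * c' + c * b') ^ 2 - 4) := by
  linear_combination (-lam ^ 2 + 4 * nu ^ 2 * (a' * a' + b' * c')) * hx
    + (-mu ^ 2 - 4 * nu ^ 2) * hy

/-- odd characteristic: a trace-zero element `z` of `SL₂` with prescribed traces of `xz` and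
`zy`, for trace-zero `x`, `y` -/
theorem exists_z_of_params (x y : Matrix.SpecialLinearGroup (Fin 2) F)
    (hx : x.1.trace = 0) (hy : y.1.trace = 0)
    (hD : (x * y).1.trace * (x * y).1.trace - 4 ≠ 0) (B₁ B₂ ρ : F)
    (hρ : ρ * ρ = -(B₁ * B₁ + B₂ * B₂ + (x * y).1.trace * (x * y).1.trace
      + (x * y).1.trace * B₁ * B₂ - 4)) :
    ∃ z : Matrix.SpecialLinearGroup (Fin 2) F, z.1.trace = 0 ∧ (x * z).1.trace = B₁ ∧
      (z * y).1.trace = B₂ := by
  obtain ⟨a, ha⟩ : ∃ a : F, a = x.1 0 0 := ⟨_, rfl⟩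
  obtain ⟨b, hb⟩ : ∃ b : F, b = x.1 0 1 := ⟨_, rfl⟩
  obtain ⟨c, hc⟩ : ∃ c : F, c = x.1 1 0 := ⟨_, rfl⟩
  obtain ⟨a', ha'⟩ : ∃ a' : F, a' = y.1 0 0 := ⟨_, rfl⟩
  obtain ⟨b', hb'⟩ : ∃ b' : F, b' = y.1 0 1 := ⟨_, rfl⟩
  obtain ⟨c', hc'⟩ : ∃ c' : F, c' = y.1 1 0 := ⟨_, rfl⟩
  have hx11 : x.1 1 1 = -a := by
    rw [Matrix.trace_fin_two] at hx
    rw [ha]
    linear_combination hx
  have hy11 : y.1 1 1 = -a' := by
    rw [Matrix.trace_fin_two] at hy
    rw [ha']
    linear_combination hy
  have hxmat : x.1 = !![a, b; c, -a] := by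
    ext i j
    fin_cases i <;> fin_cases j <;> simp [ha, hb, hc, hx11]
  have hymat : y.1 = !![a', b'; c', -a'] := by
    ext i j
    fin_cases i <;> fin_cases j <;> simp [ha', hb', hc', hy11]
  have hxdet : a * a + b * c = -1 := by
    have := sl2_det_entries x
    rw [hx11, ← ha, ← hb, ← hc] at this
    linear_combination -this
  have hydet : a' * a' + b' * c' = -1 := by
    have := sl2_det_entries y
    rw [hy11, ← ha', ← hb', ← hc'] at this
    linear_combination -this
  obtain ⟨τ, hτ⟩ : ∃ τ : F, τ = (x * y).1.trace := ⟨_, rfl⟩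
  have hτ' : τ = 2 * a * a' + b * c' + c * b' := by
    rw [hτ, Matrix.SpecialLinearGroup.coe_mul, hxmat, hymat]
    simp [Matrix.trace_fin_two, Matrix.mul_apply, Fin.sum_univ_two]
    ring
  rw [← hτ] at hD hρ
  obtain ⟨D, hDdef⟩ : ∃ D : F, D = τ * τ - 4 := ⟨_, rfl⟩
  rw [← hDdef] at hD
  obtain ⟨lam, hlam⟩ : ∃ lam : F, lam = (2 * B₁ + τ * B₂) / D := ⟨_, rfl⟩
  obtain ⟨mu, hmu⟩ : ∃ mu : F, mu = (2 * B₂ + τ * B₁) / D := ⟨_, rfl⟩
  obtain ⟨nu, hnu⟩ : ∃ nu : F, nu = ρ / D := ⟨_, rfl⟩
  have hnum : (2 * B₁ + τ * B₂) ^ 2 + (2 * B₂ + τ * B₁) ^ 2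
      - (2 * B₁ + τ * B₂) * (2 * B₂ + τ * B₁) * τ - ρ ^ 2 * D = D ^ 2 := by
    rw [hDdef]
    linear_combination (-(τ * τ - 4)) * hρ
  have hval : lam ^ 2 + mu ^ 2 - lam * mu * τ - nu ^ 2 * (τ ^ 2 - 4) = 1 := by
    have h1 : lam ^ 2 + mu ^ 2 - lam * mu * τ - nu ^ 2 * D =
        ((2 * B₁ + τ * B₂) ^ 2 + (2 * B₂ + τ * B₁) ^ 2
          - (2 * B₁ + τ * B₂) * (2 * B₂ + τ * B₁) * τ - ρ ^ 2 * D) / D ^ 2 := by
      rw [hlam, hmu, hnu]
      field_simp
    have h2 : τ ^ 2 - 4 = D := by rw [hDdef]; ring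
    rw [h2, h1, hnum, div_self (pow_ne_zero 2 hD)]
  obtain ⟨z, hz⟩ : ∃ z : Matrix.SpecialLinearGroup (Fin 2) F,
      z.1 = !![lam * a + mu * a' + nu * (b * c' - b' * c),
        lam * b + mu * b' + 2 * nu * (a * b' - b * a');
        lam * c + mu * c' + 2 * nu * (c * a' - a * c'),
        -(lam * a + mu * a' + nu * (b * c' - b' * c))] :=
    ⟨⟨!![lam * a + mu * a' + nu * (b * c' - b' * c),
        lam * b + mu * b' + 2 * nu * (a * b' - b * a');
        lam * c + mu * c' + 2 * nu * (c * a' - a * c'),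
        -(lam * a + mu * a' + nu * (b * c' - b' * c))], by
      rw [Matrix.det_fin_two_of, z_det_identity a b c a' b' c' lam mu nu hxdet hydet, ← hτ']
      exact hval⟩, rfl⟩
  refine ⟨z, ?_, ?_, ?_⟩
  · rw [hz, Matrix.trace_fin_two_of]
    ring
  · rw [Matrix.SpecialLinearGroup.coe_mul, hz, hxmat]
    simp only [Matrix.trace_fin_two, Matrix.mul_apply, Fin.sum_univ_two, Matrix.of_apply,
      Matrix.cons_val_zero, Matrix.cons_val_one, Matrix.cons_val', Matrix.empty_val',
      Matrix.cons_val_fin_one, Matrix.head_cons, Matrix.head_fin_const]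
    have h1 : -2 * lam + mu * τ = B₁ := by
      have h3 : -2 * lam + mu * τ = (B₁ * D) / D := by
        rw [hlam, hmu]
        field_simp
        rw [hDdef]
        ring
      rw [h3, mul_div_assoc, div_self hD, mul_one]
    rw [← h1, hτ']
    linear_combination (2 * lam) * hxdet
  · rw [Matrix.SpecialLinearGroup.coe_mul, hz, hymat]
    simp only [Matrix.trace_fin_two, Matrix.mul_apply, Fin.sum_univ_two, Matrix.of_apply,
      Matrix.cons_val_zero, Matrix.cons_val_one, Matrix.cons_val', Matrix.empty_val',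
      Matrix.cons_val_fin_one, Matrix.head_cons, Matrix.head_fin_const]
    have h1 : lam * τ - 2 * mu = B₂ := by
      have h3 : lam * τ - 2 * mu = (B₂ * D) / D := by
        rw [hlam, hmu]
        field_simp
        rw [hDdef]
        ring
      rw [h3, mul_div_assoc, div_self hD, mul_one]
    rw [← h1, hτ']
    linear_combination (2 * mu) * hydet

/-- in a finite field the product of two non-squares is a square -/
theorem isSquare_mul_of_not [Fintype F] {a b : F} (ha : ¬ IsSquare a) (hb : ¬ IsSquare b) :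
    IsSquare (a * b) := by
  classical
  have ha0 : a ≠ 0 := by
    rintro rfl
    exact ha ⟨0, by ring⟩
  have hb0 : b ≠ 0 := by
    rintro rfl
    exact hb ⟨0, by ring⟩
  rw [← quadraticChar_one_iff_isSquare (mul_ne_zero ha0 hb0), map_mul,
    quadraticChar_neg_one_iff_not_isSquare.mpr ha, quadraticChar_neg_one_iff_not_isSquare.mpr hb]
  norm_num

theorem not_isSquare_mul {a b : F} (ha : IsSquare a) (ha0 : a ≠ 0) (hb : ¬ IsSquare b) :
    ¬ IsSquare (a * b) := by
  obtain ⟨s, hs⟩ := ha
  have hs0 : s ≠ 0 := by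
    rintro rfl
    apply ha0
    rw [hs, mul_zero]
  rintro ⟨t, ht⟩
  apply hb
  refine ⟨t / s, ?_⟩
  field_simp
  rw [hs] at ht
  linear_combination ht

/-- a quadratic `T² - D` with `D` a non-square takes a non-square value -/
theorem exists_not_isSquare_sq_sub [Fintype F] (h2 : (2 : F) ≠ 0) (D : F) (hD : ¬ IsSquare D) :
    ∃ T : F, ¬ IsSquare (T * T - D) := by
  classical
  by_contra hall
  push Not at hall
  have hsurj : Function.Surjective (fun u : Fˣ => ((u : F) + D / (u : F)) / 2) := by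
    intro T
    obtain ⟨s, hs⟩ := hall T
    have hu : T - s ≠ 0 := by
      intro h
      apply hD
      refine ⟨0, ?_⟩
      have : T = s := sub_eq_zero.mp h
      rw [this] at hs
      linear_combination -hs
    refine ⟨Units.mk0 (T - s) hu, ?_⟩
    simp only [Units.val_mk0]
    field_simp
    linear_combination -hs
  have h1 := Fintype.card_le_of_surjective _ hsurj
  rw [Fintype.card_units] at h1
  have hq1 : 1 < Fintype.card F := Fintype.one_lt_card
  omega

/-- parameters for the common neighbour when `-1` is not a square -/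
theorem exists_params_nonsquare [Fintype F] (h2 : (2 : F) ≠ 0) (hF : 4 ≤ Fintype.card F)
    (hm1 : ¬ IsSquare (-1 : F)) (τ : F) (hD : ¬ IsSquare (τ * τ - 4)) :
    ∃ m₁ m₂ ρ : F, m₁ ≠ 0 ∧ m₂ ≠ 0 ∧
      ρ * ρ = -((m₁ + m₁⁻¹) * (m₁ + m₁⁻¹) + (m₂ + m₂⁻¹) * (m₂ + m₂⁻¹) + τ * τ
        + τ * (m₁ + m₁⁻¹) * (m₂ + m₂⁻¹) - 4) := by
  classical
  obtain ⟨f, hf⟩ : ∃ f : F → F, f = fun M => M * M + τ * M + 1 := ⟨_, rfl⟩
  have hfv : ∀ M, f M = M * M + τ * M + 1 := by
    intro M
    rw [hf]
  have hf0 : ∀ M, f M ≠ 0 := by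
    intro M h
    apply hD
    refine ⟨2 * M + τ, ?_⟩
    rw [hfv] at h
    linear_combination -4 * h
  have hf1 : IsSquare (f 1 * f (-1)) := by
    have h := isSquare_mul_of_not hm1 hD
    have e : f 1 * f (-1) = -1 * (τ * τ - 4) := by
      rw [hfv, hfv]
      ring
    rw [e]
    exact h
  have hiff : IsSquare (f 1) ↔ IsSquare (f (-1)) := by
    constructor
    · intro h
      by_contra hn
      exact not_isSquare_mul h (hf0 1) hn hf1
    · intro h
      by_contra hn
      rw [mul_comm] at hf1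
      exact not_isSquare_mul h (hf0 (-1)) hn hf1
  -- a nonzero argument with non-square value
  obtain ⟨T, hT⟩ := exists_not_isSquare_sq_sub h2 (τ * τ - 4) hD
  obtain ⟨M₀, hM₀def⟩ : ∃ M₀ : F, M₀ = (T - τ) / 2 := ⟨_, rfl⟩
  have hM₀ : ¬ IsSquare (f M₀) := by
    rintro ⟨v, hv⟩
    apply hT
    refine ⟨2 * v, ?_⟩
    rw [hfv, hM₀def] at hv
    field_simp at hv
    linear_combination hv
  have hM₀0 : M₀ ≠ 0 := by
    intro h
    apply hM₀
    rw [h, hfv]
    exact ⟨1, by ring⟩
  -- a nonzero argument with square value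
  have hE1 : ∃ M₁ : F, M₁ ≠ 0 ∧ IsSquare (f M₁) := by
    by_cases hτ : τ = 0
    · have hex : ∃ u : F, u ≠ 0 ∧ u ≠ 1 ∧ u ≠ -1 := by
        by_contra hno
        push Not at hno
        have hsub : (Finset.univ : Finset F) ⊆ {0, 1, -1} := by
          intro s _
          simp only [Finset.mem_insert, Finset.mem_singleton]
          by_cases h : s = 0
          · left; exact h
          · by_cases h' : s = 1
            · right; left; exact h'
            · right; right; exact hno s h h'
        have h1 := Finset.card_le_card hsub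
        rw [Finset.card_univ] at h1
        have h3 : ({0, 1, -1} : Finset F).card ≤ 3 := Finset.card_le_three
        omega
      obtain ⟨u, hu0, hu1, hum1⟩ := hex
      refine ⟨(u⁻¹ - u) / 2, ?_, ?_⟩
      · intro h
        have h3 : (u - 1) * (u + 1) = 0 := by
          field_simp at h
          linear_combination -h
        rcases mul_eq_zero.mp h3 with h4 | h4
        · exact hu1 (sub_eq_zero.mp h4)
        · exact hum1 (eq_neg_of_add_eq_zero_left h4)
      · refine ⟨(u⁻¹ + u) / 2, ?_⟩
        rw [hfv, hτ]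
        field_simp
        ring
    · refine ⟨-τ, neg_ne_zero.mpr hτ, 1, ?_⟩
      rw [hfv]
      ring
  obtain ⟨M₁, hM₁0, hM₁⟩ := hE1
  have hpair : ∃ M M' : F, M ≠ 0 ∧ M' ≠ 0 ∧ IsSquare (M * M') ∧ ¬ IsSquare (f M * f M') := by
    by_cases hs1 : IsSquare (f 1)
    · by_cases hs : IsSquare M₀
      · refine ⟨1, M₀, one_ne_zero, hM₀0, ?_, not_isSquare_mul hs1 (hf0 1) hM₀⟩
        rw [one_mul]
        exact hs
      · exact ⟨-1, M₀, neg_ne_zero.mpr one_ne_zero, hM₀0, isSquare_mul_of_not hm1 hs,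
          not_isSquare_mul (hiff.mp hs1) (hf0 (-1)) hM₀⟩
    · by_cases hs : IsSquare M₁
      · refine ⟨M₁, 1, hM₁0, one_ne_zero, ?_, not_isSquare_mul hM₁ (hf0 M₁) hs1⟩
        rw [mul_one]
        exact hs
      · exact ⟨M₁, -1, hM₁0, neg_ne_zero.mpr one_ne_zero, isSquare_mul_of_not hs hm1,
          not_isSquare_mul hM₁ (hf0 M₁) (fun h => hs1 (hiff.mpr h))⟩
  obtain ⟨M, M', hM0, hM'0, ⟨m₁, hm₁⟩, hns⟩ := hpair
  have hm₁0 : m₁ ≠ 0 := by
    rintro rfl
    rw [mul_zero] at hm₁
    exact mul_ne_zero hM0 hM'0 hm₁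
  obtain ⟨r, hr⟩ := isSquare_mul_of_not hm1 hns
  have hm₂0 : M / m₁ ≠ 0 := div_ne_zero hM0 hm₁0
  refine ⟨m₁, M / m₁, r / m₁, hm₁0, hm₂0, ?_⟩
  have e1 : m₁ * (M / m₁) = M := by field_simp
  have e2 : m₁ / (M / m₁) = M' := by
    field_simp
    linear_combination -hm₁
  have key : ((m₁ + m₁⁻¹) * (m₁ + m₁⁻¹) + (M / m₁ + (M / m₁)⁻¹) * (M / m₁ + (M / m₁)⁻¹) + τ * τ
      + τ * (m₁ + m₁⁻¹) * (M / m₁ + (M / m₁)⁻¹) - 4) * (m₁ * m₁) =
      ((m₁ * (M / m₁)) * (m₁ * (M / m₁)) + τ * (m₁ * (M / m₁)) + 1) *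
        ((m₁ / (M / m₁)) * (m₁ / (M / m₁)) + τ * (m₁ / (M / m₁)) + 1) := by
    field_simp
    ring
  rw [e1, e2, ← hfv, ← hfv] at key
  have hmm : m₁ * m₁ ≠ 0 := mul_ne_zero hm₁0 hm₁0
  have e3 : r / m₁ * (r / m₁) = (r * r) / (m₁ * m₁) := by field_simp
  rw [e3, ← hr, neg_one_mul, ← key, neg_div, mul_div_assoc, div_self hmm, mul_one]

/-- two non-central trace-zero elements of `SL₂(q)`, `q ≥ 4`: either their product has odd
order in `PSL₂(q)`, or some trace-zero `z` has both products of odd order -/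
theorem exists_common_neighbour [Fintype F] (hF : 4 ≤ Fintype.card F)
    (x y : Matrix.SpecialLinearGroup (Fin 2) F) (hx : x.1.trace = 0) (hy : y.1.trace = 0)
    (hxc : x ∉ Subgroup.center (Matrix.SpecialLinearGroup (Fin 2) F))
    (hyc : y ∉ Subgroup.center (Matrix.SpecialLinearGroup (Fin 2) F)) :
    Odd (orderOf (QuotientGroup.mk (x * y) : Matrix.ProjectiveSpecialLinearGroup (Fin 2) F)) ∨
    ∃ z : Matrix.SpecialLinearGroup (Fin 2) F, z.1.trace = 0 ∧
      z ∉ Subgroup.center (Matrix.SpecialLinearGroup (Fin 2) F) ∧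
      Odd (orderOf (QuotientGroup.mk (x * z) :
        Matrix.ProjectiveSpecialLinearGroup (Fin 2) F)) ∧
      Odd (orderOf (QuotientGroup.mk (z * y) :
        Matrix.ProjectiveSpecialLinearGroup (Fin 2) F)) := by
  by_cases h2 : (2 : F) = 0
  · right
    obtain ⟨z, hz, hzc, h1, h2'⟩ := exists_z_char_two h2 hF x y hx hy hxc hyc
    exact ⟨z, hz, hzc, psl_odd_of_trace_ne_zero h2 _ h1, psl_odd_of_trace_ne_zero h2 _ h2'⟩
  · have h4 : (0 : F) * 0 ≠ 4 := by
      intro h
      apply h2
      have : (2 : F) * 2 = 0 := by linear_combination -h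
      rcases mul_eq_zero.mp this with h | h <;> exact h
    have hnc : ∀ A : Matrix.SpecialLinearGroup (Fin 2) F, A.1.trace = 0 →
        A ∉ Subgroup.center (Matrix.SpecialLinearGroup (Fin 2) F) := by
      intro A hA
      apply not_mem_center_of_trace h2
      rw [hA]
      exact h4
    obtain ⟨τ, hτ⟩ : ∃ τ : F, τ = (x * y).1.trace := ⟨_, rfl⟩
    by_cases hm1 : IsSquare (-1 : F)
    · by_cases hD0 : τ * τ - 4 = 0
      · left
        apply psl_odd_of_root h2 (x * y) (τ / 2) ?_ (Or.inl ?_)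
        · rw [← hτ]
          field_simp
          linear_combination -hD0
        · field_simp
          linear_combination hD0
      · right
        obtain ⟨i, hi⟩ := hm1
        obtain ⟨z, hz, hxz, hzy⟩ := exists_z_of_params x y hx hy
          (by rw [← hτ]; exact hD0) 2 2 (i * (τ + 2))
          (by rw [← hτ]; linear_combination (-(τ + 2) ^ 2) * hi)
        refine ⟨z, hz, hnc z hz, ?_, ?_⟩
        · apply psl_odd_of_root h2 (x * z) 1 ?_ (Or.inl (by ring))
          rw [hxz]
          ring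
        · apply psl_odd_of_root h2 (z * y) 1 ?_ (Or.inl (by ring))
          rw [hzy]
          ring
    · by_cases hD : IsSquare (τ * τ - 4)
      · left
        obtain ⟨d, hd⟩ := hD
        apply psl_odd_of_root h2 (x * y) ((τ + d) / 2) ?_ (Or.inr hm1)
        rw [← hτ]
        field_simp
        linear_combination -hd
      · right
        obtain ⟨m₁, m₂, ρ, hm₁, hm₂, hρ⟩ := exists_params_nonsquare h2 hF hm1 τ hD
        have hD0 : τ * τ - 4 ≠ 0 := fun h => hD ⟨0, by rw [h]; ring⟩
        obtain ⟨z, hz, hxz, hzy⟩ := exists_z_of_params x y hx hy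
          (by rw [← hτ]; exact hD0) (m₁ + m₁⁻¹) (m₂ + m₂⁻¹) ρ (by rw [← hτ]; exact hρ)
        refine ⟨z, hz, hnc z hz, ?_, ?_⟩
        · apply psl_odd_of_root h2 (x * z) m₁ ?_ (Or.inr hm1)
          rw [hxz]
          field_simp
          ring
        · apply psl_odd_of_root h2 (z * y) m₂ ?_ (Or.inr hm1)
          rw [hzy]
          field_simp
          ring

/-- the odd-product graph on the involutions of `PSL₂(q)`, `q ≥ 4`, is connected of
diameter `2` -/
theorem psl2_involution_graph [Fintype F] (hF : 4 ≤ Fintype.card F)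
    (t : Matrix.ProjectiveSpecialLinearGroup (Fin 2) F) (ht : orderOf t = 2) :
    (SimpleGraph.fromRel fun x y :
        {x : Matrix.ProjectiveSpecialLinearGroup (Fin 2) F // IsConj t x} =>
        Odd (orderOf (x.1 * y.1))).Connected ∧
      (SimpleGraph.fromRel fun x y :
        {x : Matrix.ProjectiveSpecialLinearGroup (Fin 2) F // IsConj t x} =>
        Odd (orderOf (x.1 * y.1))).diam = 2 := by
  classical
  obtain ⟨T₀, rfl⟩ := QuotientGroup.mk_surjective t
  obtain ⟨hT, hTc⟩ := tr_zero_of_psl_order_two T₀ ht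
  have hV1 : ∀ x : Matrix.SpecialLinearGroup (Fin 2) F, x.1.trace = 0 →
      x ∉ Subgroup.center (Matrix.SpecialLinearGroup (Fin 2) F) →
      IsConj (QuotientGroup.mk T₀ : Matrix.ProjectiveSpecialLinearGroup (Fin 2) F)
        (QuotientGroup.mk x) := by
    intro x hx hxc
    obtain ⟨g, hg⟩ := sl2_conj_of_tr_zero T₀ x hT hx hTc hxc
    rw [isConj_iff]
    refine ⟨QuotientGroup.mk g, ?_⟩
    rw [← hg]
    rfl
  have hV2 : ∀ v : {x : Matrix.ProjectiveSpecialLinearGroup (Fin 2) F //
      IsConj (QuotientGroup.mk T₀ : Matrix.ProjectiveSpecialLinearGroup (Fin 2) F) x},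
      ∃ x : Matrix.SpecialLinearGroup (Fin 2) F,
        (QuotientGroup.mk x : Matrix.ProjectiveSpecialLinearGroup (Fin 2) F) = v.1 ∧
        x.1.trace = 0 ∧ x ∉ Subgroup.center (Matrix.SpecialLinearGroup (Fin 2) F) := by
    intro v
    obtain ⟨x, hx⟩ := QuotientGroup.mk_surjective v.1
    have ho : orderOf (QuotientGroup.mk x :
        Matrix.ProjectiveSpecialLinearGroup (Fin 2) F) = 2 := by
      rw [hx]
      obtain ⟨c, hc⟩ := isConj_iff.mp v.2
      rw [← hc]
      have := (MulAut.conj c).orderOf_eq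
        (QuotientGroup.mk T₀ : Matrix.ProjectiveSpecialLinearGroup (Fin 2) F)
      rw [MulAut.conj_apply] at this
      rw [this]
      exact ht
    exact ⟨x, hx, tr_zero_of_psl_order_two x ho⟩
  apply connected_diam_eq_two
  · intro u v huv hadj
    obtain ⟨x, hxu, hx, hxc⟩ := hV2 u
    obtain ⟨y, hyv, hy, hyc⟩ := hV2 v
    rw [SimpleGraph.fromRel_adj] at hadj
    have hno : ¬ Odd (orderOf (u.1 * v.1)) := fun h => hadj ⟨huv, Or.inl h⟩
    rcases exists_common_neighbour hF x y hx hy hxc hyc with h | ⟨z, hz, hzc, h1, h2⟩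
    · exfalso
      apply hno
      rw [← hxu, ← hyv]
      exact h
    · have h1' : Odd (orderOf (u.1 * (QuotientGroup.mk z :
          Matrix.ProjectiveSpecialLinearGroup (Fin 2) F))) := by
        rw [← hxu]
        exact h1
      have h2' : Odd (orderOf ((QuotientGroup.mk z :
          Matrix.ProjectiveSpecialLinearGroup (Fin 2) F) * v.1)) := by
        rw [← hyv]
        exact h2
      obtain ⟨w, hw⟩ : ∃ w : {x : Matrix.ProjectiveSpecialLinearGroup (Fin 2) F //
          IsConj (QuotientGroup.mk T₀ : Matrix.ProjectiveSpecialLinearGroup (Fin 2) F) x},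
          w.1 = QuotientGroup.mk z := ⟨⟨QuotientGroup.mk z, hV1 z hz hzc⟩, rfl⟩
      rw [← hw] at h1' h2'
      have huw : u ≠ w := by
        intro h
        apply hno
        rw [h]
        exact h2'
      have hwv : w ≠ v := by
        intro h
        apply hno
        rw [← h]
        exact h1'
      refine ⟨w, ?_, ?_⟩
      · rw [SimpleGraph.fromRel_adj]
        exact ⟨huw, Or.inl h1'⟩
      · rw [SimpleGraph.fromRel_adj]
        exact ⟨hwv, Or.inl h2'⟩
  · obtain ⟨x, y, hx, hy, hxy, hyx, hxc, hyc, hxyc, hyxc⟩ := exists_commuting_tr_zero hF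
    have h1 := psl_order_two_of_tr_zero (x * y) hxy hxyc
    have h1' := psl_order_two_of_tr_zero (y * x) hyx hyxc
    have h2 := psl_order_two_of_tr_zero x hx hxc
    refine ⟨⟨QuotientGroup.mk x, hV1 x hx hxc⟩, ⟨QuotientGroup.mk y, hV1 y hy hyc⟩, ?_, ?_⟩
    · intro h
      have h' : (QuotientGroup.mk x : Matrix.ProjectiveSpecialLinearGroup (Fin 2) F) =
          QuotientGroup.mk y := congrArg Subtype.val h
      have h3 : (QuotientGroup.mk (x * y) :
          Matrix.ProjectiveSpecialLinearGroup (Fin 2) F) = 1 := by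
        have h4 := pow_orderOf_eq_one (QuotientGroup.mk x :
          Matrix.ProjectiveSpecialLinearGroup (Fin 2) F)
        rw [h2, pow_two] at h4
        rw [QuotientGroup.mk_mul, ← h']
        exact h4
      rw [h3, orderOf_one] at h1
      omega
    · rw [SimpleGraph.fromRel_adj]
      rintro ⟨-, h | h⟩
      · change Odd (orderOf (QuotientGroup.mk (x * y) :
          Matrix.ProjectiveSpecialLinearGroup (Fin 2) F)) at h
        rw [h1] at h
        exact Nat.not_odd_iff_even.mpr even_two h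
      · change Odd (orderOf (QuotientGroup.mk (y * x) :
          Matrix.ProjectiveSpecialLinearGroup (Fin 2) F)) at h
        rw [h1'] at h
        exact Nat.not_odd_iff_even.mpr even_two h

end PSL2Graph

end Cfsg.Agent.Lib.Helper39
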