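import Mathlib
import Cfsg.Agent.S4464
import Cfsg.Agent.Lib.Helper80.ItoConverse
import Cfsg.Agent.Lib.Helper81.MinNormal

set_option autoImplicit false
open Cfsg

/-!
# Groups whose nonlinear irreducible characters have prime degree: general lemmas
-/

namespace Cfsg.Agent.Lib.Helper39.PrimeDeg

open scoped ComplexConjugate

universe u

/-- If a character has no trivial constituent on a subgroup `P`, its sums over all left cosets
of `P` vanish. -/
theorem coset_sum_zero {G : Type u} [Group G] {χ : G → ℂ} (hχ : Cfsg.IsCharacter G χ)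
    (P : Subgroup G) [Fintype P] (h0 : ∑ y : P, χ y = 0) (g : G) :
    ∑ y : P, χ (g * y) = 0 := by
  classical
  obtain ⟨n, ρ, rfl⟩ := hχ
  have hP0 : (Nat.card P : ℂ) ≠ 0 := by exact_mod_cast Nat.card_pos.ne'
  have iP : Invertible (Nat.card P : ℂ) := invertibleOfNonzero hP0
  have eP := Representation.card_inv_mul_sum_char_eq_finrank (ρ.comp P.subtype)
  have hsum : ∑ h : P, Representation.character (ρ.comp P.subtype) h = 0 := h0
  rw [hsum, mul_zero] at eP
  have hfin : Module.finrank ℂ (Representation.invariants (ρ.comp P.subtype)) = 0 := by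
    exact_mod_cast eP.symm
  have hbot : Representation.invariants (ρ.comp P.subtype) = ⊥ :=
    Submodule.finrank_eq_zero.mp hfin
  have hA : ∑ y : P, ρ (y : G) = 0 := by
    apply LinearMap.ext
    intro v
    have hv : (∑ y : P, ρ (y : G)) v ∈ Representation.invariants (ρ.comp P.subtype) := by
      rw [Representation.mem_invariants]
      intro x
      simp only [LinearMap.sum_apply, map_sum]
      refine Fintype.sum_equiv (Equiv.mulLeft x) _ _ (fun y => ?_)
      simp only [Equiv.coe_mulLeft, Subgroup.coe_mul, map_mul]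
      rfl
    rw [hbot, Submodule.mem_bot] at hv
    rw [hv]
    rfl
  have h1 : ∀ y : P, ρ.character (g * y) = LinearMap.trace ℂ _ (ρ g * ρ (y : G)) := by
    intro y
    unfold Representation.character
    rw [map_mul]
  simp only [h1]
  rw [← map_sum, ← Finset.mul_sum, hA, mul_zero, map_zero]

/-- In a perfect group, the only linear character is the trivial one. -/
theorem linear_eq_irrOne {G : Type u} [Group G] [Finite G] (hperf : commutator G = ⊤)
    (χ : Cfsg.IrrCharacter G) (h : Cfsg.charDegree (χ : G → ℂ) = 1) :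
    χ = Cfsg.Agent.Lib.Helper74.irrOne G := by
  apply Subtype.ext
  funext g
  have h1 := Cfsg.Agent.Lib.Helper81.linear_one χ h
  have hc : g ∈ commutator G := by rw [hperf]; exact Subgroup.mem_top g
  rw [Cfsg.Agent.Lib.Helper81.linear_trivial_on
    (Cfsg.Agent.Lib.Helper3.isCharacter_of_irr χ.2) h1 hc]
  rfl

/-- The hypothesis "all nonlinear irreducible characters have prime degree" passes to normal
subgroups. -/
theorem prime_deg_normal {G : Type u} [Group G] [Finite G]
    (h : ∀ χ : Cfsg.IrrCharacter G, Cfsg.charDegree (χ : G → ℂ) ≠ 1 →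
      (Cfsg.charDegree (χ : G → ℂ)).Prime)
    (N : Subgroup G) [N.Normal] (θ : Cfsg.IrrCharacter N)
    (hθ : Cfsg.charDegree (θ : N → ℂ) ≠ 1) : (Cfsg.charDegree (θ : N → ℂ)).Prime := by
  classical
  have := Fintype.ofFinite G
  have : Fintype N := Fintype.ofFinite N
  obtain ⟨χ, hχ, hne⟩ := Cfsg.Agent.Lib.Helper80.exists_irr_over N θ.2
  obtain ⟨e, he⟩ := Cfsg.Agent.Lib.Helper80.charDegree_eq_mul_index_inertia N hχ θ.2 hne
  have hdvd : Cfsg.charDegree (θ : N → ℂ) ∣ Cfsg.charDegree χ := by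
    rw [he]; exact Dvd.intro_left _ rfl
  by_cases h1 : Cfsg.charDegree χ = 1
  · rw [h1] at hdvd
    exact absurd (Nat.dvd_one.mp hdvd) hθ
  · have hp := h ⟨χ, hχ⟩ h1
    rcases (Nat.dvd_prime hp).mp hdvd with h2 | h2
    · exact absurd h2 hθ
    · rw [h2]; exact hp

/-- The hypothesis passes to quotients. -/
theorem prime_deg_quotient {G : Type u} [Group G] [Finite G]
    (h : ∀ χ : Cfsg.IrrCharacter G, Cfsg.charDegree (χ : G → ℂ) ≠ 1 →
      (Cfsg.charDegree (χ : G → ℂ)).Prime)
    (N : Subgroup G) [N.Normal] (ψ : Cfsg.IrrCharacter (G ⧸ N))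
    (hψ : Cfsg.charDegree (ψ : G ⧸ N → ℂ) ≠ 1) : (Cfsg.charDegree (ψ : G ⧸ N → ℂ)).Prime :=
  h ⟨_, Cfsg.Agent.Lib.Helper80.isIrrCharacter_inflate N ψ.2⟩ hψ

/-- If an irreducible character `ψ` of a subgroup `K` has the largest possible degree, then
every element of `K` at which `ψ` does not vanish has all its conjugates in `K`. -/
theorem top_degree_conj {G : Type u} [Group G] [Finite G] (b : ℕ)
    (hb : ∀ χ : Cfsg.IrrCharacter G, Cfsg.charDegree (χ : G → ℂ) ≤ b)
    (K : Subgroup G) (ψ : Cfsg.IrrCharacter K) (hψ : Cfsg.charDegree (ψ : K → ℂ) = b)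
    (g : K) (hg : (ψ : K → ℂ) g ≠ 0) (x : G) : x⁻¹ * (g : G) * x ∈ K := by
  classical
  have := Fintype.ofFinite G
  have : Fintype K := Fintype.ofFinite K
  have := Fintype.ofFinite (Cfsg.IrrCharacter G)
  have := Fintype.ofFinite (Cfsg.IrrCharacter K)
  have hψc : Cfsg.IsCharacter K (ψ : K → ℂ) := Cfsg.Agent.Lib.Helper3.isCharacter_of_irr ψ.2
  have hθ : Cfsg.IsCharacter G (Cfsg.indFun K (ψ : K → ℂ)) :=
    Cfsg.Agent.Lib.Helper75.isCharacter_indFun K hψc
  obtain ⟨m, hm, hsum⟩ := Cfsg.Agent.Lib.Helper75.char_eq_sum_irr hθ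
  obtain ⟨hψ1, hψpos, -⟩ := Cfsg.Agent.Lib.Helper79.irr_charDegree ψ.2
  rw [hψ] at hψ1 hψpos
  have hdegK : ∀ φ : Cfsg.IrrCharacter K, (φ : K → ℂ) 1 = (Cfsg.charDegree (φ : K → ℂ) : ℂ) :=
    fun φ => (Cfsg.Agent.Lib.Helper79.irr_charDegree φ.2).1
  -- constituents of the induced character restrict to `ψ`
  have hres : ∀ χ : Cfsg.IrrCharacter G, m χ ≠ 0 → ∀ h : K, (χ : G → ℂ) h = (ψ : K → ℂ) h := by
    intro χ hχ
    have hχc : Cfsg.IsCharacter G (χ : G → ℂ) := Cfsg.Agent.Lib.Helper3.isCharacter_of_irr χ.2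
    have hfr := Cfsg.Agent.Lib.Helper75.frobenius_reciprocity K (ψ : K → ℂ)
      (Cfsg.Agent.Lib.Helper3.isClassFunction_of_isCharacter hχc)
    rw [hm χ] at hfr
    have hresc : Cfsg.IsCharacter K (fun h : K => (χ : G → ℂ) h) :=
      Cfsg.Agent.Lib.Helper75.isCharacter_res K hχc
    obtain ⟨k, hk, hksum⟩ := Cfsg.Agent.Lib.Helper75.char_eq_sum_irr hresc
    have hkψ : k ψ = m χ := by
      have h1 := hk ψ
      rw [Cfsg.Agent.Lib.Helper75.classInner_conj_symm, ← hfr] at h1
      simp only [Complex.conj_natCast] at h1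
      exact_mod_cast h1.symm
    obtain ⟨hχ1, -, -⟩ := Cfsg.Agent.Lib.Helper79.irr_charDegree χ.2
    have hdeg : Cfsg.charDegree (χ : G → ℂ) =
        ∑ φ : Cfsg.IrrCharacter K, k φ * Cfsg.charDegree (φ : K → ℂ) := by
      have h1 : (χ : G → ℂ) 1 = ∑ φ : Cfsg.IrrCharacter K, (k φ : ℂ) * (φ : K → ℂ) 1 := by
        have h2 := congrFun hksum 1
        simp only [Finset.sum_apply, Pi.smul_apply, smul_eq_mul] at h2
        exact h2
      rw [hχ1] at h1
      simp only [hdegK] at h1
      exact_mod_cast h1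
    have hle := hb χ
    rw [hdeg, ← Finset.add_sum_erase _ _ (Finset.mem_univ ψ), hkψ, hψ] at hle
    have hm1 : m χ = 1 := by
      have h1 : m χ * b ≤ b := le_trans (Nat.le_add_right _ _) hle
      have h2 : 1 ≤ m χ := Nat.pos_of_ne_zero hχ
      have h3 : m χ * b ≤ 1 * b := by rw [one_mul]; exact h1
      have h4 := Nat.le_of_mul_le_mul_right h3 hψpos
      omega
    rw [hm1, one_mul] at hle
    have hzero : ∑ φ ∈ Finset.univ.erase ψ, k φ * Cfsg.charDegree (φ : K → ℂ) = 0 := by omega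
    have hk0 : ∀ φ : Cfsg.IrrCharacter K, φ ≠ ψ → k φ = 0 := by
      intro φ hφ
      have h1 := (Finset.sum_eq_zero_iff.mp hzero) φ (Finset.mem_erase.mpr ⟨hφ, Finset.mem_univ _⟩)
      have h2 := (Cfsg.Agent.Lib.Helper79.irr_charDegree φ.2).2.1
      rcases Nat.mul_eq_zero.mp h1 with h3 | h3
      · exact h3
      · omega
    intro h
    have h2 := congrFun hksum h
    simp only [Finset.sum_apply, Pi.smul_apply, smul_eq_mul] at h2
    rw [h2, Finset.sum_eq_single ψ]
    · rw [hkψ, hm1]; simp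
    · intro φ _ hφ
      rw [hk0 φ hφ]; simp
    · intro hcon
      exact absurd (Finset.mem_univ ψ) hcon
  -- values of the induced character on `K`
  have hθK : ∀ h : K, Cfsg.indFun K (ψ : K → ℂ) h =
      ((∑ χ : Cfsg.IrrCharacter G, m χ : ℕ) : ℂ) * (ψ : K → ℂ) h := by
    intro h
    have h2 := congrFun hsum h
    simp only [Finset.sum_apply, Pi.smul_apply, smul_eq_mul] at h2
    rw [h2]
    push_cast
    rw [Finset.sum_mul]
    refine Finset.sum_congr rfl (fun χ _ => ?_)
    by_cases hχ : m χ = 0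
    · rw [hχ]; simp
    · rw [hres χ hχ h]
  have hM : ∑ χ : Cfsg.IrrCharacter G, m χ = K.index := by
    have h1 := hθK 1
    have h2 := Cfsg.Agent.Lib.Helper75.indFun_one K (ψ : K → ℂ)
    have h3 : (((1 : K) : G)) = 1 := rfl
    rw [h3, h2, hψ1] at h1
    have hb0 : (b : ℂ) ≠ 0 := by exact_mod_cast hψpos.ne'
    have h4 := mul_right_cancel₀ hb0 h1
    exact_mod_cast h4.symm
  rw [hM] at hθK
  have hidx : (K.index : ℂ) ≠ 0 := by
    exact_mod_cast (Subgroup.index_ne_zero_of_finite (H := K))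
  have hK0 : (Nat.card K : ℂ) ≠ 0 := by exact_mod_cast Nat.card_pos.ne'
  have hcf := Cfsg.Agent.Lib.Helper75.indFun_isClassFunction K (ψ : K → ℂ)
  -- compute the induced character at `g`
  have hext : ∀ y : G, Cfsg.extendByZero K (ψ : K → ℂ) (y⁻¹ * (g : G) * y) =
      if y⁻¹ * (g : G) * y ∈ K then (ψ : K → ℂ) g else 0 := by
    intro y
    split_ifs with hy
    · rw [Cfsg.Agent.Lib.Helper75.extendByZero_mem K _ hy]
      have h1 := hθK ⟨y⁻¹ * (g : G) * y, hy⟩
      have h2 := hθK g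
      have h3 : Cfsg.indFun K (ψ : K → ℂ) (y⁻¹ * (g : G) * y) =
          Cfsg.indFun K (ψ : K → ℂ) (g : G) := by
        have := hcf (g : G) y⁻¹
        rw [inv_inv] at this
        exact this
      have h4 : (K.index : ℂ) * (ψ : K → ℂ) ⟨y⁻¹ * (g : G) * y, hy⟩ =
          (K.index : ℂ) * (ψ : K → ℂ) g := by
        rw [← h1, ← h2]
        exact h3
      exact mul_left_cancel₀ hidx h4
    · rw [Cfsg.Agent.Lib.Helper75.extendByZero_not_mem K _ hy]
  have hval : Cfsg.indFun K (ψ : K → ℂ) (g : G) = (Nat.card K : ℂ)⁻¹ *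
      (((Finset.univ.filter (fun y : G => y⁻¹ * (g : G) * y ∈ K)).card : ℂ) *
        (ψ : K → ℂ) g) := by
    unfold Cfsg.indFun
    congr 1
    simp only [hext]
    rw [← Finset.sum_filter, Finset.sum_const, nsmul_eq_mul]
  rw [hθK g] at hval
  have hcard : (Finset.univ.filter (fun y : G => y⁻¹ * (g : G) * y ∈ K)).card = Nat.card G := by
    have h1 : (K.index : ℂ) * (Nat.card K : ℂ) =
        ((Finset.univ.filter (fun y : G => y⁻¹ * (g : G) * y ∈ K)).card : ℂ) := by
      have h2 : (K.index : ℂ) * (ψ : K → ℂ) g * (Nat.card K : ℂ) =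
          ((Finset.univ.filter (fun y : G => y⁻¹ * (g : G) * y ∈ K)).card : ℂ) *
            (ψ : K → ℂ) g := by
        rw [hval]
        field_simp
      have h3 : (K.index : ℂ) * (Nat.card K : ℂ) * (ψ : K → ℂ) g =
          ((Finset.univ.filter (fun y : G => y⁻¹ * (g : G) * y ∈ K)).card : ℂ) *
            (ψ : K → ℂ) g := by
        rw [← h2]; ring
      exact mul_right_cancel₀ hg h3
    rw [← K.card_mul_index, mul_comm]
    exact_mod_cast h1.symm
  have huniv : Finset.univ.filter (fun y : G => y⁻¹ * (g : G) * y ∈ K) = Finset.univ := by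
    apply Finset.eq_univ_of_card
    rw [hcard, Nat.card_eq_fintype_card]
  have hx : x ∈ Finset.univ.filter (fun y : G => y⁻¹ * (g : G) * y ∈ K) := by
    rw [huniv]; exact Finset.mem_univ x
  exact (Finset.mem_filter.mp hx).2

/-- In a group whose only normal subgroups are trivial, proper subgroups have smaller
irreducible character degrees than the largest degree `b > 1` of the group. -/
theorem degree_lt_of_proper {G : Type u} [Group G] [Finite G]
    (hsimple : ∀ N : Subgroup G, N.Normal → N = ⊥ ∨ N = ⊤) (b : ℕ) (hb1 : 1 < b)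
    (hb : ∀ χ : Cfsg.IrrCharacter G, Cfsg.charDegree (χ : G → ℂ) ≤ b)
    (K : Subgroup G) (hK : K ≠ ⊤) (ψ : Cfsg.IrrCharacter K) :
    Cfsg.charDegree (ψ : K → ℂ) < b := by
  classical
  have : Fintype K := Fintype.ofFinite K
  obtain ⟨χ, hχ⟩ := Cfsg.Agent.S4464.exists_irr_degree_ge K ψ
  have hle : Cfsg.charDegree (ψ : K → ℂ) ≤ b := le_trans hχ (hb χ)
  refine lt_of_le_of_ne hle (fun hψ => ?_)
  have hcore : K.normalCore = ⊥ := by
    rcases hsimple K.normalCore inferInstance with h | h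
    · exact h
    · exact absurd (top_le_iff.mp (h ▸ K.normalCore_le)) hK
  have hvan : ∀ g : K, g ≠ 1 → (ψ : K → ℂ) g = 0 := by
    intro g hg1
    by_contra hne
    apply hg1
    have hmem : (g : G) ∈ K.normalCore := by
      intro y
      have := top_degree_conj b hb K ψ hψ g hne y⁻¹
      rw [inv_inv] at this
      exact this
    rw [hcore, Subgroup.mem_bot] at hmem
    exact Subtype.ext hmem
  obtain ⟨hψ1, -, -⟩ := Cfsg.Agent.Lib.Helper79.irr_charDegree ψ.2
  rw [hψ] at hψ1
  have hinner : Cfsg.classInner (ψ : K → ℂ) (Cfsg.Agent.Lib.Helper74.irrOne K : K → ℂ) =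
      (Nat.card K : ℂ)⁻¹ * b := by
    unfold Cfsg.classInner
    congr 1
    rw [Finset.sum_eq_single (1 : K)]
    · rw [hψ1, Cfsg.Agent.Lib.Helper74.irrOne_apply]; simp
    · intro g _ hg1
      rw [hvan g hg1, zero_mul]
    · intro hcon
      exact absurd (Finset.mem_univ _) hcon
  by_cases heq : (ψ : K → ℂ) = (Cfsg.Agent.Lib.Helper74.irrOne K : K → ℂ)
  · rw [heq, Cfsg.Agent.Lib.Helper74.irrOne_apply] at hψ1
    have : b = 1 := by exact_mod_cast hψ1.symm
    omega
  · rw [Cfsg.Agent.Lib.Helper3.classInner_irr_ne ψ.2 (Cfsg.Agent.Lib.Helper74.irrOne K).2 heq]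
      at hinner
    have hK0 : (Nat.card K : ℂ) ≠ 0 := by exact_mod_cast Nat.card_pos.ne'
    have hb0 : (b : ℂ) ≠ 0 := by exact_mod_cast (by omega : b ≠ 0)
    exact mul_ne_zero (inv_ne_zero hK0) hb0 hinner.symm

end Cfsg.Agent.Lib.Helper39.PrimeDeg
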