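import Mathlib
import Cfsg.Agent.S4464
import Cfsg.Agent.Lib.Helper39.PrimeDegA

set_option autoImplicit false
open Cfsg

/-!
# Groups whose nonlinear irreducible characters have prime degree: the permutation character
on the cosets of the normalizer of a Sylow subgroup
-/

namespace Cfsg.Agent.Lib.Helper39.PrimeDeg

open scoped ComplexConjugate

universe u

/-- The refined counting argument with the permutation character on the cosets of `N`: when all
degrees are at most `p ≤ |P|` and nontrivial elements of `P` fix a single coset. -/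
theorem key_count2 {G : Type u} [Group G] [Fintype G] (p : ℕ) (P N : Subgroup G)
    [Fintype P] [Fintype N]
    (hPN : P ≤ N)
    (hfix : ∀ x ∈ P, x ≠ 1 → ∀ y : G, y⁻¹ * x * y ∈ N → y ∈ N)
    (hcard : p ≤ Nat.card P) (hN : N.index ≠ 1)
    (hb : ∀ χ : Cfsg.IrrCharacter G, Cfsg.charDegree (χ : G → ℂ) ≤ p) :
    Nat.card P = p ∧ ∃ A : Finset (Cfsg.IrrCharacter G), N.index = 1 + p * A.card ∧
      (∀ g : G, Cfsg.indFun N (fun _ => (1 : ℂ)) g = 1 + ∑ χ ∈ A, (χ : G → ℂ) g) ∧
      (∀ χ ∈ A, (∑ h : N, (χ : G → ℂ) h = (Nat.card N : ℂ)) ∧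
        ∑ h : P, (χ : G → ℂ) h = (Nat.card P : ℂ)) := by
  classical
  have := Fintype.ofFinite (Cfsg.IrrCharacter G)
  have hN0 : (Nat.card N : ℂ) ≠ 0 := by exact_mod_cast Nat.card_pos.ne'
  have hP0 : (Nat.card P : ℂ) ≠ 0 := by exact_mod_cast Nat.card_pos.ne'
  have hdata : ∀ χ : Cfsg.IrrCharacter G, ∃ a c : ℕ, a ≤ c ∧
      (Nat.card N : ℂ)⁻¹ * ∑ h : N, (χ : G → ℂ) h = a ∧
      (Nat.card P : ℂ)⁻¹ * ∑ h : P, (χ : G → ℂ) h = c :=
    fun χ => Cfsg.Agent.S4464.avg_fixed (Cfsg.Agent.Lib.Helper3.isCharacter_of_irr χ.2) P N hPN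
  choose a c hac ha hc using hdata
  -- expansion of the permutation character
  have hexp : ∀ g : G, Cfsg.indFun N (fun _ => (1 : ℂ)) g =
      ∑ χ : Cfsg.IrrCharacter G, (a χ : ℂ) * (χ : G → ℂ) g := by
    intro g
    have h1 := congrFun (Cfsg.Agent.Lib.Helper3.classFunction_expansion'
      (Cfsg.Agent.Lib.Helper75.indFun_isClassFunction N (fun _ => (1 : ℂ)))) g
    rw [h1]
    simp only [Finset.sum_apply, Pi.smul_apply, smul_eq_mul]
    refine Finset.sum_congr rfl (fun χ _ => ?_)
    congr 1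
    rw [Cfsg.Agent.Lib.Helper75.frobenius_reciprocity N _
      (Cfsg.Agent.Lib.Helper3.isClassFunction_of_isCharacter
        (Cfsg.Agent.Lib.Helper3.isCharacter_of_irr χ.2))]
    unfold Cfsg.classInner
    have h2 : ∑ h : N, (1 : ℂ) * conj ((χ : G → ℂ) h) = conj (∑ h : N, (χ : G → ℂ) h) := by
      rw [map_sum]
      simp
    rw [h2]
    have h3 := congrArg conj (ha χ)
    rw [map_mul, map_inv₀, Complex.conj_natCast, Complex.conj_natCast] at h3
    exact h3
  have hdegc : ∀ χ : Cfsg.IrrCharacter G,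
      (χ : G → ℂ) 1 = (Cfsg.charDegree (χ : G → ℂ) : ℂ) :=
    fun χ => (Cfsg.Agent.Lib.Helper79.irr_charDegree χ.2).1
  -- value at 1
  have E1 : N.index = ∑ χ : Cfsg.IrrCharacter G, a χ * Cfsg.charDegree (χ : G → ℂ) := by
    have h := hexp 1
    rw [Cfsg.Agent.Lib.Helper75.indFun_one, mul_one] at h
    simp only [hdegc] at h
    exact_mod_cast h
  -- values on P
  have hπP : ∀ x : P, Cfsg.indFun N (fun _ => (1 : ℂ)) (x : G) =
      if (x : G) = 1 then (N.index : ℂ) else 1 := by
    intro x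
    rw [Cfsg.Agent.Lib.Helper15.indFun_one_apply]
    split_ifs with hx
    · have e : (Finset.univ.filter (fun y : G => y⁻¹ * (x : G) * y ∈ N)) = Finset.univ := by
        ext y
        simp only [Finset.mem_filter, Finset.mem_univ, true_and, iff_true]
        rw [hx]
        simp
      rw [e, Finset.card_univ, ← Nat.card_eq_fintype_card, ← N.card_mul_index]
      push_cast
      field_simp
    · have e : (Finset.univ.filter (fun y : G => y⁻¹ * (x : G) * y ∈ N)) =
          Finset.univ.filter (fun y : G => y ∈ N) := by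
        ext y
        simp only [Finset.mem_filter, Finset.mem_univ, true_and]
        constructor
        · exact hfix x x.2 hx y
        · intro hy
          exact N.mul_mem (N.mul_mem (N.inv_mem hy) (hPN x.2)) hy
      have e3 : (Finset.univ.filter (fun y : G => y ∈ N)).card = Nat.card N := by
        rw [Nat.card_eq_fintype_card, Fintype.card_subtype]
      rw [e, e3]
      field_simp
  have hPpos : 0 < Nat.card P := Nat.card_pos
  have hsumP : ∑ x : P, Cfsg.indFun N (fun _ => (1 : ℂ)) (x : G) =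
      (N.index : ℂ) + ((Nat.card P : ℂ) - 1) := by
    simp only [hπP]
    rw [Finset.sum_ite]
    simp only [Finset.sum_const, nsmul_eq_mul, mul_one]
    have h1 : (Finset.univ.filter (fun x : P => (x : G) = 1)).card = 1 := by
      rw [Finset.card_eq_one]
      refine ⟨1, ?_⟩
      ext x
      simp only [Finset.mem_filter, Finset.mem_univ, true_and, Finset.mem_singleton]
      exact ⟨fun h => Subtype.ext h, fun h => by rw [h]; rfl⟩
    have h2 : (Finset.univ.filter (fun x : P => ¬ (x : G) = 1)).card =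
        Nat.card P - 1 := by
      rw [Finset.filter_not, Finset.card_sdiff_of_subset (Finset.filter_subset _ _), h1,
        Finset.card_univ, Nat.card_eq_fintype_card]
    rw [h1, h2]
    push_cast [Nat.cast_sub hPpos]
    ring
  have hsumP' : ∑ x : P, Cfsg.indFun N (fun _ => (1 : ℂ)) (x : G) =
      ∑ χ : Cfsg.IrrCharacter G, (a χ : ℂ) * ((Nat.card P : ℂ) * c χ) := by
    simp only [hexp]
    rw [Finset.sum_comm]
    refine Finset.sum_congr rfl (fun χ _ => ?_)
    rw [← Finset.mul_sum]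
    congr 1
    rw [← hc χ]
    field_simp
  have E2 : ∑ χ : Cfsg.IrrCharacter G, a χ * (Nat.card P * c χ) =
      N.index + (Nat.card P - 1) := by
    have h := hsumP'.symm.trans hsumP
    have h' : ((∑ χ : Cfsg.IrrCharacter G, a χ * (Nat.card P * c χ) : ℕ) : ℂ) =
        ((N.index + (Nat.card P - 1) : ℕ) : ℂ) := by
      push_cast [Nat.cast_sub hPpos]
      exact h
    exact_mod_cast h'
  -- the trivial character
  have ha0 : a (Cfsg.Agent.Lib.Helper74.irrOne G) = 1 := by
    have h := ha (Cfsg.Agent.Lib.Helper74.irrOne G)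
    have h2 : ∑ h : N, (Cfsg.Agent.Lib.Helper74.irrOne G : G → ℂ) h = (Nat.card N : ℂ) := by
      simp [Cfsg.Agent.Lib.Helper74.irrOne_apply, Nat.card_eq_fintype_card]
    rw [h2, inv_mul_cancel₀ hN0] at h
    exact_mod_cast h.symm
  have hc0 : c (Cfsg.Agent.Lib.Helper74.irrOne G) = 1 := by
    have h := hc (Cfsg.Agent.Lib.Helper74.irrOne G)
    have h2 : ∑ h : P, (Cfsg.Agent.Lib.Helper74.irrOne G : G → ℂ) h = (Nat.card P : ℂ) := by
      simp [Cfsg.Agent.Lib.Helper74.irrOne_apply, Nat.card_eq_fintype_card]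
    rw [h2, inv_mul_cancel₀ hP0] at h
    exact_mod_cast h.symm
  have hd0 : Cfsg.charDegree (Cfsg.Agent.Lib.Helper74.irrOne G : G → ℂ) = 1 := by
    have h := hdegc (Cfsg.Agent.Lib.Helper74.irrOne G)
    rw [Cfsg.Agent.Lib.Helper74.irrOne_apply] at h
    exact_mod_cast h.symm
  -- arithmetic
  have hmem : Cfsg.Agent.Lib.Helper74.irrOne G ∈ (Finset.univ : Finset (Cfsg.IrrCharacter G)) :=
    Finset.mem_univ _
  have E1' : N.index = 1 + ∑ χ ∈ Finset.univ.erase (Cfsg.Agent.Lib.Helper74.irrOne G),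
      a χ * Cfsg.charDegree (χ : G → ℂ) := by
    rw [E1, ← Finset.add_sum_erase _ _ hmem, ha0, hd0]
  have E2' : Nat.card P + ∑ χ ∈ Finset.univ.erase (Cfsg.Agent.Lib.Helper74.irrOne G),
      Nat.card P * (a χ * c χ) = N.index + (Nat.card P - 1) := by
    rw [← E2, ← Finset.add_sum_erase _ _ hmem, ha0, hc0]
    congr 1
    · ring
    · refine Finset.sum_congr rfl (fun χ _ => ?_)
      ring
  have hterm : ∀ χ ∈ Finset.univ.erase (Cfsg.Agent.Lib.Helper74.irrOne G),
      a χ * Cfsg.charDegree (χ : G → ℂ) ≤ Nat.card P * (a χ * c χ) := by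
    intro χ _
    rcases Nat.eq_zero_or_pos (a χ) with h | h
    · simp [h]
    · have h1 : 1 ≤ c χ := lt_of_lt_of_le h (hac χ)
      calc a χ * Cfsg.charDegree (χ : G → ℂ) ≤ a χ * Nat.card P :=
            Nat.mul_le_mul_left _ (le_trans (hb χ) hcard)
        _ = Nat.card P * (a χ * 1) := by ring
        _ ≤ Nat.card P * (a χ * c χ) :=
            Nat.mul_le_mul_left _ (Nat.mul_le_mul_left _ h1)
  have hsumeq : ∑ χ ∈ Finset.univ.erase (Cfsg.Agent.Lib.Helper74.irrOne G),
      a χ * Cfsg.charDegree (χ : G → ℂ) =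
      ∑ χ ∈ Finset.univ.erase (Cfsg.Agent.Lib.Helper74.irrOne G),
        Nat.card P * (a χ * c χ) := by
    rw [E1'] at E2'
    omega
  have hteq := (Finset.sum_eq_sum_iff_of_le hterm).mp hsumeq
  -- the structure of constituents
  have hstruct : ∀ χ : Cfsg.IrrCharacter G, χ ≠ Cfsg.Agent.Lib.Helper74.irrOne G → a χ ≠ 0 →
      Nat.card P = p ∧ a χ = 1 ∧ c χ = 1 ∧ Cfsg.charDegree (χ : G → ℂ) = p := by
    intro χ hχ1 hχa
    have h1 := hteq χ (Finset.mem_erase.mpr ⟨hχ1, Finset.mem_univ _⟩)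
    have h2 : Cfsg.charDegree (χ : G → ℂ) = Nat.card P * c χ := by
      have h3 : a χ * Cfsg.charDegree (χ : G → ℂ) = a χ * (Nat.card P * c χ) := by
        rw [h1]; ring
      exact Nat.eq_of_mul_eq_mul_left (Nat.pos_of_ne_zero hχa) h3
    have h3 : 1 ≤ a χ := Nat.pos_of_ne_zero hχa
    have h4 : a χ ≤ c χ := hac χ
    have h5 := hb χ
    have h6 : Nat.card P * c χ ≤ Nat.card P * 1 := by
      rw [mul_one, ← h2]; exact le_trans h5 hcard
    have h7 : c χ ≤ 1 := Nat.le_of_mul_le_mul_left h6 hPpos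
    have h8 : c χ = 1 := by omega
    rw [h8, mul_one] at h2
    refine ⟨by omega, by omega, h8, by omega⟩
  have hex : ∃ χ : Cfsg.IrrCharacter G, χ ≠ Cfsg.Agent.Lib.Helper74.irrOne G ∧ a χ ≠ 0 := by
    by_contra hcon
    push Not at hcon
    apply hN
    rw [E1']
    have : ∑ χ ∈ Finset.univ.erase (Cfsg.Agent.Lib.Helper74.irrOne G),
        a χ * Cfsg.charDegree (χ : G → ℂ) = 0 := by
      apply Finset.sum_eq_zero
      intro χ hχ
      rw [hcon χ (Finset.mem_erase.mp hχ).1, zero_mul]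
    rw [this]
  obtain ⟨χ₀, hχ₀1, hχ₀a⟩ := hex
  have hPp : Nat.card P = p := (hstruct χ₀ hχ₀1 hχ₀a).1
  refine ⟨hPp, (Finset.univ.erase (Cfsg.Agent.Lib.Helper74.irrOne G)).filter (fun χ => a χ ≠ 0),
    ?_, ?_, ?_⟩
  · rw [E1']
    congr 1
    rw [← Finset.sum_filter_of_ne (p := fun χ => a χ ≠ 0)]
    · rw [Finset.sum_congr rfl (g := fun _ => p)]
      · rw [Finset.sum_const, smul_eq_mul, mul_comm]
      · intro χ hχ
        rw [Finset.mem_filter] at hχ
        obtain ⟨-, h2, -, h4⟩ := hstruct χ (Finset.mem_erase.mp hχ.1).1 hχ.2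
        rw [h2, h4, one_mul]
    · intro χ _ hne h0
      apply hne
      rw [h0, zero_mul]
  · intro g
    rw [hexp g, ← Finset.add_sum_erase _ _ hmem, ha0, Cfsg.Agent.Lib.Helper74.irrOne_apply]
    congr 1
    · simp
    · rw [← Finset.sum_filter_of_ne (p := fun χ => a χ ≠ 0)]
      · refine Finset.sum_congr rfl (fun χ hχ => ?_)
        rw [Finset.mem_filter] at hχ
        obtain ⟨-, h2, -, -⟩ := hstruct χ (Finset.mem_erase.mp hχ.1).1 hχ.2
        rw [h2]; simp
      · intro χ _ hne h0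
        apply hne
        rw [h0]; simp
  · intro χ hχ
    rw [Finset.mem_filter] at hχ
    obtain ⟨-, h2, h3, -⟩ := hstruct χ (Finset.mem_erase.mp hχ.1).1 hχ.2
    constructor
    · have h := ha χ
      rw [h2] at h
      have h5 : ∑ h : N, (χ : G → ℂ) h = (Nat.card N : ℂ) * ((Nat.card N : ℂ)⁻¹ *
          ∑ h : N, (χ : G → ℂ) h) := by field_simp
      rw [h5, h]; simp
    · have h := hc χ
      rw [h3] at h
      have h5 : ∑ h : P, (χ : G → ℂ) h = (Nat.card P : ℂ) * ((Nat.card P : ℂ)⁻¹ *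
          ∑ h : P, (χ : G → ℂ) h) := by field_simp
      rw [h5, h]; simp

theorem conj_inv_pow {G : Type u} [Group G] (y z : G) (k : ℕ) :
    (y⁻¹ * z * y) ^ k = y⁻¹ * z ^ k * y := by
  induction k with
  | zero => simp
  | succ k ih => rw [pow_succ, ih, pow_succ]; group

/-- The centralizer of `P` is `P` itself. -/
theorem centralizer_le {G : Type u} [Group G] [Fintype G] (p : ℕ) (hp : p.Prime)
    (P N : Subgroup G) [Fintype P] [Fintype N]
    (hPN : P ≤ N)
    (hfix : ∀ x ∈ P, x ≠ 1 → ∀ y : G, y⁻¹ * x * y ∈ N → y ∈ N)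
    (hab : ∀ x ∈ P, ∀ y ∈ P, x * y = y * x)
    (hpN : ∀ w ∈ N, orderOf w = p → w ∈ P)
    (hcore : ∀ g : G, (∀ y : G, y⁻¹ * g * y ∈ N) → g = 1)
    (hPp : Nat.card P = p) (A : Finset (Cfsg.IrrCharacter G))
    (hidx : N.index = 1 + p * A.card) (hA0 : A.card ≠ 0)
    (hπ : ∀ g : G, Cfsg.indFun N (fun _ => (1 : ℂ)) g = 1 + ∑ χ ∈ A, (χ : G → ℂ) g)
    (hA : ∀ χ ∈ A, (∑ h : N, (χ : G → ℂ) h = (Nat.card N : ℂ)) ∧
      ∑ h : P, (χ : G → ℂ) h = (Nat.card P : ℂ)) :
    ∀ g : G, (∀ x ∈ P, g * x = x * g) → g ∈ P := by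
  classical
  have hN0 : (Nat.card N : ℂ) ≠ 0 := by exact_mod_cast Nat.card_pos.ne'
  have hP0 : (Nat.card P : ℂ) ≠ 0 := by exact_mod_cast Nat.card_pos.ne'
  have hNpos : 0 < Nat.card N := Nat.card_pos
  set Z : Subgroup G := Subgroup.centralizer (P : Set G) with hZ
  have : Fintype Z := Fintype.ofFinite Z
  have hZ0 : (Nat.card Z : ℂ) ≠ 0 := by exact_mod_cast Nat.card_pos.ne'
  have hPZ : P ≤ Z := by
    intro x hx
    rw [hZ, Subgroup.mem_centralizer_iff]
    intro h hh
    exact hab h hh x hx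
  have hPbot : P ≠ ⊥ := by
    intro h
    rw [h, Subgroup.card_bot] at hPp
    rw [← hPp] at hp
    exact Nat.not_prime_one hp
  obtain ⟨x₀, hx₀⟩ := (Subgroup.ne_bot_iff_exists_ne_one).mp hPbot
  have hx₀1 : (x₀ : G) ≠ 1 := fun h => hx₀ (Subtype.ext h)
  have hZN : Z ≤ N := by
    intro z hz
    rw [hZ, Subgroup.mem_centralizer_iff] at hz
    apply hfix x₀ x₀.2 hx₀1
    have h1 := hz x₀ x₀.2
    have h2 : z⁻¹ * (x₀ : G) * z = x₀ := by
      rw [mul_assoc, h1, inv_mul_cancel_left]
    rw [h2]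
    exact hPN x₀.2
  -- averages over Z
  have havgZ : ∀ χ ∈ A, ∑ z : Z, (χ : G → ℂ) z = (Nat.card Z : ℂ) := by
    intro χ hχ
    have hχc := Cfsg.Agent.Lib.Helper3.isCharacter_of_irr χ.2
    obtain ⟨a₁, c₁, h1, h2, h3⟩ := Cfsg.Agent.S4464.avg_fixed hχc P Z hPZ
    obtain ⟨a₂, c₂, h4, h5, h6⟩ := Cfsg.Agent.S4464.avg_fixed hχc Z N hZN
    rw [(hA χ hχ).2, inv_mul_cancel₀ hP0] at h3
    rw [(hA χ hχ).1, inv_mul_cancel₀ hN0] at h5
    have hc1 : c₁ = 1 := by exact_mod_cast h3.symm
    have ha2 : a₂ = 1 := by exact_mod_cast h5.symm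
    have hac : a₁ = c₂ := by
      have := h2.symm.trans h6
      exact_mod_cast this
    have ha1 : a₁ = 1 := by omega
    rw [ha1] at h2
    have h7 : ∑ z : Z, (χ : G → ℂ) z = (Nat.card Z : ℂ) * ((Nat.card Z : ℂ)⁻¹ *
        ∑ z : Z, (χ : G → ℂ) z) := by field_simp
    rw [h7, h2]; simp
  have hsumZ : ∑ z : Z, Cfsg.indFun N (fun _ => (1 : ℂ)) (z : G) =
      (Nat.card Z : ℂ) * (1 + A.card) := by
    simp only [hπ]
    rw [Finset.sum_add_distrib, Finset.sum_comm, Finset.sum_congr rfl havgZ]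
    simp only [Finset.sum_const, Finset.card_univ, nsmul_eq_mul, mul_one]
    rw [← Nat.card_eq_fintype_card]
    ring
  -- the fixed point counts
  set f : G → ℕ := fun z => (Finset.univ.filter (fun y : G => y⁻¹ * z * y ∈ N)).card with hf
  have hπf : ∀ z : G, Cfsg.indFun N (fun _ => (1 : ℂ)) z = (Nat.card N : ℂ)⁻¹ * (f z : ℂ) := by
    intro z
    rw [Cfsg.Agent.Lib.Helper15.indFun_one_apply]
  have hsumf : ∑ z : Z, f (z : G) = Nat.card N * (Nat.card Z * (1 + A.card)) := by
    have h1 : ∑ z : Z, (f (z : G) : ℂ) = (Nat.card N : ℂ) * ((Nat.card Z : ℂ) * (1 + A.card)) := by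
      rw [← hsumZ, Finset.mul_sum]
      refine Finset.sum_congr rfl (fun z _ => ?_)
      rw [hπf]
      field_simp
    exact_mod_cast h1
  set D : Finset Z := Finset.univ.filter (fun z : Z => ¬ p ∣ orderOf (z : G)) with hD
  have hfD : ∀ z : Z, z ∉ D → f (z : G) = Nat.card N := by
    intro z hz
    have hdvd : p ∣ orderOf (z : G) := by
      by_contra hcon
      exact hz (Finset.mem_filter.mpr ⟨Finset.mem_univ _, hcon⟩)
    have hopos : 0 < orderOf (z : G) := orderOf_pos _
    set k := orderOf (z : G) / p with hk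
    have hkdvd : k ∣ orderOf (z : G) := Nat.div_dvd_of_dvd hdvd
    have hk0 : k ≠ 0 := by
      intro h0
      rw [h0] at hkdvd
      have := Nat.eq_zero_of_zero_dvd hkdvd
      omega
    have hord : orderOf ((z : G) ^ k) = p := by
      rw [orderOf_pow_of_dvd hk0 hkdvd, hk, Nat.div_div_self hdvd hopos.ne']
    have hwN : (z : G) ^ k ∈ N := N.pow_mem (hZN z.2) k
    have hwP : (z : G) ^ k ∈ P := hpN _ hwN hord
    have hw1 : (z : G) ^ k ≠ 1 := by
      intro h1
      rw [h1, orderOf_one] at hord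
      rw [← hord] at hp
      exact Nat.not_prime_one hp
    have e : (Finset.univ.filter (fun y : G => y⁻¹ * (z : G) * y ∈ N)) =
        Finset.univ.filter (fun y : G => y ∈ N) := by
      ext y
      simp only [Finset.mem_filter, Finset.mem_univ, true_and]
      constructor
      · intro hy
        apply hfix _ hwP hw1 y
        rw [← conj_inv_pow]
        exact N.pow_mem hy k
      · intro hy
        exact N.mul_mem (N.mul_mem (N.inv_mem hy) (hZN z.2)) hy
    have e3 : (Finset.univ.filter (fun y : G => y ∈ N)).card = Nat.card N := by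
      rw [Nat.card_eq_fintype_card, Fintype.card_subtype]
    rw [hf]
    simp only
    rw [e, e3]
  have hfle : ∀ z : G, f z ≤ Nat.card G := by
    intro z
    rw [Nat.card_eq_fintype_card]
    exact Finset.card_le_univ _
  -- counting the elements of order prime to p
  have hDcard : p * D.card ≤ Nat.card Z := by
    have hinj : Function.Injective (fun ud : P × {z : Z // z ∈ D} =>
        ((⟨(ud.1 : G), hPZ ud.1.2⟩ : Z) * ud.2.1 : Z)) := by
      rintro ⟨u, d⟩ ⟨u', d'⟩ h
      simp only at h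
      have hG : (u : G) * (d.1 : G) = (u' : G) * (d'.1 : G) := congrArg Subtype.val h
      have hd := (Finset.mem_filter.mp d.2).2
      have hd' := (Finset.mem_filter.mp d'.2).2
      set n := orderOf ((d.1 : Z) : G) * orderOf ((d'.1 : Z) : G) with hn
      have hc1 : Commute (u : G) ((d.1 : Z) : G) :=
        (Subgroup.mem_centralizer_iff.mp d.1.2) u u.2
      have hc2 : Commute (u' : G) ((d'.1 : Z) : G) :=
        (Subgroup.mem_centralizer_iff.mp d'.1.2) u' u'.2
      have e1 : ((d.1 : Z) : G) ^ n = 1 := by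
        rw [hn, pow_mul, pow_orderOf_eq_one, one_pow]
      have e2 : ((d'.1 : Z) : G) ^ n = 1 := by
        rw [hn, mul_comm, pow_mul, pow_orderOf_eq_one, one_pow]
      have h1 : ((u : G) * ((d.1 : Z) : G)) ^ n = (u : G) ^ n := by
        rw [hc1.mul_pow, e1, mul_one]
      have h2 : ((u' : G) * ((d'.1 : Z) : G)) ^ n = (u' : G) ^ n := by
        rw [hc2.mul_pow, e2, mul_one]
      rw [hG, h2] at h1
      have hcop : (Nat.card P).Coprime n := by
        rw [hPp, Nat.Prime.coprime_iff_not_dvd hp, hn, Nat.Prime.dvd_mul hp]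
        tauto
      have h3 : u ^ n = u' ^ n := Subtype.ext (by
        simp only [Subgroup.coe_pow]
        exact h1.symm)
      have huu : u = u' := (powCoprime hcop).injective h3
      subst huu
      have hdd : (d.1 : Z) = d'.1 := Subtype.ext (mul_left_cancel hG)
      rw [Prod.mk.injEq]
      exact ⟨rfl, Subtype.ext hdd⟩
    have h1 := Fintype.card_le_of_injective _ hinj
    rw [Fintype.card_prod, Fintype.card_coe, ← Nat.card_eq_fintype_card,
      ← Nat.card_eq_fintype_card, hPp] at h1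
    exact h1
  have hDle : D.card ≤ Nat.card Z := by
    rw [Nat.card_eq_fintype_card]
    exact Finset.card_le_univ _
  -- split the sum
  have hsplit : ∑ z : Z, f (z : G) = ∑ z ∈ D, f (z : G) + (Nat.card Z - D.card) * Nat.card N := by
    rw [← Finset.sum_filter_add_sum_filter_not Finset.univ
      (fun z : Z => ¬ p ∣ orderOf (z : G)) (fun z => f (z : G))]
    congr 1
    rw [Finset.sum_congr rfl (g := fun _ => Nat.card N)]
    · rw [Finset.sum_const, smul_eq_mul]
      congr 1
      rw [Finset.filter_not, Finset.card_sdiff_of_subset (Finset.filter_subset _ _),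
        Finset.card_univ, Nat.card_eq_fintype_card]
    · intro z hz
      apply hfD
      rw [Finset.mem_filter] at hz
      exact fun hzD => hz.2 (Finset.mem_filter.mp hzD).2
  have hG : Nat.card G = Nat.card N * (1 + p * A.card) := by
    rw [← hidx, N.card_mul_index]
  have hApos : 0 < A.card := Nat.pos_of_ne_zero hA0
  obtain ⟨r, hr⟩ := Nat.exists_eq_add_of_le hDle
  have hr' : Nat.card Z - D.card = r := by omega
  -- every element of D fixes all cosets
  have hall : ∀ z ∈ D, f (z : G) = Nat.card G := by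
    by_contra hcon
    push Not at hcon
    obtain ⟨z₀, hz₀, hne⟩ := hcon
    have hlt : ∑ z ∈ D, f (z : G) < ∑ z ∈ D, Nat.card G :=
      Finset.sum_lt_sum (fun z _ => hfle _) ⟨z₀, hz₀, lt_of_le_of_ne (hfle _) hne⟩
    rw [Finset.sum_const, smul_eq_mul] at hlt
    rw [hsumf, hr', hr] at hsplit
    rw [hG] at hlt
    have hK : Nat.card N * A.card * (p * D.card) ≤ Nat.card N * A.card * (D.card + r) := by
      apply Nat.mul_le_mul_left
      rw [← hr]; exact hDcard
    nlinarith [hK, hsplit, hlt]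
  have hD1 : D.card ≤ 1 := by
    rw [Finset.card_le_one]
    intro z hz w hw
    have key : ∀ z ∈ D, z = 1 := by
      intro z hz
      have h1 := hall z hz
      have huniv : Finset.univ.filter (fun y : G => y⁻¹ * (z : G) * y ∈ N) = Finset.univ := by
        apply Finset.eq_univ_of_card
        rw [← Nat.card_eq_fintype_card, ← h1]
      apply Subtype.ext
      apply hcore
      intro y
      have hy : y ∈ Finset.univ.filter (fun y : G => y⁻¹ * (z : G) * y ∈ N) := by
        rw [huniv]; exact Finset.mem_univ y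
      exact (Finset.mem_filter.mp hy).2
    rw [key z hz, key w hw]
  have hZle : Nat.card Z ≤ p := by
    have h1 : ∑ z ∈ D, f (z : G) = D.card * Nat.card G := by
      rw [Finset.sum_congr rfl hall, Finset.sum_const, smul_eq_mul]
    rw [hsumf, hr', h1, hG, hr] at hsplit
    have h2 : Nat.card N * A.card * (D.card + r) = Nat.card N * A.card * (p * D.card) := by
      nlinarith [hsplit]
    have h3 : D.card + r = p * D.card :=
      Nat.eq_of_mul_eq_mul_left (Nat.mul_pos hNpos hApos) h2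
    rw [hr, h3]
    calc p * D.card ≤ p * 1 := Nat.mul_le_mul_left _ hD1
      _ = p := mul_one p
  have hPZeq : P = Z := Subgroup.eq_of_le_of_card_ge hPZ (by rw [hPp]; exact hZle)
  intro g hg
  rw [hPZeq, hZ, Subgroup.mem_centralizer_iff]
  intro h hh
  exact (hg h hh).symm

end Cfsg.Agent.Lib.Helper39.PrimeDeg
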