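import Mathlib

set_option autoImplicit false

/-!
# Groups whose nonlinear irreducible characters have prime degree: the final arithmetic
-/

namespace Cfsg.Agent.Lib.Helper39.PrimeDeg

/-- The numerical contradiction at the end of the argument. -/
theorem arith_final {ι : Type*} [Fintype ι] [DecidableEq ι] (one : ι) (c d : ι → ℕ)
    (p q e a : ℕ) (hp : p.Prime) (hq : q.Prime) (hqe : q ∣ e) (he : 0 < e) (hqp : q ∣ p - 1)
    (S1 : ∑ i, c i = e * (a + 1)) (S2 : ∑ i, c i * d i = e * (1 + p * a))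
    (S3 : ∑ i, d i ^ 2 = p * e * (1 + p * a))
    (hc1 : c one = 1) (hd1 : d one = 1) (hd2 : ∀ i, i ≠ one → 2 ≤ d i) (hdp : ∀ i, d i ≤ p)
    (hc : ∀ i, c i ≤ 1) (hq0 : ∀ i, c i = 0 → d i = q)
    (S5 : (Finset.univ.filter (fun i => c i = 0)).card * (q * (p - q)) ≤ (p - 1) ^ 2) :
    False := by
  obtain ⟨P1, rfl⟩ : ∃ P1, p = P1 + 1 := ⟨p - 1, by have := hp.pos; omega⟩
  simp only [Nat.add_sub_cancel] at hqp S5
  have hP1pos : 0 < P1 := by
    rcases Nat.eq_zero_or_pos P1 with h | h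
    · rw [h] at hp; exact absurd hp Nat.not_prime_one
    · exact h
  have hmem : one ∈ (Finset.univ : Finset ι) := Finset.mem_univ _
  set X' := ∑ i ∈ Finset.univ.erase one, c i * (P1 + 1 - d i) with hX'
  set R' := ∑ i ∈ Finset.univ.erase one, c i * d i * (P1 + 1 - d i) with hR'
  set n_o := (Finset.univ.filter (fun i => c i = 0)).card with hn_o
  -- F1
  have F1 : ∑ i, c i * d i + (P1 + X') = (P1 + 1) * ∑ i, c i := by
    have h1 : ∑ i, c i * (P1 + 1 - d i) = P1 + X' := by
      rw [← Finset.add_sum_erase _ _ hmem, hc1, hd1, one_mul, Nat.add_sub_cancel]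
    rw [← h1, ← Finset.sum_add_distrib, Finset.mul_sum]
    refine Finset.sum_congr rfl (fun i _ => ?_)
    have := hdp i
    rw [← Nat.mul_add, Nat.add_sub_cancel' this, mul_comm]
  -- F2
  have F2 : (P1 + 1) * ∑ i, c i * d i = ∑ i, c i * d i ^ 2 + (P1 + R') := by
    have h1 : ∑ i, c i * d i * (P1 + 1 - d i) = P1 + R' := by
      rw [← Finset.add_sum_erase _ _ hmem, hc1, hd1, one_mul, one_mul, Nat.add_sub_cancel]
    rw [← h1, ← Finset.sum_add_distrib, Finset.mul_sum]
    refine Finset.sum_congr rfl (fun i _ => ?_)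
    have := hdp i
    obtain ⟨g, hg⟩ := Nat.exists_eq_add_of_le this
    rw [hg, Nat.add_sub_cancel_left]
    ring
  -- F3
  have F3 : ∑ i, d i ^ 2 = ∑ i, c i * d i ^ 2 + n_o * q ^ 2 := by
    have h1 : ∑ i, (if c i = 0 then q ^ 2 else 0) = n_o * q ^ 2 := by
      rw [Finset.sum_ite, Finset.sum_const, Finset.sum_const_zero, add_zero, smul_eq_mul]
    rw [← h1, ← Finset.sum_add_distrib]
    refine Finset.sum_congr rfl (fun i _ => ?_)
    by_cases h0 : c i = 0
    · rw [if_pos h0, h0, hq0 i h0]; ring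
    · have : c i = 1 := by have := hc i; omega
      rw [if_neg h0, this]; ring
  -- F4
  have F4 : 2 * X' ≤ R' := by
    rw [hX', hR', Finset.mul_sum]
    apply Finset.sum_le_sum
    intro i hi
    have h2 := hd2 i (Finset.mem_erase.mp hi).1
    calc 2 * (c i * (P1 + 1 - d i)) = c i * 2 * (P1 + 1 - d i) := by ring
      _ ≤ c i * d i * (P1 + 1 - d i) :=
        Nat.mul_le_mul_right _ (Nat.mul_le_mul_left _ h2)
  rw [S1] at F1
  rw [S2] at F1 F2
  rw [S3] at F3
  -- consequences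
  have A1 : X' + P1 = e * P1 := by
    linarith [F1]
  have A2 : n_o * q ^ 2 = P1 + R' := by
    linarith [F2, F3]
  have hq2 : 2 ≤ q := hq.two_le
  have hqle : q ≤ P1 := Nat.le_of_dvd hP1pos hqp
  have hqe' : q ≤ e := Nat.le_of_dvd he hqe
  obtain ⟨s, hs⟩ : ∃ s, P1 + 1 - q = s := ⟨_, rfl⟩
  have hs' : P1 = s + q - 1 := by omega
  have hspos : 1 ≤ s := by omega
  rw [hs] at S5
  -- B1
  have B1 : 2 * e * s ≤ q * P1 + s := by
    have h1 : 2 * e * P1 ≤ n_o * q ^ 2 + P1 := by
      linarith [A1, A2, F4]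
    have h2 : 2 * e * P1 * s ≤ (n_o * q ^ 2 + P1) * s := Nat.mul_le_mul_right _ h1
    have h3 : n_o * q ^ 2 * s ≤ q * P1 ^ 2 := by
      calc n_o * q ^ 2 * s = q * (n_o * (q * s)) := by ring
        _ ≤ q * P1 ^ 2 := Nat.mul_le_mul_left _ S5
    have h4 : P1 * (2 * e * s) ≤ P1 * (q * P1 + s) := by
      calc P1 * (2 * e * s) = 2 * e * P1 * s := by ring
        _ ≤ (n_o * q ^ 2 + P1) * s := h2
        _ = n_o * q ^ 2 * s + P1 * s := by ring
        _ ≤ q * P1 ^ 2 + P1 * s := Nat.add_le_add_right h3 _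
        _ = P1 * (q * P1 + s) := by ring
    exact Nat.le_of_mul_le_mul_left h4 hP1pos
  have hsq : s ≤ q := by
    by_contra hcon
    push Not at hcon
    have h1 : 2 * q * s ≤ q * P1 + s :=
      le_trans (Nat.mul_le_mul_right _ (Nat.mul_le_mul_left _ hqe')) B1
    obtain ⟨Q, rfl⟩ : ∃ Q, q = Q + 2 := ⟨q - 2, by omega⟩
    obtain ⟨S', rfl⟩ : ∃ S', s = Q + 3 + S' := ⟨s - (Q + 3), by omega⟩
    have hP : P1 = Q + 3 + S' + Q + 1 := by omega
    rw [hP] at h1
    nlinarith [h1, Nat.zero_le (Q * S'), Nat.zero_le (Q * Q)]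
  obtain ⟨t, ht⟩ := hqp
  have ht1 : t = 1 := by
    have h1 : P1 < 2 * q := by omega
    rw [ht] at h1
    have h2 : t < 2 := by
      by_contra hcon
      push Not at hcon
      have : q * 2 ≤ q * t := Nat.mul_le_mul_left _ hcon
      omega
    have h3 : t ≠ 0 := by
      intro h0
      rw [h0, mul_zero] at ht
      omega
    omega
  rw [ht1, mul_one] at ht
  subst ht
  -- now p = q + 1
  have hq2' : P1 = 2 := by
    rcases Nat.Prime.eq_two_or_odd hq with h | h
    · exact h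
    · rcases Nat.Prime.eq_two_or_odd hp with h' | h'
      · omega
      · omega
  subst hq2'
  have hs1 : s = 1 := by omega
  subst hs1
  have he2 : e = 2 := by
    have h1 : e ≤ 2 := by omega
    obtain ⟨k, hk⟩ := hqe
    omega
  subst he2
  have hX2 : X' = 2 := by omega
  -- exact value of R'
  have F5 : R' = 2 * X' := by
    rw [hX', hR', Finset.mul_sum]
    refine Finset.sum_congr rfl (fun i hi => ?_)
    have h2 := hd2 i (Finset.mem_erase.mp hi).1
    have h3 := hdp i
    have h4 : d i = 2 ∨ d i = 3 := by omega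
    rcases h4 with h | h <;> rw [h] <;> ring
  omega

end Cfsg.Agent.Lib.Helper39.PrimeDeg
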