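import Mathlib
import Cfsg.Agent.S4464
import Cfsg.Agent.Lib.Helper39.PrimeDegA
import Cfsg.Agent.Lib.Helper82.AbelianSylow

set_option autoImplicit false
open Cfsg

/-!
# Groups whose nonlinear irreducible characters have prime degree: the local structure
around a self-centralizing trivial-intersection subgroup of prime order
-/

namespace Cfsg.Agent.Lib.Helper39.PrimeDeg

open scoped ComplexConjugate

universe u

/-- The local configuration: `P` of prime order `p`, normal in `N`, such that nontrivial elements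
of `P` are conjugated into `N` only by elements of `N`, and `P` is self-centralizing. -/
structure Ctx {G : Type u} [Group G] (p : ℕ) (P N : Subgroup G) : Prop where
  hPN : P ≤ N
  hnorm : ∀ n ∈ N, ∀ x ∈ P, n * x * n⁻¹ ∈ P
  hcardP : Nat.card P = p
  hfix : ∀ x ∈ P, x ≠ 1 → ∀ y : G, y⁻¹ * x * y ∈ N → y ∈ N
  hcent : ∀ x ∈ P, x ≠ 1 → ∀ g : G, g * x = x * g → g ∈ P
  hab : ∀ x ∈ P, ∀ y ∈ P, x * y = y * x

section

variable {G : Type u} [Group G] {p : ℕ} {P N : Subgroup G}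

theorem Ctx.normal (ctx : Ctx p P N) : (P.subgroupOf N).Normal := by
  refine ⟨fun x hx g => ?_⟩
  rw [Subgroup.mem_subgroupOf] at hx ⊢
  exact ctx.hnorm g g.2 x hx

theorem Ctx.exists_ne_one (ctx : Ctx p P N) (hp : p.Prime) : ∃ x ∈ P, x ≠ 1 := by
  have hPbot : P ≠ ⊥ := by
    intro h
    have h1 := ctx.hcardP
    rw [h, Subgroup.card_bot] at h1
    rw [← h1] at hp
    exact Nat.not_prime_one hp
  obtain ⟨x₀, hx₀⟩ := (Subgroup.ne_bot_iff_exists_ne_one).mp hPbot
  exact ⟨x₀, x₀.2, fun h => hx₀ (Subtype.ext h)⟩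

theorem Ctx.exists_pow (ctx : Ctx p P N) (hp : p.Prime) {x : G} (hx : x ∈ P) (hx1 : x ≠ 1)
    {y : G} (hy : y ∈ P) : ∃ k : ℕ, x ^ k = y := by
  have : Fact p.Prime := ⟨hp⟩
  have h1 : (⟨y, hy⟩ : P) ∈ Submonoid.powers (⟨x, hx⟩ : P) :=
    mem_powers_of_prime_card ctx.hcardP (fun h => hx1 (congrArg Subtype.val h))
  obtain ⟨k, hk⟩ := h1
  exact ⟨k, congrArg Subtype.val hk⟩

/-- Elements of `N` outside `P` are conjugate to all elements of their `P`-coset. -/
theorem Ctx.conj_coset [Finite G] (ctx : Ctx p P N) {n : G} (hn : n ∈ N) (hnP : n ∉ P)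
    {w : G} (hw : w ∈ P) : ∃ v ∈ P, n * w = v⁻¹ * n * v := by
  have hmem : ∀ v : P, n⁻¹ * (v : G)⁻¹ * n * v ∈ P := by
    intro v
    have h1 := ctx.hnorm n⁻¹ (N.inv_mem hn) (v : G)⁻¹ (P.inv_mem v.2)
    rw [inv_inv] at h1
    exact P.mul_mem h1 v.2
  have hinj : Function.Injective (fun v : P => (⟨n⁻¹ * (v : G)⁻¹ * n * v, hmem v⟩ : P)) := by
    intro v v' h
    have h1 : n⁻¹ * (v : G)⁻¹ * n * v = n⁻¹ * (v' : G)⁻¹ * n * v' := congrArg Subtype.val h
    by_contra hne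
    have ht : (v' : G) * (v : G)⁻¹ ≠ 1 := by
      intro h2
      apply hne
      apply Subtype.ext
      have := mul_inv_eq_one.mp h2
      exact this.symm
    have hcomm : n * ((v' : G) * (v : G)⁻¹) = ((v' : G) * (v : G)⁻¹) * n := by
      have h3 : (v : G)⁻¹ * n * v = (v' : G)⁻¹ * n * v' := by
        have := congrArg (fun z => n * z) h1
        simp only [mul_assoc, mul_inv_cancel_left] at this
        simpa only [mul_assoc] using this
      calc n * ((v' : G) * (v : G)⁻¹) = (v' : G) * ((v' : G)⁻¹ * n * v') * (v : G)⁻¹ := by group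
        _ = (v' : G) * ((v : G)⁻¹ * n * v) * (v : G)⁻¹ := by rw [h3]
        _ = ((v' : G) * (v : G)⁻¹) * n := by group
    exact hnP (ctx.hcent _ (P.mul_mem v'.2 (P.inv_mem v.2)) ht n hcomm)
  have hsurj := (Finite.injective_iff_surjective.mp hinj)
  obtain ⟨v, hv⟩ := hsurj ⟨w, hw⟩
  refine ⟨v, v.2, ?_⟩
  have h1 : n⁻¹ * (v : G)⁻¹ * n * v = w := congrArg Subtype.val hv
  rw [← h1]
  group

/-- A character without trivial constituent on `P` vanishes on `N ∖ P`. -/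
theorem Ctx.vanish_off [Finite G] (ctx : Ctx p P N) [Fintype P] {χ : G → ℂ}
    (hχ : Cfsg.IsCharacter G χ) (h0 : ∑ y : P, χ y = 0) {n : G} (hn : n ∈ N) (hnP : n ∉ P) :
    χ n = 0 := by
  have h1 := coset_sum_zero hχ P h0 n
  have hcf := Cfsg.Agent.Lib.Helper3.isClassFunction_of_isCharacter hχ
  have h2 : ∀ y : P, χ (n * y) = χ n := by
    intro y
    obtain ⟨v, -, hv⟩ := ctx.conj_coset hn hnP y.2
    rw [hv]
    have := hcf n v⁻¹
    rw [inv_inv] at this
    exact this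
  simp only [h2, Finset.sum_const, Finset.card_univ, nsmul_eq_mul] at h1
  have hP0 : (Fintype.card P : ℂ) ≠ 0 := by
    exact_mod_cast Fintype.card_ne_zero
  exact (mul_eq_zero.mp h1).resolve_left hP0

/-- The degree of an irreducible character without trivial constituent on `P` is divisible by
the order of every element of prime order `q ≠ p` of `N`. -/
theorem Ctx.dvd_degree [Finite G] (ctx : Ctx p P N) [Fintype P] (hp : p.Prime)
    (χ : Cfsg.IrrCharacter G)
    (h0 : ∑ y : P, (χ : G → ℂ) y = 0) {n : G} (hn : n ∈ N) {q : ℕ} (hq : q.Prime) (hqp : q ≠ p)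
    (hnq : orderOf n = q) : q ∣ Cfsg.charDegree (χ : G → ℂ) := by
  classical
  have hχc := Cfsg.Agent.Lib.Helper3.isCharacter_of_irr χ.2
  set H : Subgroup G := Subgroup.zpowers n with hH
  have : Fintype H := Fintype.ofFinite H
  have hHN : H ≤ N := by
    rw [hH, Subgroup.zpowers_le]; exact hn
  have hcardH : Nat.card H = q := by rw [hH, Nat.card_zpowers, hnq]
  have hvan : ∀ h : H, h ≠ 1 → (χ : G → ℂ) h = 0 := by
    intro h hh1
    apply ctx.vanish_off hχc h0 (hHN h.2)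
    intro hP
    apply hh1
    have h1 : orderOf (h : G) ∣ p := by
      rw [← ctx.hcardP]
      exact Subgroup.orderOf_dvd_natCard P hP
    have h2 : orderOf (h : G) ∣ q := by
      rw [← hcardH]
      exact Subgroup.orderOf_dvd_natCard H h.2
    have h3 : orderOf (h : G) = 1 := by
      have hcop : Nat.Coprime p q := (Nat.coprime_primes hp hq).mpr (Ne.symm hqp)
      exact Nat.eq_one_of_dvd_coprimes hcop h1 h2
    exact Subtype.ext (orderOf_eq_one_iff.mp h3)
  obtain ⟨a, c, -, -, hc⟩ := Cfsg.Agent.S4464.avg_fixed hχc H H le_rfl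
  have hsum : ∑ h : H, (χ : G → ℂ) h = (χ : G → ℂ) 1 := by
    rw [Finset.sum_eq_single (1 : H)]
    · rfl
    · intro h _ hh1
      exact hvan h hh1
    · intro hcon
      exact absurd (Finset.mem_univ _) hcon
  rw [hsum, (Cfsg.Agent.Lib.Helper79.irr_charDegree χ.2).1, hcardH] at hc
  have hq0 : (q : ℂ) ≠ 0 := by exact_mod_cast hq.ne_zero
  have h5 : (Cfsg.charDegree (χ : G → ℂ) : ℂ) = ((q * c : ℕ) : ℂ) := by
    push_cast
    rw [← hc]
    field_simp
  have h6 : Cfsg.charDegree (χ : G → ℂ) = q * c := by exact_mod_cast h5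
  exact Dvd.intro _ h6.symm

/-- Conjugation by an element of `N` acts on `P` as a power map. -/
theorem Ctx.conj_eq_pow (ctx : Ctx p P N) (hp : p.Prime) {x : G} (hx : x ∈ P) (hx1 : x ≠ 1)
    {u : G} (hu : u ∈ N) : ∃ k : ℕ, u * x * u⁻¹ = x ^ k := by
  obtain ⟨k, hk⟩ := ctx.exists_pow hp hx hx1 (ctx.hnorm u hu x hx)
  exact ⟨k, hk.symm⟩

/-- `N / P` is abelian. -/
theorem Ctx.quot_comm (ctx : Ctx p P N) (hp : p.Prime) [hn : (P.subgroupOf N).Normal]
    (a b : N ⧸ P.subgroupOf N) : a * b = b * a := by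
  obtain ⟨x₀, hx₀, hx₀1⟩ := ctx.exists_ne_one hp
  obtain ⟨u, rfl⟩ := QuotientGroup.mk_surjective a
  obtain ⟨v, rfl⟩ := QuotientGroup.mk_surjective b
  rw [← QuotientGroup.mk_mul, ← QuotientGroup.mk_mul, QuotientGroup.eq, Subgroup.mem_subgroupOf]
  obtain ⟨k, hk⟩ := ctx.conj_eq_pow hp hx₀ hx₀1 u.2
  obtain ⟨l, hl⟩ := ctx.conj_eq_pow hp hx₀ hx₀1 v.2
  have h1 : ((u : G) * v) * x₀ * ((u : G) * v)⁻¹ = x₀ ^ (k * l) := by
    calc ((u : G) * v) * x₀ * ((u : G) * v)⁻¹ = (u : G) * ((v : G) * x₀ * (v : G)⁻¹) * (u : G)⁻¹ := by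
          group
      _ = (u : G) * x₀ ^ l * (u : G)⁻¹ := by rw [hl]
      _ = ((u : G) * x₀ * (u : G)⁻¹) ^ l := by rw [conj_pow]
      _ = x₀ ^ (k * l) := by rw [hk, pow_mul]
  have h2 : ((v : G) * u) * x₀ * ((v : G) * u)⁻¹ = x₀ ^ (k * l) := by
    calc ((v : G) * u) * x₀ * ((v : G) * u)⁻¹ = (v : G) * ((u : G) * x₀ * (u : G)⁻¹) * (v : G)⁻¹ := by
          group
      _ = (v : G) * x₀ ^ k * (v : G)⁻¹ := by rw [hk]
      _ = ((v : G) * x₀ * (v : G)⁻¹) ^ k := by rw [conj_pow]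
      _ = x₀ ^ (k * l) := by rw [hl, mul_comm k l, pow_mul]
  apply ctx.hcent x₀ hx₀ hx₀1
  have h3 : ((u : G) * v) * x₀ * ((u : G) * v)⁻¹ = ((v : G) * u) * x₀ * ((v : G) * u)⁻¹ := by
    rw [h1, h2]
  have h4 : (((u * v)⁻¹ * (v * u) : N) : G) = ((u : G) * v)⁻¹ * ((v : G) * u) := rfl
  rw [h4]
  calc ((u : G) * v)⁻¹ * ((v : G) * u) * x₀
      = ((u : G) * v)⁻¹ * (((v : G) * u) * x₀ * ((v : G) * u)⁻¹) * ((v : G) * u) := by group
    _ = ((u : G) * v)⁻¹ * (((u : G) * v) * x₀ * ((u : G) * v)⁻¹) * ((v : G) * u) := by rw [h3]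
    _ = x₀ * (((u : G) * v)⁻¹ * ((v : G) * u)) := by group

/-- The order of an element of `N` of prime order `q ≠ p` divides `p - 1`. -/
theorem Ctx.dvd_pred (ctx : Ctx p P N) (hp : p.Prime) {n : G} (hn : n ∈ N) {q : ℕ}
    (hq : q.Prime) (hqp : q ≠ p) (hnq : orderOf n = q) : q ∣ p - 1 := by
  have : Fact p.Prime := ⟨hp⟩
  have : Fact q.Prime := ⟨hq⟩
  obtain ⟨x₀, hx₀, hx₀1⟩ := ctx.exists_ne_one hp
  obtain ⟨k, hk⟩ := ctx.conj_eq_pow hp hx₀ hx₀1 hn
  have hord : orderOf x₀ = p := by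
    have h1 : orderOf x₀ ∣ p := by
      rw [← ctx.hcardP]
      exact Subgroup.orderOf_dvd_natCard P hx₀
    rcases (Nat.dvd_prime hp).mp h1 with h | h
    · exact absurd (orderOf_eq_one_iff.mp h) hx₀1
    · exact h
  have hpow : ∀ j : ℕ, n ^ j * x₀ * (n ^ j)⁻¹ = x₀ ^ (k ^ j) := by
    intro j
    induction j with
    | zero => simp
    | succ j ih =>
      calc n ^ (j + 1) * x₀ * (n ^ (j + 1))⁻¹ = n * (n ^ j * x₀ * (n ^ j)⁻¹) * n⁻¹ := by
            rw [pow_succ']; group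
        _ = n * x₀ ^ (k ^ j) * n⁻¹ := by rw [ih]
        _ = (n * x₀ * n⁻¹) ^ (k ^ j) := by rw [conj_pow]
        _ = x₀ ^ (k ^ (j + 1)) := by rw [hk, ← pow_mul, pow_succ']
  have h1 := hpow q
  rw [← hnq, pow_orderOf_eq_one, hnq] at h1
  simp only [one_mul, inv_one, mul_one] at h1
  have h2 : x₀ ^ 1 = x₀ ^ (k ^ q) := by rw [pow_one]; exact h1
  rw [pow_eq_pow_iff_modEq, hord] at h2
  have h3 : ((k : ZMod p)) ^ q = 1 := by
    have := (ZMod.natCast_eq_natCast_iff _ _ _).mpr h2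
    push_cast at this
    exact this.symm
  have h4 : (k : ZMod p) ≠ 1 := by
    intro h5
    have h6 : k ≡ 1 [MOD p] := by
      apply (ZMod.natCast_eq_natCast_iff _ _ _).mp
      push_cast
      exact h5
    have h7 : x₀ ^ k = x₀ ^ 1 := by
      rw [pow_eq_pow_iff_modEq, hord]
      exact h6
    rw [pow_one] at h7
    rw [h7] at hk
    have h8 : n * x₀ = x₀ * n := by
      calc n * x₀ = n * x₀ * n⁻¹ * n := by group
        _ = x₀ * n := by rw [hk]
    have h9 : n ∈ P := ctx.hcent x₀ hx₀ hx₀1 n h8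
    have h10 : orderOf n ∣ p := by
      rw [← ctx.hcardP]
      exact Subgroup.orderOf_dvd_natCard P h9
    rw [hnq] at h10
    exact hqp ((Nat.prime_dvd_prime_iff_eq hq hp).mp h10)
  have h5 : orderOf (k : ZMod p) = q := orderOf_eq_prime h3 h4
  have h6 : (k : ZMod p) ≠ 0 := by
    intro h0
    rw [h0, zero_pow hq.ne_zero] at h3
    exact zero_ne_one h3
  have h7 := ZMod.orderOf_dvd_card_sub_one h6
  rw [h5] at h7
  exact h7

/-- Sums over `N` of functions supported on `P`. -/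
theorem sum_indicator (hPN : P ≤ N) [Fintype P] [Fintype N] [DecidablePred (· ∈ P)]
    (F : G → ℂ) : ∑ h : N, (if (h : G) ∈ P then F h else 0) = ∑ y : P, F y := by
  classical
  rw [← Finset.sum_filter]
  symm
  refine Finset.sum_bij (fun (y : P) _ => (⟨(y : G), hPN y.2⟩ : N)) ?_ ?_ ?_ ?_
  · intro y _
    rw [Finset.mem_filter]
    exact ⟨Finset.mem_univ _, y.2⟩
  · intro y _ y' _ h
    have h' : (y : G) = (y' : G) := congrArg (fun z : N => (z : G)) h
    exact Subtype.ext h'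
  · intro h hh
    rw [Finset.mem_filter] at hh
    exact ⟨⟨(h : G), hh.2⟩, Finset.mem_univ _, rfl⟩
  · intro y _
    rfl

/-- The norm of the restriction of a character to an abelian subgroup is at least its degree. -/
theorem abelian_norm [Finite G] (A : Subgroup G) [Fintype A]
    (hab : ∀ x ∈ A, ∀ y ∈ A, x * y = y * x) {χ : G → ℂ} (hχ : Cfsg.IsCharacter G χ) :
    ∃ r : ℕ, ∑ y : A, χ y * conj (χ y) = (Nat.card A : ℂ) * r ∧ Cfsg.charDegree χ ≤ r := by
  classical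
  have := Fintype.ofFinite (Cfsg.IrrCharacter A)
  have hres : Cfsg.IsCharacter A (fun h : A => χ h) :=
    Cfsg.Agent.Lib.Helper75.isCharacter_res A hχ
  obtain ⟨k, hk, hksum⟩ := Cfsg.Agent.Lib.Helper75.char_eq_sum_irr hres
  have hcomm : ∀ a b : A, a * b = b * a := fun a b => Subtype.ext (hab a a.2 b b.2)
  have hlin : ∀ φ : Cfsg.IrrCharacter A, (φ : A → ℂ) 1 = 1 :=
    fun φ => Cfsg.Agent.Lib.Helper82.irr_one_eq_one_of_comm hcomm φ.2
  have h2 : Cfsg.classInner (fun h : A => χ h) (fun h : A => χ h) =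
      ∑ φ : Cfsg.IrrCharacter A, ((k φ : ℂ)) * (k φ : ℂ) := by
    conv_lhs => rw [hksum]
    rw [Cfsg.Agent.Lib.Helper75.classInner_sum_left]
    refine Finset.sum_congr rfl (fun φ _ => ?_)
    rw [Cfsg.Agent.Lib.Helper75.classInner_smul_left, ← hksum,
      Cfsg.Agent.Lib.Helper75.classInner_conj_symm, hk φ]
    simp
  refine ⟨∑ φ : Cfsg.IrrCharacter A, k φ * k φ, ?_, ?_⟩
  · have hA0 : (Nat.card A : ℂ) ≠ 0 := by exact_mod_cast Nat.card_pos.ne'
    unfold Cfsg.classInner at h2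
    push_cast
    rw [← h2]
    field_simp
  · have h1 : χ 1 = ∑ φ : Cfsg.IrrCharacter A, (k φ : ℂ) * (φ : A → ℂ) 1 := by
      have h3 := congrFun hksum 1
      simp only [Finset.sum_apply, Pi.smul_apply, smul_eq_mul] at h3
      exact h3
    simp only [hlin, mul_one] at h1
    rw [Cfsg.Agent.Lib.Helper80.char_one_eq_charDegree hχ] at h1
    have h4 : Cfsg.charDegree χ = ∑ φ : Cfsg.IrrCharacter A, k φ := by exact_mod_cast h1
    rw [h4]
    apply Finset.sum_le_sum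
    intro φ _
    exact Nat.le_mul_self (k φ)

end

end Cfsg.Agent.Lib.Helper39.PrimeDeg
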