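import Mathlib
import Cfsg.Agent.S4464
import Cfsg.Agent.Lib.Helper39.PrimeDegA
import Cfsg.Agent.Lib.Helper39.PrimeDegC
import Cfsg.Agent.Lib.Helper39.PrimeDegD
import Cfsg.Agent.Lib.Helper81.CoprimeChar
import Cfsg.Agent.Lib.Helper3.CharOrtho

set_option autoImplicit false
open Cfsg

/-!
# Groups whose nonlinear irreducible characters have prime degree: the counting contradiction
-/

namespace Cfsg.Agent.Lib.Helper39.PrimeDeg

open scoped ComplexConjugate

universe u

set_option maxHeartbeats 1000000 in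
/-- The counting contradiction in the local configuration. -/
theorem final_count {G : Type u} [Group G] [Fintype G] (p : ℕ) (hp : p.Prime) (P N : Subgroup G)
    [Fintype P] [Fintype N] (ctx : Ctx p P N) (a : ℕ) (hidx : N.index = 1 + p * a)
    (hb : ∀ χ : Cfsg.IrrCharacter G, Cfsg.charDegree (χ : G → ℂ) ≤ p)
    (hprime : ∀ χ : Cfsg.IrrCharacter G, Cfsg.charDegree (χ : G → ℂ) ≠ 1 →
      (Cfsg.charDegree (χ : G → ℂ)).Prime)
    (hlin : ∀ χ : Cfsg.IrrCharacter G, Cfsg.charDegree (χ : G → ℂ) = 1 →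
      χ = Cfsg.Agent.Lib.Helper74.irrOne G)
    (n : G) (hn : n ∈ N) (q : ℕ) (hq : q.Prime) (hqp : q ≠ p) (hnq : orderOf n = q) : False := by
  classical
  have := Fintype.ofFinite (Cfsg.IrrCharacter G)
  haveI hnormal : (P.subgroupOf N).Normal := ctx.normal
  have : Fintype (N ⧸ P.subgroupOf N) := Fintype.ofFinite _
  have := Fintype.ofFinite (Cfsg.IrrCharacter (N ⧸ P.subgroupOf N))
  have hcomm : ∀ a b : N ⧸ P.subgroupOf N, a * b = b * a := ctx.quot_comm hp
  have hN0 : (Nat.card N : ℂ) ≠ 0 := by exact_mod_cast Nat.card_pos.ne'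
  have hP0 : (Nat.card P : ℂ) ≠ 0 := by exact_mod_cast Nat.card_pos.ne'
  have hPpos : 0 < Nat.card P := Nat.card_pos
  set e := (P.subgroupOf N).index with he
  have hcardN : Nat.card N = Nat.card P * e := by
    rw [he, ← Subgroup.card_mul_index (P.subgroupOf N)]
    congr 1
    exact Nat.card_congr (Subgroup.subgroupOfEquivOfLe ctx.hPN).toEquiv
  have hepos : 0 < e := Nat.pos_of_ne_zero Subgroup.index_ne_zero_of_finite
  have he0 : (e : ℂ) ≠ 0 := by exact_mod_cast hepos.ne'
  have hPidx : P.index = e * N.index := (Subgroup.relIndex_mul_index ctx.hPN).symm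
  have hPp := ctx.hcardP
  have hcardG : Nat.card G = p * e * (1 + p * a) := by
    rw [← N.card_mul_index, hcardN, hPp, hidx]
  have hχc : ∀ χ : Cfsg.IrrCharacter G, Cfsg.IsCharacter G (χ : G → ℂ) :=
    fun χ => Cfsg.Agent.Lib.Helper3.isCharacter_of_irr χ.2
  -- multiplicities of the trivial character of P
  have hdata : ∀ χ : Cfsg.IrrCharacter G, ∃ c : ℕ,
      (Nat.card P : ℂ)⁻¹ * ∑ h : P, (χ : G → ℂ) h = c := by
    intro χ
    obtain ⟨a, c, -, -, hc⟩ := Cfsg.Agent.S4464.avg_fixed (hχc χ) P P le_rfl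
    exact ⟨c, hc⟩
  choose c hc using hdata
  have hexp : ∀ g : G, Cfsg.indFun P (fun _ => (1 : ℂ)) g =
      ∑ χ : Cfsg.IrrCharacter G, (c χ : ℂ) * (χ : G → ℂ) g := by
    intro g
    have h1 := congrFun (Cfsg.Agent.Lib.Helper3.classFunction_expansion'
      (Cfsg.Agent.Lib.Helper75.indFun_isClassFunction P (fun _ => (1 : ℂ)))) g
    rw [h1]
    simp only [Finset.sum_apply, Pi.smul_apply, smul_eq_mul]
    refine Finset.sum_congr rfl (fun χ _ => ?_)
    congr 1
    rw [Cfsg.Agent.Lib.Helper75.frobenius_reciprocity P _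
      (Cfsg.Agent.Lib.Helper3.isClassFunction_of_isCharacter (hχc χ))]
    unfold Cfsg.classInner
    have h2 : ∑ h : P, (1 : ℂ) * conj ((χ : G → ℂ) h) = conj (∑ h : P, (χ : G → ℂ) h) := by
      rw [map_sum]
      simp
    rw [h2]
    have h3 := congrArg conj (hc χ)
    rw [map_mul, map_inv₀, Complex.conj_natCast, Complex.conj_natCast] at h3
    exact h3
  have hdegc : ∀ χ : Cfsg.IrrCharacter G,
      (χ : G → ℂ) 1 = (Cfsg.charDegree (χ : G → ℂ) : ℂ) :=
    fun χ => (Cfsg.Agent.Lib.Helper79.irr_charDegree χ.2).1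
  -- value at 1
  have S2 : ∑ χ : Cfsg.IrrCharacter G, c χ * Cfsg.charDegree (χ : G → ℂ) = e * (1 + p * a) := by
    have h := hexp 1
    rw [Cfsg.Agent.Lib.Helper75.indFun_one, mul_one] at h
    simp only [hdegc] at h
    rw [← hidx, ← hPidx]
    exact_mod_cast h.symm
  -- values on P
  have hπP : ∀ x : P, Cfsg.indFun P (fun _ => (1 : ℂ)) (x : G) =
      if (x : G) = 1 then (P.index : ℂ) else (e : ℂ) := by
    intro x
    split_ifs with hx
    · rw [hx, Cfsg.Agent.Lib.Helper75.indFun_one, mul_one]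
    · rw [Cfsg.Agent.Lib.Helper15.indFun_one_apply]
      have e1 : (Finset.univ.filter (fun y : G => y⁻¹ * (x : G) * y ∈ P)) =
          Finset.univ.filter (fun y : G => y ∈ N) := by
        ext y
        simp only [Finset.mem_filter, Finset.mem_univ, true_and]
        constructor
        · intro hy
          exact ctx.hfix x x.2 hx y (ctx.hPN hy)
        · intro hy
          have := ctx.hnorm y⁻¹ (N.inv_mem hy) x x.2
          rw [inv_inv] at this
          exact this
      have e3 : (Finset.univ.filter (fun y : G => y ∈ N)).card = Nat.card N := by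
        rw [Nat.card_eq_fintype_card, Fintype.card_subtype]
      rw [e1, e3, hcardN]
      push_cast
      field_simp
  have hsumP : ∑ x : P, Cfsg.indFun P (fun _ => (1 : ℂ)) (x : G) =
      (P.index : ℂ) + ((Nat.card P : ℂ) - 1) * e := by
    simp only [hπP]
    rw [Finset.sum_ite]
    simp only [Finset.sum_const, nsmul_eq_mul]
    have h1 : (Finset.univ.filter (fun x : P => (x : G) = 1)).card = 1 := by
      rw [Finset.card_eq_one]
      refine ⟨1, ?_⟩
      ext x
      simp only [Finset.mem_filter, Finset.mem_univ, true_and, Finset.mem_singleton]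
      exact ⟨fun h => Subtype.ext h, fun h => by rw [h]; rfl⟩
    have h2 : (Finset.univ.filter (fun x : P => ¬ (x : G) = 1)).card =
        Nat.card P - 1 := by
      rw [Finset.filter_not, Finset.card_sdiff_of_subset (Finset.filter_subset _ _), h1,
        Finset.card_univ, Nat.card_eq_fintype_card]
    rw [h1, h2]
    push_cast [Nat.cast_sub hPpos]
    ring
  have hsumP' : ∑ x : P, Cfsg.indFun P (fun _ => (1 : ℂ)) (x : G) =
      ∑ χ : Cfsg.IrrCharacter G, (c χ : ℂ) * ((Nat.card P : ℂ) * c χ) := by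
    simp only [hexp]
    rw [Finset.sum_comm]
    refine Finset.sum_congr rfl (fun χ _ => ?_)
    rw [← Finset.mul_sum]
    congr 1
    rw [← hc χ]
    field_simp
  have Sq' : ∑ χ : Cfsg.IrrCharacter G, c χ * c χ = e * (a + 1) := by
    have h := hsumP'.symm.trans hsumP
    rw [hPp, hPidx, hidx] at h
    obtain ⟨P1, hP1⟩ : ∃ P1, p = P1 + 1 := ⟨p - 1, by have := hp.pos; omega⟩
    have h' : ((∑ χ : Cfsg.IrrCharacter G, c χ * (p * c χ) : ℕ) : ℂ) =
        ((e * (1 + p * a) + P1 * e : ℕ) : ℂ) := by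
      push_cast
      rw [h, hP1]
      push_cast
      ring
    have h'' : ∑ χ : Cfsg.IrrCharacter G, c χ * (p * c χ) = e * (1 + p * a) + P1 * e := by
      exact_mod_cast h'
    have h3 : p * ∑ χ : Cfsg.IrrCharacter G, c χ * c χ = p * (e * (a + 1)) := by
      rw [Finset.mul_sum]
      calc ∑ χ : Cfsg.IrrCharacter G, p * (c χ * c χ)
          = ∑ χ : Cfsg.IrrCharacter G, c χ * (p * c χ) :=
            Finset.sum_congr rfl (fun χ _ => by ring)
        _ = e * (1 + p * a) + P1 * e := h''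
        _ = p * (e * (a + 1)) := by rw [hP1]; ring
    exact Nat.eq_of_mul_eq_mul_left hp.pos h3
  -- linear characters of N / P
  have hβ1 : ∀ β : Cfsg.IrrCharacter (N ⧸ P.subgroupOf N),
      (β : N ⧸ P.subgroupOf N → ℂ) 1 = 1 :=
    fun β => Cfsg.Agent.Lib.Helper82.irr_one_eq_one_of_comm hcomm β.2
  have hcardΛ : Fintype.card (Cfsg.IrrCharacter (N ⧸ P.subgroupOf N)) = e := by
    have h := Cfsg.Agent.Lib.Helper81.sum_irr_quot' (P.subgroupOf N) hcomm (1 : N)
    rw [if_pos (Subgroup.one_mem _)] at h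
    simp only [QuotientGroup.mk_one, hβ1, Finset.sum_const, Finset.card_univ, nsmul_eq_mul,
      mul_one] at h
    exact_mod_cast h
  let lam : Cfsg.IrrCharacter (N ⧸ P.subgroupOf N) → N → ℂ :=
    fun β h => (β : N ⧸ P.subgroupOf N → ℂ) (h : N ⧸ P.subgroupOf N)
  have hlam_irr : ∀ β, Cfsg.IsIrrCharacter N (lam β) :=
    fun β => Cfsg.Agent.Lib.Helper80.isIrrCharacter_inflate (P.subgroupOf N) β.2
  have hlam1 : ∀ β, lam β 1 = 1 := by
    intro β
    show (β : N ⧸ P.subgroupOf N → ℂ) ((1 : N) : N ⧸ P.subgroupOf N) = 1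
    rw [QuotientGroup.mk_one]
    exact hβ1 β
  have hmdata : ∀ (β : Cfsg.IrrCharacter (N ⧸ P.subgroupOf N)) (χ : Cfsg.IrrCharacter G),
      ∃ m : ℕ, Cfsg.classInner (Cfsg.indFun N (lam β)) (χ : G → ℂ) = m := fun β χ =>
    Cfsg.Agent.Lib.Helper75.classInner_char_nat
      (Cfsg.Agent.Lib.Helper75.isCharacter_indFun N
        (Cfsg.Agent.Lib.Helper3.isCharacter_of_irr (hlam_irr β))) (hχc χ)
  choose m hm using hmdata
  have hma : ∀ β, ∑ χ : Cfsg.IrrCharacter G, m β χ * Cfsg.charDegree (χ : G → ℂ) = N.index := by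
    intro β
    have h1 := congrFun (Cfsg.Agent.Lib.Helper3.classFunction_expansion'
      (Cfsg.Agent.Lib.Helper75.indFun_isClassFunction N (lam β))) 1
    simp only [Finset.sum_apply, Pi.smul_apply, smul_eq_mul, hm, hdegc] at h1
    rw [Cfsg.Agent.Lib.Helper75.indFun_one, hlam1, mul_one] at h1
    exact_mod_cast h1.symm
  have hmb : ∀ χ : Cfsg.IrrCharacter G, ∑ β, m β χ = c χ := by
    intro χ
    have h1 : ∑ β, Cfsg.classInner (Cfsg.indFun N (lam β)) (χ : G → ℂ) = (c χ : ℂ) := by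
      have hfr : ∀ β, Cfsg.classInner (Cfsg.indFun N (lam β)) (χ : G → ℂ) =
          Cfsg.classInner (lam β) (fun h : N => (χ : G → ℂ) h) := fun β =>
        Cfsg.Agent.Lib.Helper75.frobenius_reciprocity N (lam β)
          (Cfsg.Agent.Lib.Helper3.isClassFunction_of_isCharacter (hχc χ))
      simp only [hfr]
      unfold Cfsg.classInner
      rw [← Finset.mul_sum, Finset.sum_comm]
      have hk : ∀ h : N, ∑ β, lam β h * conj ((χ : G → ℂ) h) =
          if (h : G) ∈ P then (e : ℂ) * conj ((χ : G → ℂ) h) else 0 := by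
        intro h
        rw [← Finset.sum_mul]
        have h2 := Cfsg.Agent.Lib.Helper81.sum_irr_quot' (P.subgroupOf N) hcomm h
        have h2' : ∑ β, lam β h = if h ∈ P.subgroupOf N then ((P.subgroupOf N).index : ℂ) else 0 := by
          rw [← h2]
        rw [h2']
        by_cases hh : (h : G) ∈ P
        · rw [if_pos hh, if_pos (Subgroup.mem_subgroupOf.mpr hh)]
        · rw [if_neg hh, if_neg (fun h' => hh (Subgroup.mem_subgroupOf.mp h')), zero_mul]
      simp only [hk]
      rw [sum_indicator ctx.hPN (fun g => (e : ℂ) * conj ((χ : G → ℂ) g)), ← Finset.mul_sum]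
      have h3 := congrArg conj (hc χ)
      rw [map_mul, map_inv₀, map_sum, Complex.conj_natCast, Complex.conj_natCast] at h3
      rw [← h3, hcardN]
      push_cast
      field_simp
    simp only [hm] at h1
    exact_mod_cast h1
  have hmd : ∀ β, a + 1 ≤ ∑ χ : Cfsg.IrrCharacter G, m β χ := by
    intro β
    have h1 := hma β
    rw [hidx] at h1
    have h2 : ∑ χ : Cfsg.IrrCharacter G, m β χ * Cfsg.charDegree (χ : G → ℂ) ≤
        ∑ χ : Cfsg.IrrCharacter G, m β χ * p :=
      Finset.sum_le_sum (fun χ _ => Nat.mul_le_mul_left _ (hb χ))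
    rw [← Finset.sum_mul, h1] at h2
    by_contra hcon
    push Not at hcon
    have h3 : (∑ χ : Cfsg.IrrCharacter G, m β χ) * p ≤ a * p :=
      Nat.mul_le_mul_right _ (by omega)
    have h4 : 1 + p * a ≤ a * p := le_trans h2 h3
    rw [mul_comm] at h4
    omega
  have S1ge : e * (a + 1) ≤ ∑ χ : Cfsg.IrrCharacter G, c χ := by
    calc e * (a + 1) = ∑ _β : Cfsg.IrrCharacter (N ⧸ P.subgroupOf N), (a + 1) := by
          rw [Finset.sum_const, Finset.card_univ, hcardΛ, smul_eq_mul]
      _ ≤ ∑ β : Cfsg.IrrCharacter (N ⧸ P.subgroupOf N), ∑ χ : Cfsg.IrrCharacter G, m β χ :=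
          Finset.sum_le_sum (fun β _ => hmd β)
      _ = ∑ χ : Cfsg.IrrCharacter G, ∑ β : Cfsg.IrrCharacter (N ⧸ P.subgroupOf N), m β χ :=
          Finset.sum_comm
      _ = ∑ χ : Cfsg.IrrCharacter G, c χ := Finset.sum_congr rfl (fun χ _ => hmb χ)
  -- the multiplicities are 0 or 1
  have hle : ∀ χ ∈ (Finset.univ : Finset (Cfsg.IrrCharacter G)), c χ ≤ c χ * c χ :=
    fun χ _ => Nat.le_mul_self _
  have hsumeq : ∑ χ : Cfsg.IrrCharacter G, c χ = ∑ χ : Cfsg.IrrCharacter G, c χ * c χ :=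
    le_antisymm (Finset.sum_le_sum hle) (by rw [Sq']; exact S1ge)
  have hteq := (Finset.sum_eq_sum_iff_of_le hle).mp hsumeq
  have hc01 : ∀ χ : Cfsg.IrrCharacter G, c χ ≤ 1 := by
    intro χ
    have h1 := hteq χ (Finset.mem_univ _)
    by_contra h
    push Not at h
    nlinarith
  have S1 : ∑ χ : Cfsg.IrrCharacter G, c χ = e * (a + 1) := hsumeq.trans Sq'
  have S3 : ∑ χ : Cfsg.IrrCharacter G, Cfsg.charDegree (χ : G → ℂ) ^ 2 = p * e * (1 + p * a) := by
    rw [Cfsg.Agent.Lib.Helper80.sum_charDegree_sq, hcardG]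
  -- the trivial character
  have hc0 : c (Cfsg.Agent.Lib.Helper74.irrOne G) = 1 := by
    have h := hc (Cfsg.Agent.Lib.Helper74.irrOne G)
    have h2 : ∑ h : P, (Cfsg.Agent.Lib.Helper74.irrOne G : G → ℂ) h = (Nat.card P : ℂ) := by
      simp [Cfsg.Agent.Lib.Helper74.irrOne_apply, Nat.card_eq_fintype_card]
    rw [h2, inv_mul_cancel₀ hP0] at h
    exact_mod_cast h.symm
  have hd0 : Cfsg.charDegree (Cfsg.Agent.Lib.Helper74.irrOne G : G → ℂ) = 1 := by
    have h := hdegc (Cfsg.Agent.Lib.Helper74.irrOne G)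
    rw [Cfsg.Agent.Lib.Helper74.irrOne_apply] at h
    exact_mod_cast h.symm
  have hd2 : ∀ χ : Cfsg.IrrCharacter G, χ ≠ Cfsg.Agent.Lib.Helper74.irrOne G →
      2 ≤ Cfsg.charDegree (χ : G → ℂ) := by
    intro χ hχ
    have h1 : Cfsg.charDegree (χ : G → ℂ) ≠ 1 := fun h => hχ (hlin χ h)
    have h2 := (Cfsg.Agent.Lib.Helper79.irr_charDegree χ.2).2.1
    omega
  have hq0 : ∀ χ : Cfsg.IrrCharacter G, c χ = 0 → Cfsg.charDegree (χ : G → ℂ) = q := by
    intro χ hχ
    have h0 : ∑ y : P, (χ : G → ℂ) y = 0 := by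
      have h := hc χ
      rw [hχ, Nat.cast_zero] at h
      exact (mul_eq_zero.mp h).resolve_left (inv_ne_zero hP0)
    have h1 := ctx.dvd_degree hp χ h0 hn hq hqp hnq
    have h2 : Cfsg.charDegree (χ : G → ℂ) ≠ 1 := by
      intro h
      rw [h] at h1
      exact hq.one_lt.ne' (Nat.dvd_one.mp h1)
    exact ((Nat.prime_dvd_prime_iff_eq hq (hprime χ h2)).mp h1).symm
  have hqp1 : q ∣ p - 1 := ctx.dvd_pred hp hn hq hqp hnq
  have hqe : q ∣ e := by
    have h1 : orderOf n ∣ Nat.card N := Subgroup.orderOf_dvd_natCard N hn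
    rw [hnq, hcardN, hPp] at h1
    have hcop : Nat.Coprime q p := (Nat.coprime_primes hq hp).mpr hqp
    exact hcop.dvd_of_dvd_mul_left h1
  have hqlep : q ≤ p := by
    have := Nat.le_of_dvd (by have := hp.two_le; omega) hqp1
    omega
  -- second orthogonality on P
  set T : Cfsg.IrrCharacter G → ℝ :=
    fun χ => ∑ x ∈ Finset.univ.erase (1 : P), Complex.normSq ((χ : G → ℂ) x) with hT
  have hTnonneg : ∀ χ, 0 ≤ T χ := fun χ => Finset.sum_nonneg (fun x _ => Complex.normSq_nonneg _)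
  have hcol : ∀ x : P, x ≠ 1 → ∑ χ : Cfsg.IrrCharacter G, Complex.normSq ((χ : G → ℂ) x) ≤ p := by
    intro x hx
    have hx1 : (x : G) ≠ 1 := fun h => hx (Subtype.ext h)
    have h1 := Cfsg.Agent.Lib.Helper3.second_orthogonality_count (x : G) (x : G)
    have h2 : ∑ χ : Cfsg.IrrCharacter G, (χ : G → ℂ) x * conj ((χ : G → ℂ) x) =
        ((∑ χ : Cfsg.IrrCharacter G, Complex.normSq ((χ : G → ℂ) x) : ℝ) : ℂ) := by
      push_cast
      refine Finset.sum_congr rfl (fun χ _ => ?_)
      rw [Complex.mul_conj]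
    rw [h2] at h1
    have h3 : ∑ χ : Cfsg.IrrCharacter G, Complex.normSq ((χ : G → ℂ) x) =
        ((Finset.univ.filter (fun y : G => y * (x : G) * y⁻¹ = x)).card : ℝ) := by
      have : (((Finset.univ.filter (fun y : G => y * (x : G) * y⁻¹ = x)).card : ℝ) : ℂ) =
          ((Finset.univ.filter (fun y : G => y * (x : G) * y⁻¹ = x)).card : ℂ) := by
        push_cast; rfl
      rw [← this] at h1
      exact Complex.ofReal_injective h1
    rw [h3]
    have h4 : (Finset.univ.filter (fun y : G => y * (x : G) * y⁻¹ = x)).card ≤ p := by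
      have h5 : (Finset.univ.filter (fun y : G => y ∈ P)).card = p := by
        rw [← hPp, Nat.card_eq_fintype_card, Fintype.card_subtype]
      rw [← h5]
      apply Finset.card_le_card
      intro y hy
      rw [Finset.mem_filter] at hy ⊢
      refine ⟨Finset.mem_univ _, ?_⟩
      apply ctx.hcent x x.2 hx1
      calc y * (x : G) = y * (x : G) * y⁻¹ * y := by group
        _ = (x : G) * y := by rw [hy.2]
    exact_mod_cast h4
  have hTsum : ∑ χ : Cfsg.IrrCharacter G, T χ ≤ ((p : ℝ) - 1) * p := by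
    rw [hT]
    simp only
    rw [Finset.sum_comm]
    calc ∑ x ∈ Finset.univ.erase (1 : P), ∑ χ : Cfsg.IrrCharacter G,
          Complex.normSq ((χ : G → ℂ) x)
        ≤ ∑ _x ∈ Finset.univ.erase (1 : P), (p : ℝ) :=
          Finset.sum_le_sum (fun x hx => hcol x (Finset.mem_erase.mp hx).1)
      _ = ((p : ℝ) - 1) * p := by
          rw [Finset.sum_const, Finset.card_erase_of_mem (Finset.mem_univ _), Finset.card_univ,
            ← Nat.card_eq_fintype_card, hPp, nsmul_eq_mul, Nat.cast_sub hp.pos]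
          simp
  have hT1 : T (Cfsg.Agent.Lib.Helper74.irrOne G) = (p : ℝ) - 1 := by
    rw [hT]
    simp only [Cfsg.Agent.Lib.Helper74.irrOne_apply, map_one, Finset.sum_const, nsmul_eq_mul,
      mul_one]
    rw [Finset.card_erase_of_mem (Finset.mem_univ _), Finset.card_univ,
      ← Nat.card_eq_fintype_card, hPp, Nat.cast_sub hp.pos]
    simp
  have hTo : ∀ χ : Cfsg.IrrCharacter G, c χ = 0 → (q : ℝ) * ((p : ℝ) - q) ≤ T χ := by
    intro χ hχ
    obtain ⟨r, hr, hrle⟩ := abelian_norm P ctx.hab (hχc χ)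
    rw [hq0 χ hχ] at hrle
    have h1 : ∑ y : P, Complex.normSq ((χ : G → ℂ) y) = (p : ℝ) * r := by
      have h2 : ∑ y : P, (χ : G → ℂ) y * conj ((χ : G → ℂ) y) =
          ((∑ y : P, Complex.normSq ((χ : G → ℂ) y) : ℝ) : ℂ) := by
        push_cast
        refine Finset.sum_congr rfl (fun y _ => ?_)
        rw [Complex.mul_conj]
      rw [h2, hPp] at hr
      have h3 : ((p : ℂ) * (r : ℂ)) = (((p : ℝ) * (r : ℝ) : ℝ) : ℂ) := by push_cast; rfl
      rw [h3] at hr
      exact Complex.ofReal_injective hr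
    have h4 : Complex.normSq ((χ : G → ℂ) ((1 : P) : G)) + T χ =
        ∑ y : P, Complex.normSq ((χ : G → ℂ) y) := by
      rw [hT]
      exact Finset.add_sum_erase _ (fun y : P => Complex.normSq ((χ : G → ℂ) y))
        (Finset.mem_univ (1 : P))
    have h5 : Complex.normSq ((χ : G → ℂ) ((1 : P) : G)) = (q : ℝ) * q := by
      have : ((1 : P) : G) = 1 := rfl
      rw [this, hdegc χ, hq0 χ hχ, Complex.normSq_natCast]
    rw [h5, h1] at h4
    have h6 : (q : ℝ) ≤ r := by exact_mod_cast hrle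
    have h7 : (0 : ℝ) ≤ p := Nat.cast_nonneg p
    nlinarith [mul_le_mul_of_nonneg_left h6 h7]
  have S5 : (Finset.univ.filter (fun χ : Cfsg.IrrCharacter G => c χ = 0)).card * (q * (p - q)) ≤
      (p - 1) ^ 2 := by
    have h1 : ((Finset.univ.filter (fun χ : Cfsg.IrrCharacter G => c χ = 0)).card : ℝ) *
        ((q : ℝ) * ((p : ℝ) - q)) ≤
        ∑ χ ∈ Finset.univ.filter (fun χ : Cfsg.IrrCharacter G => c χ = 0), T χ := by
      rw [← nsmul_eq_mul, ← Finset.sum_const]
      apply Finset.sum_le_sum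
      intro χ hχ
      exact hTo χ (Finset.mem_filter.mp hχ).2
    have hnot : Cfsg.Agent.Lib.Helper74.irrOne G ∉
        Finset.univ.filter (fun χ : Cfsg.IrrCharacter G => c χ = 0) := by
      intro h
      have := (Finset.mem_filter.mp h).2
      omega
    have h2 : T (Cfsg.Agent.Lib.Helper74.irrOne G) +
        ∑ χ ∈ Finset.univ.filter (fun χ : Cfsg.IrrCharacter G => c χ = 0), T χ ≤
        ∑ χ : Cfsg.IrrCharacter G, T χ := by
      rw [← Finset.sum_insert hnot]
      exact Finset.sum_le_sum_of_subset_of_nonneg (Finset.subset_univ _)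
        (fun χ _ _ => hTnonneg χ)
    have h3 : ((Finset.univ.filter (fun χ : Cfsg.IrrCharacter G => c χ = 0)).card : ℝ) *
        ((q : ℝ) * ((p : ℝ) - q)) ≤ ((p : ℝ) - 1) ^ 2 := by
      rw [hT1] at h2
      nlinarith [h1, h2, hTsum]
    have h4 : (((Finset.univ.filter (fun χ : Cfsg.IrrCharacter G => c χ = 0)).card *
        (q * (p - q)) : ℕ) : ℝ) ≤ (((p - 1) ^ 2 : ℕ) : ℝ) := by
      push_cast [Nat.cast_sub hqlep, Nat.cast_sub hp.pos]
      exact h3
    exact_mod_cast h4
  exact arith_final (Cfsg.Agent.Lib.Helper74.irrOne G) c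
    (fun χ => Cfsg.charDegree (χ : G → ℂ)) p q e a hp hq hqe hepos hqp1 S1 S2 S3 hc0 hd0 hd2 hb
    hc01 hq0 S5

end Cfsg.Agent.Lib.Helper39.PrimeDeg
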