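import Mathlib
import Cfsg.Agent.S4464
import Cfsg.Agent.S0187
import Cfsg.Agent.Lib.Helper39.PrimeDegA
import Cfsg.Agent.Lib.Helper39.PrimeDegB
import Cfsg.Agent.Lib.Helper39.PrimeDegD
import Cfsg.Agent.Lib.Helper39.PrimeDegE

set_option autoImplicit false
open Cfsg

/-!
# Groups whose nonlinear irreducible characters have prime degree are solvable
-/

namespace Cfsg.Agent.Lib.Helper39.PrimeDeg

open scoped ComplexConjugate

universe u

set_option maxHeartbeats 1000000 in
/-- A nonabelian group without proper nontrivial normal subgroups has a nonlinear irreducible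
character of non-prime degree. -/
theorem simple_case {S : Type u} [Group S] [Finite S]
    (hsimple : ∀ N : Subgroup S, N.Normal → N = ⊥ ∨ N = ⊤)
    (hnc : ¬ ∀ a b : S, a * b = b * a)
    (h : ∀ χ : Cfsg.IrrCharacter S, Cfsg.charDegree (χ : S → ℂ) ≠ 1 →
      (Cfsg.charDegree (χ : S → ℂ)).Prime) : False := by
  classical
  have := Fintype.ofFinite S
  have := Fintype.ofFinite (Cfsg.IrrCharacter S)
  -- a nonlinear character
  have hex : ∃ χ₀ : Cfsg.IrrCharacter S, Cfsg.charDegree (χ₀ : S → ℂ) ≠ 1 := by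
    by_contra hcon
    push Not at hcon
    apply hnc
    rw [Cfsg.Agent.S0187.result]
    intro χ
    rw [(Cfsg.Agent.Lib.Helper79.irr_charDegree χ.2).1, hcon χ]
    simp
  obtain ⟨χ₀, hχ₀⟩ := hex
  have : Nonempty (Cfsg.IrrCharacter S) := ⟨χ₀⟩
  obtain ⟨χm, hχm⟩ := Finite.exists_max (fun χ : Cfsg.IrrCharacter S => Cfsg.charDegree (χ : S → ℂ))
  set p := Cfsg.charDegree (χm : S → ℂ) with hpdef
  have hb : ∀ χ : Cfsg.IrrCharacter S, Cfsg.charDegree (χ : S → ℂ) ≤ p := hχm
  have hp1 : 1 < p := by
    have h1 := hb χ₀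
    have h2 := (Cfsg.Agent.Lib.Helper79.irr_charDegree χ₀.2).2.1
    omega
  have hp : p.Prime := h χm (by omega)
  have : Fact p.Prime := ⟨hp⟩
  have hpdvd : p ∣ Nat.card S := (Cfsg.Agent.Lib.Helper79.irr_charDegree χm.2).2.2
  -- the centre is trivial and the group is perfect
  have hcenter : Subgroup.center S = ⊥ := by
    rcases hsimple (Subgroup.center S) inferInstance with h1 | h1
    · exact h1
    · exfalso
      apply hnc
      intro a b
      have ha : a ∈ Subgroup.center S := by rw [h1]; exact Subgroup.mem_top a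
      rw [Subgroup.mem_center_iff] at ha
      exact (ha b).symm
  have hperf : commutator S = ⊤ := by
    rcases hsimple (commutator S) inferInstance with h1 | h1
    · exfalso
      rw [commutator_eq_bot_iff_center_eq_top, hcenter] at h1
      apply hnc
      intro a b
      have ha : a ∈ (⊥ : Subgroup S) := by rw [h1]; exact Subgroup.mem_top a
      have hb' : b ∈ (⊥ : Subgroup S) := by rw [h1]; exact Subgroup.mem_top b
      rw [Subgroup.mem_bot] at ha hb'
      rw [ha, hb']
    · exact h1
  have hlin := linear_eq_irrOne hperf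
  -- proper subgroups have smaller degrees
  have hbH : ∀ K : Subgroup S, K ≠ ⊤ → ∀ ψ : Cfsg.IrrCharacter K,
      Cfsg.charDegree (ψ : K → ℂ) < p :=
    fun K hK ψ => degree_lt_of_proper hsimple p hp1 hb K hK ψ
  obtain ⟨P⟩ : Nonempty (Sylow p S) := inferInstance
  have hPbot : (P : Subgroup S) ≠ ⊥ := P.ne_bot_of_dvd_card hpdvd
  have hPtop : (P : Subgroup S) ≠ ⊤ := by
    intro htop
    have hpg : IsPGroup p S := by
      intro g
      obtain ⟨k, hk⟩ := P.isPGroup' ⟨g, by rw [htop]; exact Subgroup.mem_top g⟩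
      exact ⟨k, congrArg Subtype.val hk⟩
    have hnt : Nontrivial S := by
      by_contra hcon
      rw [not_nontrivial_iff_subsingleton] at hcon
      exact hnc (fun a b => Subsingleton.elim _ _)
    have := hpg.center_nontrivial
    rw [hcenter] at this
    exact not_subsingleton _ (inferInstance : Subsingleton (⊥ : Subgroup S))
  have hQtop : ∀ Q : Sylow p S, (Q : Subgroup S) ≠ ⊤ := by
    intro Q htop
    apply hPtop
    rw [← Subgroup.card_eq_iff_eq_top] at htop ⊢
    rw [← htop, Sylow.card_eq_multiplicity P, Sylow.card_eq_multiplicity Q]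
  -- all Sylow subgroups are abelian
  have hab : ∀ Q : Sylow p S, ∀ x ∈ (Q : Subgroup S), ∀ y ∈ (Q : Subgroup S),
      x * y = y * x := by
    intro Q x hx y hy
    obtain ⟨k, hk⟩ := IsPGroup.iff_card.mp Q.isPGroup'
    have h1 := Cfsg.Agent.S4464.comm_of_pgroup p hp k hk (hbH Q (hQtop Q)) ⟨x, hx⟩ ⟨y, hy⟩
    exact congrArg Subtype.val h1
  have hnorm : ¬ (P : Subgroup S).Normal := by
    intro hn
    rcases hsimple P hn with h1 | h1
    · exact hPbot h1
    · exact hPtop h1
  -- two distinct Sylow subgroups generate S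
  have hgen : ∀ Q : Sylow p S, Q ≠ P → (P : Subgroup S) ⊔ (Q : Subgroup S) = ⊤ := by
    intro Q hQ
    by_contra hne
    obtain ⟨S', hSn, -, hSp, hSi⟩ := Cfsg.Agent.S4464.main p hp _
      ((P : Subgroup S) ⊔ (Q : Subgroup S) : Subgroup S) rfl (hbH _ hne)
    have key : ∀ R : Sylow p S, (R : Subgroup S) ≤ (P : Subgroup S) ⊔ (Q : Subgroup S) →
        (R : Subgroup S) = S'.map ((P : Subgroup S) ⊔ (Q : Subgroup S)).subtype := by
      intro R hR
      have h1 : (R : Subgroup S).subgroupOf ((P : Subgroup S) ⊔ (Q : Subgroup S)) ≤ S' :=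
        Cfsg.Agent.S4464.normal_sylow_unique p S' hSp hSi _ (R.isPGroup'.comap_subtype)
      have h2 : (R : Subgroup S) ≤ S'.map ((P : Subgroup S) ⊔ (Q : Subgroup S)).subtype := by
        intro x hx
        exact ⟨⟨x, hR hx⟩, h1 (Subgroup.mem_subgroupOf.mpr hx), rfl⟩
      exact (R.is_maximal' (hSp.map _) h2).symm
    have e1 := key P le_sup_left
    have e2 := key Q le_sup_right
    exact hQ (Sylow.ext (e2.trans e1.symm))
  -- distinct Sylow subgroups intersect trivially
  have hcent : ∀ Q : Sylow p S, Q ≠ P → ∀ x, x ∈ (P : Subgroup S) → x ∈ (Q : Subgroup S) →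
      x = 1 := by
    intro Q hQ x hxP hxQ
    have h1 : (P : Subgroup S) ⊔ (Q : Subgroup S) ≤ Subgroup.centralizer {x} := by
      apply sup_le
      · intro y hy
        rw [Subgroup.mem_centralizer_iff]
        intro z hz
        rw [Set.mem_singleton_iff] at hz
        subst hz
        exact hab P z hxP y hy
      · intro y hy
        rw [Subgroup.mem_centralizer_iff]
        intro z hz
        rw [Set.mem_singleton_iff] at hz
        subst hz
        exact hab Q z hxQ y hy
    rw [hgen Q hQ] at h1
    have hxc : x ∈ Subgroup.center S := by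
      rw [Subgroup.mem_center_iff]
      intro g
      have h2 := h1 (Subgroup.mem_top g)
      rw [Subgroup.mem_centralizer_iff] at h2
      exact (h2 x rfl).symm
    rw [hcenter, Subgroup.mem_bot] at hxc
    exact hxc
  set N : Subgroup S := Subgroup.normalizer ((P : Subgroup S) : Set S) with hNdef
  have hPN : (P : Subgroup S) ≤ N := Subgroup.le_normalizer
  have hNtop : N ≠ ⊤ := fun h1 => hnorm (Subgroup.normalizer_eq_top_iff.mp h1)
  have hfix : ∀ x ∈ (P : Subgroup S), x ≠ 1 → ∀ y : S, y⁻¹ * x * y ∈ N → y ∈ N := by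
    intro x hxP hx1 y hy
    by_contra hyN
    have hzQ : y⁻¹ * x * y ∈ ((y⁻¹ • P : Sylow p S) : Subgroup S) := by
      rw [Sylow.coe_subgroup_smul, Subgroup.mem_pointwise_smul_iff_inv_smul_mem]
      simp only [MulAut.smul_def, ← map_inv, inv_inv, MulAut.conj_apply]
      have e : y * (y⁻¹ * x * y) * y⁻¹ = x := by group
      rw [e]
      exact hxP
    have hzP : y⁻¹ * x * y ∈ (P : Subgroup S) :=
      Cfsg.Agent.S4464.mem_sylow_of_mem_normalizer p P (y⁻¹ • P) _ hzQ hy
    have hQP : (y⁻¹ • P : Sylow p S) ≠ P := by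
      intro h1
      rw [Sylow.smul_eq_iff_mem_normalizer] at h1
      apply hyN
      have h' := (Subgroup.normalizer ((P : Subgroup S) : Set S)).inv_mem h1
      rwa [inv_inv] at h'
    have hz1 := hcent _ hQP _ hzP hzQ
    apply hx1
    have e : x = y * (y⁻¹ * x * y) * y⁻¹ := by group
    rw [e, hz1]
    group
  have hcardle : p ≤ Nat.card (P : Subgroup S) := by
    obtain ⟨k, hk⟩ := IsPGroup.iff_card.mp P.isPGroup'
    rw [hk]
    have hk0 : k ≠ 0 := by
      intro h0
      rw [h0, pow_zero, Subgroup.card_eq_one] at hk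
      exact hPbot hk
    calc p = p ^ 1 := (pow_one p).symm
      _ ≤ p ^ k := Nat.pow_le_pow_right hp.pos (Nat.pos_of_ne_zero hk0)
  have hNidx : N.index ≠ 1 := fun h1 => hNtop (Subgroup.index_eq_one.mp h1)
  have : Fintype (P : Subgroup S) := Fintype.ofFinite _
  have : Fintype N := Fintype.ofFinite _
  obtain ⟨hPp, A, hidxA, hπ, hA⟩ := key_count2 p (P : Subgroup S) N hPN hfix hcardle hNidx hb
  -- p-elements of N lie in P
  have hpN' : ∀ w ∈ N, IsPGroup p (Subgroup.zpowers w) → w ∈ (P : Subgroup S) := by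
    intro w hwN hw
    obtain ⟨Q, hQ⟩ := hw.exists_le_sylow
    exact Cfsg.Agent.S4464.mem_sylow_of_mem_normalizer p P Q w
      (hQ (Subgroup.mem_zpowers w)) hwN
  have hpN : ∀ w ∈ N, orderOf w = p → w ∈ (P : Subgroup S) := by
    intro w hwN hw
    apply hpN' w hwN
    apply IsPGroup.of_card (n := 1)
    rw [Nat.card_zpowers, hw, pow_one]
  have hcore : ∀ g : S, (∀ y : S, y⁻¹ * g * y ∈ N) → g = 1 := by
    intro g hg
    have hcoreN : N.normalCore = ⊥ := by
      rcases hsimple N.normalCore inferInstance with h1 | h1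
      · exact h1
      · exact absurd (top_le_iff.mp (h1 ▸ N.normalCore_le)) hNtop
    have hmem : g ∈ N.normalCore := by
      intro y
      have := hg y⁻¹
      rw [inv_inv] at this
      exact this
    rw [hcoreN, Subgroup.mem_bot] at hmem
    exact hmem
  have hA0 : A.card ≠ 0 := by
    intro h0
    rw [h0, mul_zero, add_zero] at hidxA
    exact hNidx hidxA
  have hcentP := centralizer_le p hp (P : Subgroup S) N hPN hfix (hab P) hpN hcore hPp A hidxA
    hA0 hπ hA
  -- the local configuration
  have hnormN : ∀ n ∈ N, ∀ x ∈ (P : Subgroup S), n * x * n⁻¹ ∈ (P : Subgroup S) := by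
    intro n hn x hx
    exact (Subgroup.mem_normalizer_iff.mp hn x).mp hx
  have ctx : Ctx p (P : Subgroup S) N := by
    refine ⟨hPN, hnormN, hPp, hfix, ?_, hab P⟩
    intro x hx hx1 g hg
    apply hcentP
    intro y hy
    have h1 : (⟨y, hy⟩ : (P : Subgroup S)) ∈ Submonoid.powers (⟨x, hx⟩ : (P : Subgroup S)) :=
      mem_powers_of_prime_card hPp (fun h => hx1 (congrArg Subtype.val h))
    obtain ⟨k, hk⟩ := h1
    have hk' : x ^ k = y := congrArg Subtype.val hk
    rw [← hk']
    have hc : Commute g x := hg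
    exact (hc.pow_right k).eq
  -- an element of N outside P (Burnside's transfer theorem)
  have hexn : ∃ n ∈ N, n ∉ (P : Subgroup S) := by
    by_contra hcon
    push Not at hcon
    have hNC : Subgroup.normalizer ((P : Subgroup S) : Set S) ≤
        Subgroup.centralizer ((P : Subgroup S) : Set S) := by
      intro n hn
      rw [Subgroup.mem_centralizer_iff]
      intro y hy
      exact hab P y hy n (hcon n hn)
    have hcompl := MonoidHom.ker_transferSylow_isComplement' P hNC
    have hmul := hcompl.card_mul_card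
    rcases hsimple (MonoidHom.transferSylow P hNC).ker inferInstance with h1 | h1
    · rw [h1, Subgroup.card_bot, one_mul] at hmul
      exact hPtop ((Subgroup.card_eq_iff_eq_top _).mp hmul)
    · rw [h1, Subgroup.card_top] at hmul
      have hSpos : 0 < Nat.card S := Nat.card_pos
      have : Nat.card (P : Subgroup S) = 1 := by
        have h2 : Nat.card S * Nat.card (P : Subgroup S) = Nat.card S * 1 := by
          rw [hmul, mul_one]
        exact Nat.eq_of_mul_eq_mul_left hSpos h2
      rw [Subgroup.card_eq_one] at this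
      exact hPbot this
  obtain ⟨n, hnN, hnP⟩ := hexn
  -- an element of N of prime order q ≠ p
  have hexq : ∃ q : ℕ, q.Prime ∧ q ∣ orderOf n ∧ q ≠ p := by
    by_contra hcon
    push Not at hcon
    apply hnP
    apply hpN' n hnN
    have h1 := Nat.eq_prime_pow_of_unique_prime_dvd (orderOf_pos n).ne'
      (fun {d} hd hdvd => hcon d hd hdvd)
    apply IsPGroup.of_card (n := (orderOf n).primeFactorsList.length)
    rw [Nat.card_zpowers]
    exact h1
  obtain ⟨q, hq, hqdvd, hqp⟩ := hexq
  have hopos : 0 < orderOf n := orderOf_pos n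
  set k := orderOf n / q with hk
  have hkdvd : k ∣ orderOf n := Nat.div_dvd_of_dvd hqdvd
  have hk0 : k ≠ 0 := by
    intro h0
    rw [h0] at hkdvd
    have := Nat.eq_zero_of_zero_dvd hkdvd
    omega
  have hord : orderOf (n ^ k) = q := by
    rw [orderOf_pow_of_dvd hk0 hkdvd, hk, Nat.div_div_self hqdvd hopos.ne']
  exact final_count p hp (P : Subgroup S) N ctx A.card hidxA hb h hlin (n ^ k)
    (N.pow_mem hnN k) q hq hqp hord

/-- **Isaacs–Passman**: a finite group all of whose nonlinear irreducible characters have prime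
degree is solvable. -/
theorem main : ∀ (n : ℕ) (G : Type u) [Group G] [Finite G], Nat.card G = n →
    (∀ χ : Cfsg.IrrCharacter G, Cfsg.charDegree (χ : G → ℂ) ≠ 1 →
      (Cfsg.charDegree (χ : G → ℂ)).Prime) → Group.IsSolvable G := by
  intro n
  induction n using Nat.strong_induction_on with
  | _ n ih =>
  intro G _ _ hn h
  by_cases hc : ∀ a b : G, a * b = b * a
  · exact Group.isSolvable_of_comm hc
  by_cases hs : ∀ N : Subgroup G, N.Normal → N = ⊥ ∨ N = ⊤
  · exact (simple_case hs hc h).elim
  push Not at hs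
  obtain ⟨N, hNn, hNbot, hNtop⟩ := hs
  have := hNn
  have hlt1 : Nat.card N < n := by
    rw [← hn]
    exact lt_of_le_of_ne (Subgroup.card_le_card_group _)
      (fun h => hNtop ((Subgroup.card_eq_iff_eq_top _).mp h))
  have hlt2 : Nat.card (G ⧸ N) < n := by
    rw [← hn, ← Subgroup.index_eq_card, ← N.card_mul_index]
    have h1 : 1 < Nat.card N := by
      have h2 : Nat.card N ≠ 1 := fun h => hNbot (Subgroup.card_eq_one.mp h)
      have h3 : 0 < Nat.card N := Nat.card_pos
      omega
    have h4 : 0 < N.index := Nat.pos_of_ne_zero Subgroup.index_ne_zero_of_finite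
    nlinarith
  have h1 : Group.IsSolvable N := ih (Nat.card N) hlt1 N rfl (prime_deg_normal h N)
  have h2 : Group.IsSolvable (G ⧸ N) :=
    ih (Nat.card (G ⧸ N)) hlt2 (G ⧸ N) rfl (prime_deg_quotient h N)
  exact Group.isSolvable_of_ker_le_range N.subtype (QuotientGroup.mk' N) (by simp)

end Cfsg.Agent.Lib.Helper39.PrimeDeg
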