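import Mathlib
import Cfsg.Agent.S0886
import Cfsg.Agent.Lib.Helper39.PrimeDegF
import Cfsg.Agent.Lib.Helper75.Gallagher
import Cfsg.Agent.Lib.Helper80.Winter2
import Cfsg.Agent.Lib.Helper81.WreathM4

set_option autoImplicit false
open Cfsg

/-!
# Groups whose nonlinear irreducible characters have prime degree have at most three degrees
-/

namespace Cfsg.Agent.Lib.Helper39.PrimeDeg

open scoped ComplexConjugate

universe u

/-- An irreducible character of prime degree `s` vanishing off a proper normal subgroup `L` of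
index `k`: then `s ∣ k ≤ s²`. -/
theorem vanish_off_dvd {M : Type u} [Group M] [Finite M] (L : Subgroup M) [hL : L.Normal]
    {θ : M → ℂ} (hθ : Cfsg.IsIrrCharacter M θ) (hvan : ∀ m : M, m ∉ L → θ m = 0)
    (hs : (Cfsg.charDegree θ).Prime) (hk : L.index ≠ 1) :
    Cfsg.charDegree θ ∣ L.index ∧ L.index ≤ Cfsg.charDegree θ ^ 2 := by
  classical
  have := Fintype.ofFinite M
  have : Fintype L := Fintype.ofFinite L
  have := Fintype.ofFinite (Cfsg.IrrCharacter M)
  have := Fintype.ofFinite (Cfsg.IrrCharacter L)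
  have hθc : Cfsg.IsCharacter M θ := Cfsg.Agent.Lib.Helper3.isCharacter_of_irr hθ
  have hθcf := Cfsg.Agent.Lib.Helper3.isClassFunction_of_isCharacter hθc
  obtain ⟨hθ1, hθpos, -⟩ := Cfsg.Agent.Lib.Helper79.irr_charDegree hθ
  set s := Cfsg.charDegree θ with hsdef
  set k := L.index with hkdef
  have hkpos : 0 < k := Nat.pos_of_ne_zero Subgroup.index_ne_zero_of_finite
  constructor
  · -- divisibility
    have h1 : Cfsg.indFun L (fun n : L => θ n) = (k : ℂ) • θ := by
      have h2 := Cfsg.Agent.Lib.Helper75.indFun_mul_res L hθcf (fun _ : L => (1 : ℂ))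
      simp only [mul_one] at h2
      rw [h2]
      funext m
      simp only [Pi.mul_apply, Pi.smul_apply, smul_eq_mul]
      by_cases hm : m ∈ L
      · have h3 := congrFun (Cfsg.Agent.Lib.Helper75.indFun_one_res L) ⟨m, hm⟩
        simp only at h3
        rw [h3, mul_comm]
      · rw [hvan m hm]; simp
    obtain ⟨φ, hφ, hne⟩ := Cfsg.Agent.Lib.Helper80.exists_constituent_restrict L hθ
    have hresc : Cfsg.IsCharacter L (fun n : L => θ n) :=
      Cfsg.Agent.Lib.Helper75.isCharacter_res L hθc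
    obtain ⟨mm, hmm, hmsum⟩ := Cfsg.Agent.Lib.Helper75.char_eq_sum_irr hresc
    have hmφ : mm ⟨φ, hφ⟩ ≠ 0 := by
      intro h0
      apply hne
      rw [hmm ⟨φ, hφ⟩, h0, Nat.cast_zero]
    have hφc : Cfsg.IsCharacter L φ := Cfsg.Agent.Lib.Helper3.isCharacter_of_irr hφ
    -- the induced character of φ is a multiple of θ
    have hfr : ∀ θ' : Cfsg.IrrCharacter M, Cfsg.classInner (Cfsg.indFun L φ) (θ' : M → ℂ) =
        Cfsg.classInner φ (fun n : L => (θ' : M → ℂ) n) := fun θ' =>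
      Cfsg.Agent.Lib.Helper75.frobenius_reciprocity L φ
        (Cfsg.Agent.Lib.Helper3.isClassFunction_of_isCharacter
          (Cfsg.Agent.Lib.Helper3.isCharacter_of_irr θ'.2))
    have hzero : ∀ θ' : Cfsg.IrrCharacter M, (θ' : M → ℂ) ≠ θ →
        Cfsg.classInner (Cfsg.indFun L φ) (θ' : M → ℂ) = 0 := by
      intro θ' hne'
      have hθ'c := Cfsg.Agent.Lib.Helper3.isCharacter_of_irr θ'.2
      have hres'c : Cfsg.IsCharacter L (fun n : L => (θ' : M → ℂ) n) :=
        Cfsg.Agent.Lib.Helper75.isCharacter_res L hθ'c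
      obtain ⟨nn, hnn, -⟩ := Cfsg.Agent.Lib.Helper75.char_eq_sum_irr hres'c
      have h3 : Cfsg.classInner (fun n : L => θ n) (fun n : L => (θ' : M → ℂ) n) = 0 := by
        rw [← Cfsg.Agent.Lib.Helper75.frobenius_reciprocity L _
          (Cfsg.Agent.Lib.Helper3.isClassFunction_of_isCharacter hθ'c), h1,
          Cfsg.Agent.Lib.Helper75.classInner_smul_left,
          Cfsg.Agent.Lib.Helper3.classInner_irr_ne hθ θ'.2 (Ne.symm hne'), mul_zero]
      have h4 : Cfsg.classInner (fun n : L => θ n) (fun n : L => (θ' : M → ℂ) n) =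
          ((∑ ψ : Cfsg.IrrCharacter L, mm ψ * nn ψ : ℕ) : ℂ) := by
        conv_lhs => rw [hmsum]
        rw [Cfsg.Agent.Lib.Helper75.classInner_sum_left]
        push_cast
        refine Finset.sum_congr rfl (fun ψ _ => ?_)
        rw [Cfsg.Agent.Lib.Helper75.classInner_smul_left,
          Cfsg.Agent.Lib.Helper75.classInner_conj_symm, hnn ψ]
        simp
      rw [h4] at h3
      have h5 : ∑ ψ : Cfsg.IrrCharacter L, mm ψ * nn ψ = 0 := by exact_mod_cast h3
      have h6 := (Finset.sum_eq_zero_iff.mp h5) ⟨φ, hφ⟩ (Finset.mem_univ _)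
      have h7 : nn ⟨φ, hφ⟩ = 0 := by
        rcases Nat.mul_eq_zero.mp h6 with h | h
        · exact absurd h hmφ
        · exact h
      rw [hfr θ', Cfsg.Agent.Lib.Helper75.classInner_conj_symm, hnn ⟨φ, hφ⟩, h7]
      simp
    have hind : Cfsg.indFun L φ = (mm ⟨φ, hφ⟩ : ℂ) • θ := by
      have h3 := Cfsg.Agent.Lib.Helper3.classFunction_expansion'
        (Cfsg.Agent.Lib.Helper75.indFun_isClassFunction L φ)
      rw [h3, Finset.sum_eq_single (⟨θ, hθ⟩ : Cfsg.IrrCharacter M)]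
      · rw [hfr ⟨θ, hθ⟩, Cfsg.Agent.Lib.Helper75.classInner_conj_symm, hmm ⟨φ, hφ⟩]
        simp
      · intro θ' _ hne'
        rw [hzero θ' (fun h => hne' (Subtype.ext h)), zero_smul]
      · intro hcon
        exact absurd (Finset.mem_univ _) hcon
    have hdegφ := (Cfsg.Agent.Lib.Helper79.irr_charDegree hφ)
    have hdeg1 : k * Cfsg.charDegree φ = mm ⟨φ, hφ⟩ * s := by
      have h3 := congrFun hind 1
      rw [Cfsg.Agent.Lib.Helper75.indFun_one, hdegφ.1] at h3
      simp only [Pi.smul_apply, smul_eq_mul] at h3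
      rw [hθ1] at h3
      exact_mod_cast h3
    have hdeg2 : mm ⟨φ, hφ⟩ * Cfsg.charDegree φ ≤ s := by
      have h3 : θ 1 = ∑ ψ : Cfsg.IrrCharacter L, (mm ψ : ℂ) * (ψ : L → ℂ) 1 := by
        have h4 := congrFun hmsum 1
        simp only [Finset.sum_apply, Pi.smul_apply, smul_eq_mul] at h4
        exact h4
      have hdegL : ∀ ψ : Cfsg.IrrCharacter L,
          (ψ : L → ℂ) 1 = (Cfsg.charDegree (ψ : L → ℂ) : ℂ) :=
        fun ψ => (Cfsg.Agent.Lib.Helper79.irr_charDegree ψ.2).1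
      simp only [hdegL] at h3
      rw [hθ1] at h3
      have h5 : s = ∑ ψ : Cfsg.IrrCharacter L, mm ψ * Cfsg.charDegree (ψ : L → ℂ) := by
        exact_mod_cast h3
      rw [h5]
      exact Finset.single_le_sum (f := fun ψ : Cfsg.IrrCharacter L =>
        mm ψ * Cfsg.charDegree (ψ : L → ℂ)) (fun _ _ => Nat.zero_le _)
        (Finset.mem_univ (⟨φ, hφ⟩ : Cfsg.IrrCharacter L))
    have hdvd : s ∣ k * Cfsg.charDegree φ := by
      rw [hdeg1]; exact Dvd.intro_left _ rfl
    rcases (Nat.Prime.dvd_mul hs).mp hdvd with h | h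
    · exact h
    · exfalso
      have h3 : s ≤ Cfsg.charDegree φ := Nat.le_of_dvd hdegφ.2.1 h
      have h4 : 1 ≤ mm ⟨φ, hφ⟩ := Nat.pos_of_ne_zero hmφ
      have h5 : mm ⟨φ, hφ⟩ * s ≤ s := le_trans (Nat.mul_le_mul_left _ h3) hdeg2
      have h6 : mm ⟨φ, hφ⟩ = 1 := by
        have h7 : mm ⟨φ, hφ⟩ * s ≤ 1 * s := by rw [one_mul]; exact h5
        have := Nat.le_of_mul_le_mul_right h7 hθpos
        omega
      rw [h6, one_mul] at hdeg1 hdeg2
      have h8 : Cfsg.charDegree φ = s := le_antisymm hdeg2 h3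
      rw [h8] at hdeg1
      have h9 : k * s = 1 * s := by rw [one_mul]; exact hdeg1
      exact hk (Nat.eq_of_mul_eq_mul_right hθpos h9)
  · -- the bound
    have h1 := Cfsg.Agent.Lib.Helper3.classInner_irr_self hθ
    unfold Cfsg.classInner at h1
    have hM0 : (Nat.card M : ℂ) ≠ 0 := by exact_mod_cast Nat.card_pos.ne'
    have h2 : ∑ m : M, θ m * conj (θ m) = (Nat.card M : ℂ) := by
      have : ∑ m : M, θ m * conj (θ m) = (Nat.card M : ℂ) * ((Nat.card M : ℂ)⁻¹ *
          ∑ m : M, θ m * conj (θ m)) := by field_simp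
      rw [this, h1, mul_one]
    have h3 : ∑ m : M, Complex.normSq (θ m) = (Nat.card M : ℝ) := by
      have h4 : ∑ m : M, θ m * conj (θ m) = ((∑ m : M, Complex.normSq (θ m) : ℝ) : ℂ) := by
        push_cast
        refine Finset.sum_congr rfl (fun m _ => ?_)
        rw [Complex.mul_conj]
      rw [h4] at h2
      have h5 : ((Nat.card M : ℝ) : ℂ) = (Nat.card M : ℂ) := by push_cast; rfl
      rw [← h5] at h2
      exact Complex.ofReal_injective h2
    have h4 : ∑ m : M, Complex.normSq (θ m) ≤ (Nat.card L : ℝ) * (s : ℝ) ^ 2 := by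
      have h5 : ∑ m : M, Complex.normSq (θ m) =
          ∑ m ∈ Finset.univ.filter (fun m : M => m ∈ L), Complex.normSq (θ m) := by
        symm
        apply Finset.sum_subset (Finset.filter_subset _ _)
        intro m _ hm
        rw [Finset.mem_filter] at hm
        have hm' : m ∉ L := fun h => hm ⟨Finset.mem_univ _, h⟩
        rw [hvan m hm', map_zero]
      rw [h5]
      have h6 : (Finset.univ.filter (fun m : M => m ∈ L)).card = Nat.card L := by
        rw [Nat.card_eq_fintype_card, Fintype.card_subtype]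
      calc ∑ m ∈ Finset.univ.filter (fun m : M => m ∈ L), Complex.normSq (θ m)
          ≤ ∑ _m ∈ Finset.univ.filter (fun m : M => m ∈ L), (s : ℝ) ^ 2 := by
            apply Finset.sum_le_sum
            intro m _
            rw [Complex.normSq_eq_norm_sq]
            have h7 := Cfsg.Agent.Lib.Helper80.norm_char_le_charDegree hθc m
            have h8 : (0 : ℝ) ≤ ‖θ m‖ := norm_nonneg _
            nlinarith
        _ = (Nat.card L : ℝ) * (s : ℝ) ^ 2 := by
            rw [Finset.sum_const, h6, nsmul_eq_mul]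
    rw [h3, ← L.card_mul_index] at h4
    have hLpos : 0 < Nat.card L := Nat.card_pos
    have h5 : Nat.card L * k ≤ Nat.card L * s ^ 2 := by exact_mod_cast h4
    exact Nat.le_of_mul_le_mul_left h5 hLpos

section Step

variable {G : Type u} [Group G] [Finite G] (M : Subgroup G) [hM : M.Normal]

/-- Over a cyclic quotient, an irreducible character lying over an invariant irreducible
character `θ` of `M` restricts to `θ`. -/
theorem restrict_eq_of_invariant [Fintype M] (hcyc : IsCyclic (G ⧸ M)) {χ : G → ℂ}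
    (hχ : Cfsg.IsIrrCharacter G χ) {θ : M → ℂ} (hθ : Cfsg.IsIrrCharacter M θ)
    (hne : Cfsg.classInner (fun n : M => χ n) θ ≠ 0)
    (hinv : ∀ (g : G) (n : M), θ ⟨g * n * g⁻¹, hM.conj_mem (n : G) n.2 g⟩ = θ n) :
    (fun n : M => χ n) = θ := by
  classical
  have := Fintype.ofFinite G
  obtain ⟨χ', hχ', hext⟩ := Cfsg.Agent.S0886.result M hcyc θ hθ hinv
  have hres : (fun n : M => χ' n) = θ := funext hext
  have hχ'M : Cfsg.IsIrrCharacter M (fun n : M => χ' n) := by rw [hres]; exact hθ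
  obtain ⟨β, hβ, hβM, hχeq⟩ := Cfsg.Agent.Lib.Helper75.gallagher_exists M hχ' hχ'M hχ
    (by rw [hres]; exact hne)
  have hβ1 : β 1 = 1 := by
    obtain ⟨ψ, hψ, hψβ⟩ := Cfsg.Agent.Lib.Helper80.exists_isIrrCharacter_deflate (N := M) hβ
      (fun x hx => hβM ⟨x, hx⟩)
    have hcomm : ∀ a b : G ⧸ M, a * b = b * a := by
      intro a b
      obtain ⟨g, hg⟩ := hcyc.exists_generator
      obtain ⟨i, rfl⟩ := Subgroup.mem_zpowers_iff.mp (hg a)
      obtain ⟨j, rfl⟩ := Subgroup.mem_zpowers_iff.mp (hg b)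
      rw [← zpow_add, ← zpow_add, add_comm]
    have h1 := Cfsg.Agent.Lib.Helper82.irr_one_eq_one_of_comm hcomm hψ
    rw [← hψβ 1]
    exact h1
  funext n
  rw [hχeq]
  simp only [Pi.mul_apply]
  rw [hβM n, hβ1, one_mul, hext n]

/-- The degree of an irreducible character lying over a non-invariant character of a normal
subgroup of prime index. -/
theorem degree_of_not_invariant [Fintype M] {r : ℕ} (hr : r.Prime) (hidx : M.index = r)
    {χ : G → ℂ}
    (hχ : Cfsg.IsIrrCharacter G χ) {θ : M → ℂ} (hθ : Cfsg.IsIrrCharacter M θ)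
    (hne : Cfsg.classInner (fun n : M => χ n) θ ≠ 0)
    (hinv : ¬ ∀ (g : G) (n : M), θ ⟨g * n * g⁻¹, hM.conj_mem (n : G) n.2 g⟩ = θ n) :
    ∃ e : ℕ, Cfsg.charDegree χ = e * r * Cfsg.charDegree θ := by
  classical
  have := Fintype.ofFinite G
  obtain ⟨e, he⟩ := Cfsg.Agent.Lib.Helper80.charDegree_eq_mul_index_inertia M hχ hθ hne
  refine ⟨e, ?_⟩
  have h1 : Cfsg.Agent.Lib.Helper75.inertia M θ ≠ ⊤ := by
    intro htop
    apply hinv
    rw [Cfsg.Agent.Lib.Helper75.inertia_eq_top_iff,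
      Cfsg.Agent.Lib.Helper75.forall_conjChar_eq_iff] at htop
    exact htop
  have h2 : M ≤ Cfsg.Agent.Lib.Helper75.inertia M θ :=
    Cfsg.Agent.Lib.Helper75.le_inertia M (Cfsg.Agent.Lib.Helper3.isClassFunction_of_isCharacter
      (Cfsg.Agent.Lib.Helper3.isCharacter_of_irr hθ))
  have h3 : (Cfsg.Agent.Lib.Helper75.inertia M θ).index ∣ r := by
    rw [← hidx]
    exact Subgroup.index_dvd_of_le h2
  have h4 : (Cfsg.Agent.Lib.Helper75.inertia M θ).index = r := by
    rcases (Nat.dvd_prime hr).mp h3 with h | h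
    · exact absurd (Subgroup.index_eq_one.mp h) h1
    · exact h
  rw [he, h4]

/-- The inductive step: the set of degrees of `G` from that of a normal subgroup of prime
index. -/
theorem cd_step {r : ℕ} (hr : r.Prime) (hidx : M.index = r)
    (h : ∀ χ : Cfsg.IrrCharacter G, Cfsg.charDegree (χ : G → ℂ) ≠ 1 →
      (Cfsg.charDegree (χ : G → ℂ)).Prime)
    (t₁ t₂ : ℕ) (hcdM : ∀ θ : Cfsg.IrrCharacter M, Cfsg.charDegree (θ : M → ℂ) = 1 ∨
      Cfsg.charDegree (θ : M → ℂ) = t₁ ∨ Cfsg.charDegree (θ : M → ℂ) = t₂) :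
    ∃ s₁ s₂ : ℕ, ∀ χ : Cfsg.IrrCharacter G, Cfsg.charDegree (χ : G → ℂ) = 1 ∨
      Cfsg.charDegree (χ : G → ℂ) = s₁ ∨ Cfsg.charDegree (χ : G → ℂ) = s₂ := by
  classical
  have := Fintype.ofFinite G
  have : Fintype M := Fintype.ofFinite M
  have hcyc : IsCyclic (G ⧸ M) := by
    have : Fact r.Prime := ⟨hr⟩
    apply isCyclic_of_prime_card (p := r)
    rw [← Subgroup.index_eq_card, hidx]
  have hdegres : ∀ (χ : G → ℂ) (θ : M → ℂ), (fun n : M => χ n) = θ →
      Cfsg.charDegree χ = Cfsg.charDegree θ := by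
    intro χ θ hres
    rw [← hres]
    rfl
  -- the degree of a character over a non-invariant one is `r`
  have hnoninv : ∀ (χ : Cfsg.IrrCharacter G) (θ : M → ℂ), Cfsg.IsIrrCharacter M θ →
      Cfsg.classInner (fun n : M => (χ : G → ℂ) n) θ ≠ 0 →
      (¬ ∀ (g : G) (n : M), θ ⟨g * n * g⁻¹, hM.conj_mem (n : G) n.2 g⟩ = θ n) →
      Cfsg.charDegree (χ : G → ℂ) = r ∧ Cfsg.charDegree θ = 1 := by
    intro χ θ hθ hne hinv
    obtain ⟨e, he⟩ := degree_of_not_invariant M hr hidx χ.2 hθ hne hinv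
    have h1 : Cfsg.charDegree (χ : G → ℂ) ≠ 1 := by
      intro h1
      rw [h1] at he
      have h2 : r ∣ 1 := ⟨e * Cfsg.charDegree θ, by rw [he]; ring⟩
      exact hr.one_lt.ne' (Nat.dvd_one.mp h2)
    have hp := h χ h1
    have h2 : r ∣ Cfsg.charDegree (χ : G → ℂ) := ⟨e * Cfsg.charDegree θ, by rw [he]; ring⟩
    have h3 : r = Cfsg.charDegree (χ : G → ℂ) := (Nat.prime_dvd_prime_iff_eq hr hp).mp h2
    refine ⟨h3.symm, ?_⟩
    rw [← h3] at he
    have h4 : r * 1 = r * (e * Cfsg.charDegree θ) := by linarith [he]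
    have h5 := Nat.eq_of_mul_eq_mul_left hr.pos h4
    exact Nat.eq_one_of_mul_eq_one_left h5.symm
  by_cases hall : ∀ (θ : Cfsg.IrrCharacter M) (g : G) (n : M),
      (θ : M → ℂ) ⟨g * n * g⁻¹, hM.conj_mem (n : G) n.2 g⟩ = (θ : M → ℂ) n
  · refine ⟨t₁, t₂, fun χ => ?_⟩
    obtain ⟨θ, hθ, hne⟩ := Cfsg.Agent.Lib.Helper80.exists_constituent_restrict M χ.2
    have hres := restrict_eq_of_invariant M hcyc χ.2 hθ hne (hall ⟨θ, hθ⟩)
    rw [hdegres _ _ hres]
    exact hcdM ⟨θ, hθ⟩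
  · push Not at hall
    obtain ⟨θ₀, g₀, n₀, hθ₀⟩ := hall
    have hprimeM := prime_deg_normal h M
    -- non-invariant characters of M are linear
    have key1 : ∀ θ : Cfsg.IrrCharacter M,
        (¬ ∀ (g : G) (n : M), (θ : M → ℂ) ⟨g * n * g⁻¹, hM.conj_mem (n : G) n.2 g⟩ =
          (θ : M → ℂ) n) → Cfsg.charDegree (θ : M → ℂ) = 1 := by
      intro θ hinv
      obtain ⟨χ, hχ, hne⟩ := Cfsg.Agent.Lib.Helper80.exists_irr_over M θ.2
      exact (hnoninv ⟨χ, hχ⟩ θ θ.2 hne hinv).2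
    have hlam1 : Cfsg.charDegree (θ₀ : M → ℂ) = 1 :=
      key1 θ₀ (fun hcon => hθ₀ (hcon g₀ n₀))
    have hlamc : Cfsg.IsCharacter M (θ₀ : M → ℂ) :=
      Cfsg.Agent.Lib.Helper3.isCharacter_of_irr θ₀.2
    have hlam1' : (θ₀ : M → ℂ) 1 = 1 := by
      rw [(Cfsg.Agent.Lib.Helper79.irr_charDegree θ₀.2).1, hlam1]; simp
    -- the subgroup on which the linear character and its conjugate agree
    set lc : M →* ℂˣ := Cfsg.Agent.Lib.Helper15.linCharHom hlamc hlam1' with hlc
    set μ : M →* ℂˣ := (lc.comp (MulAut.conjNormal g₀ : M ≃* M).toMonoidHom) * lc⁻¹ with hμ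
    set L : Subgroup M := μ.ker with hLdef
    have hmemL : ∀ m : M, m ∈ L ↔
        (θ₀ : M → ℂ) ⟨g₀ * m * g₀⁻¹, hM.conj_mem (m : G) m.2 g₀⟩ = (θ₀ : M → ℂ) m := by
      intro m
      rw [hLdef, MonoidHom.mem_ker, hμ]
      simp only [MonoidHom.mul_apply, MonoidHom.inv_apply, MonoidHom.coe_comp,
        Function.comp_apply, MulEquiv.coe_toMonoidHom]
      rw [mul_inv_eq_one]
      have e1 : ((MulAut.conjNormal g₀ : M ≃* M) m) =
          ⟨g₀ * m * g₀⁻¹, hM.conj_mem (m : G) m.2 g₀⟩ := by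
        apply Subtype.ext
        simp
      rw [e1]
      constructor
      · intro h1
        have := congrArg (fun u : ℂˣ => (u : ℂ)) h1
        simpa [hlc] using this
      · intro h1
        apply Units.ext
        simpa [hlc] using h1
    have hLtop : L.index ≠ 1 := by
      intro h1
      have h2 : n₀ ∈ L := by
        rw [Subgroup.index_eq_one.mp h1]; exact Subgroup.mem_top _
      exact hθ₀ ((hmemL n₀).mp h2)
    -- nonlinear characters of M vanish off L
    have key2 : ∀ θ : Cfsg.IrrCharacter M, Cfsg.charDegree (θ : M → ℂ) ≠ 1 →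
        ∀ m : M, m ∉ L → (θ : M → ℂ) m = 0 := by
      intro θ hθ1 m hm
      have hinvθ : ∀ (g : G) (n : M), (θ : M → ℂ) ⟨g * n * g⁻¹, hM.conj_mem (n : G) n.2 g⟩ =
          (θ : M → ℂ) n := by
        by_contra hcon
        exact hθ1 (key1 θ hcon)
      have htw : Cfsg.IsIrrCharacter M ((θ₀ : M → ℂ) * (θ : M → ℂ)) :=
        Cfsg.Agent.Lib.Helper81.twist_irr hlamc hlam1' θ.2
      have htw1 : Cfsg.charDegree ((θ₀ : M → ℂ) * (θ : M → ℂ)) ≠ 1 := by
        have : Cfsg.charDegree ((θ₀ : M → ℂ) * (θ : M → ℂ)) = Cfsg.charDegree (θ : M → ℂ) := by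
          unfold Cfsg.charDegree
          rw [Pi.mul_apply, hlam1', one_mul]
        rw [this]; exact hθ1
      have hinvtw : ∀ (g : G) (n : M), ((θ₀ : M → ℂ) * (θ : M → ℂ))
          ⟨g * n * g⁻¹, hM.conj_mem (n : G) n.2 g⟩ = ((θ₀ : M → ℂ) * (θ : M → ℂ)) n := by
        by_contra hcon
        exact htw1 (key1 ⟨_, htw⟩ hcon)
      have h1 := hinvtw g₀ m
      simp only [Pi.mul_apply] at h1
      rw [hinvθ g₀ m] at h1
      have h2 : ((θ₀ : M → ℂ) ⟨g₀ * m * g₀⁻¹, hM.conj_mem (m : G) m.2 g₀⟩ - (θ₀ : M → ℂ) m) *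
          (θ : M → ℂ) m = 0 := by
        rw [sub_mul, h1, sub_self]
      rcases mul_eq_zero.mp h2 with h3 | h3
      · exact absurd ((hmemL m).mpr (sub_eq_zero.mp h3)) hm
      · exact h3
    -- all nonlinear characters of M have the same degree
    have key3 : ∀ θ θ' : Cfsg.IrrCharacter M, Cfsg.charDegree (θ : M → ℂ) ≠ 1 →
        Cfsg.charDegree (θ' : M → ℂ) ≠ 1 →
        Cfsg.charDegree (θ : M → ℂ) = Cfsg.charDegree (θ' : M → ℂ) := by
      have aux : ∀ θ θ' : Cfsg.IrrCharacter M, Cfsg.charDegree (θ : M → ℂ) ≠ 1 →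
          Cfsg.charDegree (θ' : M → ℂ) ≠ 1 →
          Cfsg.charDegree (θ : M → ℂ) ≤ Cfsg.charDegree (θ' : M → ℂ) →
          Cfsg.charDegree (θ : M → ℂ) = Cfsg.charDegree (θ' : M → ℂ) := by
        intro θ θ' hθ1 hθ'1 hle
        have hs := hprimeM θ hθ1
        have hs' := hprimeM θ' hθ'1
        obtain ⟨hd, hb⟩ := vanish_off_dvd L θ.2 (key2 θ hθ1) hs hLtop
        obtain ⟨hd', -⟩ := vanish_off_dvd L θ'.2 (key2 θ' hθ'1) hs' hLtop
        by_contra hne
        have hcop : Nat.Coprime (Cfsg.charDegree (θ : M → ℂ)) (Cfsg.charDegree (θ' : M → ℂ)) :=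
          (Nat.coprime_primes hs hs').mpr hne
        have hmul := hcop.mul_dvd_of_dvd_of_dvd hd hd'
        have hkpos : 0 < L.index := Nat.pos_of_ne_zero Subgroup.index_ne_zero_of_finite
        have h1 := Nat.le_of_dvd hkpos hmul
        have h2 : Cfsg.charDegree (θ : M → ℂ) * Cfsg.charDegree (θ' : M → ℂ) ≤
            Cfsg.charDegree (θ : M → ℂ) * Cfsg.charDegree (θ : M → ℂ) := by
          rw [← sq]; exact le_trans h1 hb
        have h3 := Nat.le_of_mul_le_mul_left h2 hs.pos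
        exact hne (le_antisymm hle h3)
      intro θ θ' hθ1 hθ'1
      rcases le_total (Cfsg.charDegree (θ : M → ℂ)) (Cfsg.charDegree (θ' : M → ℂ)) with hle | hle
      · exact aux θ θ' hθ1 hθ'1 hle
      · exact (aux θ' θ hθ'1 hθ1 hle).symm
    obtain ⟨s₀, hs₀⟩ : ∃ s₀ : ℕ, ∀ θ : Cfsg.IrrCharacter M,
        Cfsg.charDegree (θ : M → ℂ) = 1 ∨ Cfsg.charDegree (θ : M → ℂ) = s₀ := by
      by_cases hex : ∃ θ₁ : Cfsg.IrrCharacter M, Cfsg.charDegree (θ₁ : M → ℂ) ≠ 1
      · obtain ⟨θ₁, hθ₁⟩ := hex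
        refine ⟨Cfsg.charDegree (θ₁ : M → ℂ), fun θ => ?_⟩
        by_cases h1 : Cfsg.charDegree (θ : M → ℂ) = 1
        · exact Or.inl h1
        · exact Or.inr (key3 θ θ₁ h1 hθ₁)
      · push Not at hex
        exact ⟨r, fun θ => Or.inl (hex θ)⟩
    refine ⟨s₀, r, fun χ => ?_⟩
    obtain ⟨θ, hθ, hne⟩ := Cfsg.Agent.Lib.Helper80.exists_constituent_restrict M χ.2
    by_cases hinv : ∀ (g : G) (n : M), θ ⟨g * n * g⁻¹, hM.conj_mem (n : G) n.2 g⟩ = θ n
    · have hres := restrict_eq_of_invariant M hcyc χ.2 hθ hne hinv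
      rw [hdegres _ _ hres]
      rcases hs₀ ⟨θ, hθ⟩ with h1 | h1
      · exact Or.inl h1
      · exact Or.inr (Or.inl h1)
    · exact Or.inr (Or.inr (hnoninv χ θ hθ hne hinv).1)

end Step

/-- A finite group all of whose nonlinear irreducible characters have prime degree has at most
three character degrees. -/
theorem three_degrees : ∀ (n : ℕ) (G : Type u) [Group G] [Finite G], Nat.card G = n →
    (∀ χ : Cfsg.IrrCharacter G, Cfsg.charDegree (χ : G → ℂ) ≠ 1 →
      (Cfsg.charDegree (χ : G → ℂ)).Prime) →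
    ∃ s₁ s₂ : ℕ, ∀ χ : Cfsg.IrrCharacter G, Cfsg.charDegree (χ : G → ℂ) = 1 ∨
      Cfsg.charDegree (χ : G → ℂ) = s₁ ∨ Cfsg.charDegree (χ : G → ℂ) = s₂ := by
  intro n
  induction n using Nat.strong_induction_on with
  | _ n ih =>
  intro G _ _ hn h
  by_cases hc : ∀ a b : G, a * b = b * a
  · refine ⟨1, 1, fun χ => Or.inl ?_⟩
    have h1 := (Cfsg.Agent.S0187.result.mp hc) χ
    rw [(Cfsg.Agent.Lib.Helper79.irr_charDegree χ.2).1] at h1
    exact_mod_cast h1
  have hsolv : Group.IsSolvable G := main (Nat.card G) G rfl h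
  have hnt : Nontrivial G := by
    by_contra hcon
    rw [not_nontrivial_iff_subsingleton] at hcon
    exact hc (fun a b => Subsingleton.elim _ _)
  obtain ⟨M, hMn, hMp⟩ := Cfsg.Agent.Lib.Helper81.exists_normal_prime_index hsolv
  have := hMn
  have hlt : Nat.card M < n := by
    rw [← hn]
    refine lt_of_le_of_ne (Subgroup.card_le_card_group _) (fun hcard => ?_)
    have htop := (Subgroup.card_eq_iff_eq_top _).mp hcard
    rw [htop, Subgroup.index_top] at hMp
    exact Nat.not_prime_one hMp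
  obtain ⟨t₁, t₂, ht⟩ := ih (Nat.card M) hlt M rfl (prime_deg_normal h M)
  exact cd_step M hMp rfl h t₁ t₂ ht

end Cfsg.Agent.Lib.Helper39.PrimeDeg
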