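import Mathlib
import Cfsg.Prelude.Def_Characters
import Cfsg.Prelude.Def_ParabolicCharacters
import Cfsg.Prelude.Def_Blocks
import Cfsg.Prelude.Def_DegreeGraph
import Cfsg.Agent.Lib.Helper39.SL2Deg

set_option autoImplicit false

namespace Cfsg.Agent.Lib.Helper39

open Matrix Representation
open scoped ComplexConjugate

universe u v

section GenCD

theorem charDegrees_mulEquiv {S : Type u} {G : Type v} [Group S] [Group G] (e : S ≃* G) :
    Cfsg.charDegrees S = Cfsg.charDegrees G := by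
  ext d
  constructor
  · rintro ⟨χ, hd⟩
    refine ⟨⟨fun g => χ.1 (e.symm g),
      Cfsg.Agent.Lib.Helper80.isIrrCharacter_comp_mulEquiv e.symm χ.2⟩, ?_⟩
    rw [← hd]
    unfold Cfsg.charDegree
    simp only [map_one]
  · rintro ⟨χ, hd⟩
    refine ⟨⟨fun g => χ.1 (e g),
      Cfsg.Agent.Lib.Helper80.isIrrCharacter_comp_mulEquiv e χ.2⟩, ?_⟩
    rw [← hd]
    unfold Cfsg.charDegree
    simp only [map_one]

theorem mem_charDegrees_iff {G : Type u} [Group G] (d : ℕ) :
    d ∈ Cfsg.charDegrees G ↔ ∃ χ : G → ℂ, Cfsg.IsIrrCharacter G χ ∧ Cfsg.charDegree χ = d := by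
  constructor
  · rintro ⟨χ, hd⟩
    exact ⟨χ.1, χ.2, hd⟩
  · rintro ⟨χ, hχ, hd⟩
    exact ⟨⟨χ, hχ⟩, hd⟩

theorem mem_charDegrees_quotient {G : Type u} [Group G] [Finite G] (N : Subgroup G) [N.Normal]
    (d : ℕ) :
    d ∈ Cfsg.charDegrees (G ⧸ N) ↔ ∃ χ : G → ℂ, Cfsg.IsIrrCharacter G χ ∧
      (∀ x ∈ N, χ x = χ 1) ∧ Cfsg.charDegree χ = d := by
  constructor
  · rintro ⟨ψ, hd⟩
    refine ⟨((Cfsg.Agent.Lib.Helper80.irrQuotientEquiv N ψ : Cfsg.IrrCharacter G) : G → ℂ),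
      (Cfsg.Agent.Lib.Helper80.irrQuotientEquiv N ψ).1.2,
      (Cfsg.Agent.Lib.Helper80.irrQuotientEquiv N ψ).2, ?_⟩
    rw [← hd]
    rfl
  · rintro ⟨χ, hχ, hN, hd⟩
    refine ⟨(Cfsg.Agent.Lib.Helper80.irrQuotientEquiv N).symm ⟨⟨χ, hχ⟩, hN⟩, ?_⟩
    rw [← hd]
    have h := Cfsg.Agent.Lib.Helper80.irrQuotientEquiv_symm_apply N ⟨⟨χ, hχ⟩, hN⟩ 1
    unfold Cfsg.charDegree
    have e : ((1 : G) : G ⧸ N) = 1 := rfl
    rw [e] at h
    rw [h]

end GenCD

section Arith

/-- the character degree graph of a group whose degrees are those of `PSL₂(q)` or `SL₂(q)`. -/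
theorem degreeGraph_of_degrees {S : Type u} [Group S] (q t k : ℕ) (ht : t.Prime)
    (hqt : q = t ^ k)
    (h1 : q ∈ Cfsg.charDegrees S) (h2 : q + 1 ∈ Cfsg.charDegrees S)
    (h3 : q - 1 ∈ Cfsg.charDegrees S)
    (hsub : ∀ d ∈ Cfsg.charDegrees S, d = 1 ∨ d = q ∨ d = q + 1 ∨ d + 1 = q ∨
      2 * d = q + 1 ∨ 2 * d + 1 = q) :
    Cfsg.degreePrimes S = {r : ℕ | r.Prime ∧ r ∣ q * (q ^ 2 - 1)} ∧
    ∀ r s : ℕ, (Cfsg.degreeGraph S).Adj r s ↔
      (r ≠ s ∧ r.Prime ∧ s.Prime ∧ ((r ∣ q + 1 ∧ s ∣ q + 1) ∨ (r ∣ q - 1 ∧ s ∣ q - 1))) := by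
  have hsq : q ^ 2 - 1 = (q + 1) * (q - 1) := by
    have h := Nat.sq_sub_sq q 1
    rwa [one_pow] at h
  constructor
  · ext r
    simp only [Cfsg.degreePrimes, Set.mem_setOf_eq]
    constructor
    · rintro ⟨hr, d, hd, hrd⟩
      refine ⟨hr, ?_⟩
      rw [hsq]
      rcases hsub d hd with h | h | h | h | h | h
      · exfalso
        rw [h] at hrd
        exact hr.one_lt.ne' (Nat.dvd_one.mp hrd)
      · rw [h] at hrd
        exact Dvd.dvd.mul_right hrd _
      · rw [h] at hrd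
        exact Dvd.dvd.mul_left (Dvd.dvd.mul_right hrd _) _
      · have e : q - 1 = d := by omega
        rw [e]
        exact Dvd.dvd.mul_left (Dvd.dvd.mul_left hrd _) _
      · rw [← h]
        exact Dvd.dvd.mul_left (Dvd.dvd.mul_right (Dvd.dvd.mul_left hrd 2) _) _
      · have e : q - 1 = 2 * d := by omega
        rw [e]
        exact Dvd.dvd.mul_left (Dvd.dvd.mul_left (Dvd.dvd.mul_left hrd 2) _) _
    · rintro ⟨hr, hrd⟩
      refine ⟨hr, ?_⟩
      rw [hsq] at hrd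
      rcases (Nat.Prime.dvd_mul hr).mp hrd with h | h
      · exact ⟨q, h1, h⟩
      · rcases (Nat.Prime.dvd_mul hr).mp h with h' | h'
        · exact ⟨q + 1, h2, h'⟩
        · exact ⟨q - 1, h3, h'⟩
  · intro r s
    show (r ≠ s ∧ r.Prime ∧ s.Prime ∧ ∃ d ∈ Cfsg.charDegrees S, r * s ∣ d) ↔ _
    constructor
    · rintro ⟨hne, hr, hs, d, hd, hrs⟩
      refine ⟨hne, hr, hs, ?_⟩
      have hrd : r ∣ d := dvd_trans (dvd_mul_right r s) hrs
      have hsd : s ∣ d := dvd_trans (dvd_mul_left s r) hrs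
      rcases hsub d hd with h | h | h | h | h | h
      · exfalso
        rw [h] at hrd
        exact hr.one_lt.ne' (Nat.dvd_one.mp hrd)
      · exfalso
        rw [h, hqt] at hrd hsd
        have e1 := (Nat.prime_dvd_prime_iff_eq hr ht).mp (hr.dvd_of_dvd_pow hrd)
        have e2 := (Nat.prime_dvd_prime_iff_eq hs ht).mp (hs.dvd_of_dvd_pow hsd)
        exact hne (e1.trans e2.symm)
      · left
        rw [← h]
        exact ⟨hrd, hsd⟩
      · right
        have e : q - 1 = d := by omega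
        rw [e]
        exact ⟨hrd, hsd⟩
      · left
        rw [← h]
        exact ⟨Dvd.dvd.mul_left hrd 2, Dvd.dvd.mul_left hsd 2⟩
      · right
        have e : q - 1 = 2 * d := by omega
        rw [e]
        exact ⟨Dvd.dvd.mul_left hrd 2, Dvd.dvd.mul_left hsd 2⟩
    · rintro ⟨hne, hr, hs, h | h⟩
      · exact ⟨hne, hr, hs, q + 1, h2, Nat.Coprime.mul_dvd_of_dvd_of_dvd
          ((Nat.coprime_primes hr hs).mpr hne) h.1 h.2⟩
      · exact ⟨hne, hr, hs, q - 1, h3, Nat.Coprime.mul_dvd_of_dvd_of_dvd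
          ((Nat.coprime_primes hr hs).mpr hne) h.1 h.2⟩

end Arith

section Exist

variable {F : Type u} [Field F] [Fintype F] [DecidableEq F]

/-- an irreducible principal series character of `SL₂(q)` trivial on the centre. -/
theorem exists_ps_trivial_center (hq4 : 4 ≤ Fintype.card F) (hq5 : Fintype.card F ≠ 5) :
    ∃ χ : Matrix.SpecialLinearGroup (Fin 2) F → ℂ,
      Cfsg.IsIrrCharacter (Matrix.SpecialLinearGroup (Fin 2) F) χ ∧
      Cfsg.charDegree χ = Fintype.card F + 1 ∧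
      ∀ z ∈ Subgroup.center (Matrix.SpecialLinearGroup (Fin 2) F), χ z = χ 1 := by
  obtain ⟨ω, hω⟩ := exists_mulChar_orderOf (F := F)
  have hα2 : (ω ^ 2) ^ 2 ≠ 1 := by
    intro h
    rw [← pow_mul] at h
    have hd := orderOf_dvd_of_pow_eq_one h
    rw [hω] at hd
    have hle := Nat.le_of_dvd (by norm_num) hd
    have h34 : Fintype.card F - 1 = 3 ∨ Fintype.card F - 1 = 4 := by omega
    rcases h34 with h3 | h3
    · rw [h3] at hd
      omega
    · omega
  refine ⟨Cfsg.indFun (borelS F) (lamS (ω ^ 2)), isIrrCharacter_indFun_lamS _ hα2, ?_, ?_⟩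
  · apply charDegree_of_one
    rw [indFun_lamS_one]
    push_cast
    ring
  · intro z hz
    rcases (mem_center_iff_one_or_zSL z).mp hz with h | h
    · rw [h]
    · rw [h]
      have h3 := indFun_lamS_zSL_mul (ω ^ 2) 1
      rw [mul_one] at h3
      rw [h3]
      have h4 : (ω ^ 2) (-1 : F) = 1 := by
        rw [MulChar.pow_apply' _ two_ne_zero, ← map_pow]
        simp
      rw [h4, one_mul]

open Classical in
/-- a cuspidal character of degree `q - 1` of `SL₂(q)`, `q ≥ 7` odd, trivial on the centre. -/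
theorem exists_cusp_trivial_center (hodd : Odd (Fintype.card F)) (hq7 : 7 ≤ Fintype.card F) :
    ∃ χ : Matrix.SpecialLinearGroup (Fin 2) F → ℂ,
      Cfsg.IsIrrCharacter (Matrix.SpecialLinearGroup (Fin 2) F) χ ∧
      Cfsg.charDegree χ + 1 = Fintype.card F ∧
      ∀ z ∈ Subgroup.center (Matrix.SpecialLinearGroup (Fin 2) F), χ z = χ 1 := by
  have h2 : ringChar F ≠ 2 := by
    intro hc
    have := FiniteField.even_card_of_char_two hc
    have := Nat.odd_iff.mp hodd
    omega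
  have h2' : (2 : F) ≠ 0 := Ring.two_ne_zero h2
  obtain ⟨W, -, hWns, hWcard, hWz⟩ := Cfsg.Agent.Lib.Helper41.exists_nonsplit_torus h2'
  have hWmem : W ∈ Subgroup.centralizer ({W} : Set (Matrix.SpecialLinearGroup (Fin 2) F)) := by
    rw [Subgroup.mem_centralizer_singleton_iff]
  have hk₀ : ∀ c : Subgroup.centralizer ({W} : Set (Matrix.SpecialLinearGroup (Fin 2) F)),
      c ∈ Subgroup.zpowers (⟨W, hWmem⟩ :
        Subgroup.centralizer ({W} : Set (Matrix.SpecialLinearGroup (Fin 2) F))) := by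
    intro c
    have hc : (c : Matrix.SpecialLinearGroup (Fin 2) F) ∈ Subgroup.zpowers W := by
      rw [← hWz]
      exact c.2
    obtain ⟨n, hn⟩ := Subgroup.mem_zpowers_iff.mp hc
    exact Subgroup.mem_zpowers_iff.mpr ⟨n, Subtype.ext (by rw [Subgroup.coe_zpow]; exact hn)⟩
  have hord : orderOf (⟨W, hWmem⟩ :
      Subgroup.centralizer ({W} : Set (Matrix.SpecialLinearGroup (Fin 2) F))) =
      Fintype.card F + 1 := by
    rw [orderOf_eq_card_of_forall_mem_zpowers hk₀, hWcard]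
  have hN : Fintype.card F + 1 ≠ 0 := by omega
  have hζ := Complex.isPrimitiveRoot_exp (Fintype.card F + 1) hN
  obtain ⟨u, hup⟩ : ∃ u : ℂˣ, IsPrimitiveRoot u (Fintype.card F + 1) :=
    ⟨(hζ.isUnit hN).unit, IsPrimitiveRoot.isUnit_unit hN hζ⟩
  have huo : orderOf u = Fintype.card F + 1 := hup.eq_orderOf.symm
  have hdv : orderOf u ∣ orderOf (⟨W, hWmem⟩ :
      Subgroup.centralizer ({W} : Set (Matrix.SpecialLinearGroup (Fin 2) F))) := by
    rw [hord, huo]
  have hθ₁ : monoidHomOfForallMemZpowers hk₀ hdv ⟨W, hWmem⟩ = u :=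
    monoidHomOfForallMemZpowers_apply_gen hk₀ hdv
  have hzC : zSL ∈ Subgroup.centralizer ({W} : Set (Matrix.SpecialLinearGroup (Fin 2) F)) :=
    zSL_mem_centralizer W
  have hθ : ∀ c : Subgroup.centralizer ({W} : Set (Matrix.SpecialLinearGroup (Fin 2) F)),
      ((powMonoidHom 2 : ℂˣ →* ℂˣ).comp (monoidHomOfForallMemZpowers hk₀ hdv)) c =
        (monoidHomOfForallMemZpowers hk₀ hdv c) ^ 2 := fun c => rfl
  have hθz : ((powMonoidHom 2 : ℂˣ →* ℂˣ).comp (monoidHomOfForallMemZpowers hk₀ hdv))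
      ⟨zSL, hzC⟩ = 1 := by
    rw [hθ, ← map_pow]
    have h3 : (⟨zSL, hzC⟩ :
        Subgroup.centralizer ({W} : Set (Matrix.SpecialLinearGroup (Fin 2) F))) ^ 2 = 1 := by
      apply Subtype.ext
      rw [sq]
      exact zSL_mul_self
    rw [h3, map_one]
  have hθsq : ∃ c : Subgroup.centralizer ({W} : Set (Matrix.SpecialLinearGroup (Fin 2) F)),
      ((powMonoidHom 2 : ℂˣ →* ℂˣ).comp (monoidHomOfForallMemZpowers hk₀ hdv)) c ^ 2 ≠ 1 := by
    refine ⟨⟨W, hWmem⟩, ?_⟩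
    rw [hθ, hθ₁, ← pow_mul]
    intro h
    have hd := (hup.pow_eq_one_iff_dvd _).mp h
    have := Nat.le_of_dvd (by norm_num) hd
    omega
  have hα : (1 : MulChar F ℂ) (-1) =
      ((((powMonoidHom 2 : ℂˣ →* ℂˣ).comp (monoidHomOfForallMemZpowers hk₀ hdv))
        ⟨zSL, hzC⟩ : ℂˣ) : ℂ) := by
    rw [hθz, one_mulChar_neg_one, Units.val_one]
  refine ⟨cuspFun _ ((powMonoidHom 2 : ℂˣ →* ℂˣ).comp (monoidHomOfForallMemZpowers hk₀ hdv)) 1,
    isIrrCharacter_cuspFun h2' W hWns _ rfl _ hθsq 1 hzC hα, ?_, ?_⟩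
  · have h1 := cuspFun_one h2' W hWns _ rfl
      ((powMonoidHom 2 : ℂˣ →* ℂˣ).comp (monoidHomOfForallMemZpowers hk₀ hdv))
      (1 : MulChar F ℂ)
    have h3 : Cfsg.charDegree (cuspFun _
        ((powMonoidHom 2 : ℂˣ →* ℂˣ).comp (monoidHomOfForallMemZpowers hk₀ hdv)) 1) =
        Fintype.card F - 1 :=
      charDegree_of_one (by rw [h1, Nat.cast_sub (by omega)]; simp)
    omega
  · intro z hz
    rcases (mem_center_iff_one_or_zSL z).mp hz with h | h
    · rw [h]
    · rw [h]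
      have h3 := cuspFun_zSL_mul _
        ((powMonoidHom 2 : ℂˣ →* ℂˣ).comp (monoidHomOfForallMemZpowers hk₀ hdv)) 1 hzC hα 1
      rw [mul_one] at h3
      rw [h3, hθz, Units.val_one, one_mul]

/-- the character degrees of `PSL₂(q)` and `SL₂(q)`, `q ≥ 4`, `q ≠ 5`. -/
theorem sl2_psl2_charDegrees (hq4 : 4 ≤ Fintype.card F) (hq5 : Fintype.card F ≠ 5)
    (hcls : ringChar F = 2 →
      Nat.card (ConjClasses (Matrix.SpecialLinearGroup (Fin 2) F)) = Fintype.card F + 1)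
    {S : Type v} [Group S]
    (hS : Nonempty (S ≃* Matrix.ProjectiveSpecialLinearGroup (Fin 2) F) ∨
      Nonempty (S ≃* Matrix.SpecialLinearGroup (Fin 2) F)) :
    Fintype.card F ∈ Cfsg.charDegrees S ∧ Fintype.card F + 1 ∈ Cfsg.charDegrees S ∧
    Fintype.card F - 1 ∈ Cfsg.charDegrees S ∧
    ∀ d ∈ Cfsg.charDegrees S, d = 1 ∨ d = Fintype.card F ∨ d = Fintype.card F + 1 ∨
      d + 1 = Fintype.card F ∨ 2 * d = Fintype.card F + 1 ∨ 2 * d + 1 = Fintype.card F := by
  classical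
  obtain ⟨St, hSt, dSt, hStz, hall⟩ := sl2_degree_q_unique hq4 hcls
  obtain ⟨χp, hχp, dχp, hχpz⟩ := exists_ps_trivial_center hq4 hq5
  have hcusp : ∃ χ : Matrix.SpecialLinearGroup (Fin 2) F → ℂ,
      Cfsg.IsIrrCharacter (Matrix.SpecialLinearGroup (Fin 2) F) χ ∧
      Cfsg.charDegree χ + 1 = Fintype.card F ∧
      ∀ z ∈ Subgroup.center (Matrix.SpecialLinearGroup (Fin 2) F), χ z = χ 1 := by
    by_cases h2 : ringChar F = 2
    · have heven := FiniteField.even_card_of_char_two h2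
      obtain ⟨t, ht⟩ : ∃ t, Fintype.card F = 2 * t := ⟨Fintype.card F / 2, by omega⟩
      have ht2 : 2 ≤ t := by omega
      obtain ⟨-, -, -, -, c4⟩ := sl2_even_class h2 t ht ht2 (hcls h2)
      have hne : Nonempty {χ : Cfsg.IrrCharacter (Matrix.SpecialLinearGroup (Fin 2) F) //
          Cfsg.charDegree χ.1 = 2 * t - 1} := by
        by_contra hempty
        rw [not_nonempty_iff] at hempty
        rw [Nat.card_of_isEmpty] at c4
        omega
      obtain ⟨⟨χ, hd⟩⟩ := hne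
      refine ⟨χ.1, χ.2, by omega, ?_⟩
      intro z hz
      haveI : CharP F 2 := by
        rw [← h2]
        exact ringChar.charP F
      rcases (mem_center_iff_one_or_zSL z).mp hz with h | h
      · rw [h]
      · rw [h]
        have hz1 : (zSL : Matrix.SpecialLinearGroup (Fin 2) F) = 1 := by
          apply Subtype.ext
          rw [zSL_coe, Matrix.SpecialLinearGroup.coe_one]
          ext i j
          fin_cases i <;> fin_cases j <;> simp [CharTwo.neg_eq]
        rw [hz1]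
    · have hodd' := FiniteField.odd_card_of_char_ne_two h2
      exact exists_cusp_trivial_center (Nat.odd_iff.mpr hodd') (by omega)
  obtain ⟨χc, hχc, dχc, hχcz⟩ := hcusp
  have hSLsub : ∀ d ∈ Cfsg.charDegrees (Matrix.SpecialLinearGroup (Fin 2) F),
      d = 1 ∨ d = Fintype.card F ∨ d = Fintype.card F + 1 ∨
      d + 1 = Fintype.card F ∨ 2 * d = Fintype.card F + 1 ∨ 2 * d + 1 = Fintype.card F := by
    intro d hd
    obtain ⟨χ, hχ, rfl⟩ := (mem_charDegrees_iff d).mp hd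
    rcases hall χ hχ with h | h | h | h | h | h
    · right; left
      rw [h]
      exact dSt
    · left
      exact h
    · right; right; left
      exact h
    · right; right; right; left
      exact h
    · right; right; right; right; left
      exact h
    · right; right; right; right; right
      exact h
  rcases hS with ⟨⟨e⟩⟩ | ⟨⟨e⟩⟩
  · rw [charDegrees_mulEquiv e]
    refine ⟨(mem_charDegrees_quotient _ _).mpr ⟨St, hSt, hStz, dSt⟩,
      (mem_charDegrees_quotient _ _).mpr ⟨χp, hχp, hχpz, dχp⟩,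
      (mem_charDegrees_quotient _ _).mpr ⟨χc, hχc, hχcz, by omega⟩, ?_⟩
    intro d hd
    obtain ⟨χ, hχ, -, hdχ⟩ := (mem_charDegrees_quotient _ d).mp hd
    exact hSLsub d ((mem_charDegrees_iff d).mpr ⟨χ, hχ, hdχ⟩)
  · rw [charDegrees_mulEquiv e]
    exact ⟨(mem_charDegrees_iff _).mpr ⟨St, hSt, dSt⟩,
      (mem_charDegrees_iff _).mpr ⟨χp, hχp, dχp⟩,
      (mem_charDegrees_iff _).mpr ⟨χc, hχc, by omega⟩, hSLsub⟩

end Exist

end Cfsg.Agent.Lib.Helper39
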