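import Mathlib

set_option autoImplicit false

namespace Cfsg.Agent.Lib.Helper39

open Matrix

section SLnTrans

variable {F : Type*} [Field F] {n : ℕ}

/-- `SL_n(F)` maps the first `k < n` standard basis vectors onto any linearly independent
family of `k` vectors. -/
theorem exists_sl_of_linearIndependent {k : ℕ} (hk : k < n) (s : Fin k → (Fin n → F))
    (hs : LinearIndependent F s) :
    ∃ g : Matrix.SpecialLinearGroup (Fin n) F, ∀ i : Fin k,
      (g : Matrix (Fin n) (Fin n) F).mulVec (Pi.single (Fin.castLE hk.le i) 1) = s i := by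
  classical
  have he : LinearIndependent F
      (fun i : Fin k => (Pi.single (Fin.castLE hk.le i) (1 : F) : Fin n → F)) := by
    have h1 := (Pi.basisFun F (Fin n)).linearIndependent
    have h2 := h1.comp (Fin.castLE hk.le) (Fin.castLE_injective _)
    convert h2 using 1
    funext i
    simp [Pi.basisFun_apply]
  let f := he.linearCombinationEquiv.symm ≪≫ₗ hs.linearCombinationEquiv
  have hfd : FiniteDimensional F (Submodule.span F (Set.range
      (fun i : Fin k => (Pi.single (Fin.castLE hk.le i) (1 : F) : Fin n → F)))) :=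
    FiniteDimensional.span_of_finite F (Set.finite_range _)
  obtain ⟨g, hg⟩ := Submodule.exists_linearEquiv_restrict_eq f
  have hgi : ∀ i : Fin k, g (Pi.single (Fin.castLE hk.le i) (1 : F)) = s i := by
    intro i
    have h1 : he.linearCombinationEquiv (Finsupp.single i 1) =
        (Pi.single (Fin.castLE hk.le i) (1 : F) : Fin n → F) := by simp
    have h2 : hs.linearCombinationEquiv (Finsupp.single i 1) = s i := by simp
    rw [← h1, ← hg, ← h2]
    simp [f]
  -- the matrix of g
  set M : Matrix (Fin n) (Fin n) F := LinearMap.toMatrix' (g : (Fin n → F) →ₗ[F] (Fin n → F))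
    with hM
  have hMv : ∀ v : Fin n → F, M.mulVec v = g v := by
    intro v
    rw [hM, ← Matrix.toLin'_apply, Matrix.toLin'_toMatrix']
    rfl
  have hdet : M.det ≠ 0 := by
    rw [hM, LinearMap.det_toMatrix']
    exact (LinearEquiv.isUnit_det' g).ne_zero
  let j : Fin n := ⟨k, hk⟩
  let D : Matrix (Fin n) (Fin n) F := Matrix.diagonal (Function.update (fun _ => (1 : F)) j M.det⁻¹)
  have hDdet : D.det = M.det⁻¹ := by
    rw [Matrix.det_diagonal, Finset.prod_update_of_mem (Finset.mem_univ j)]
    simp
  refine ⟨⟨M * D, by rw [Matrix.det_mul, hDdet, mul_inv_cancel₀ hdet]⟩, fun i => ?_⟩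
  show (M * D).mulVec _ = _
  rw [← Matrix.mulVec_mulVec, ← hgi i, ← hMv]
  congr 1
  rw [Matrix.mulVec_single_one]
  funext r
  show D r (Fin.castLE hk.le i) = _
  have hne : Fin.castLE hk.le i ≠ j := by
    intro h
    have := congrArg Fin.val h
    simp [j] at this
    omega
  by_cases hr : r = Fin.castLE hk.le i
  · subst hr
    simp [D, Matrix.diagonal_apply_eq, Function.update_of_ne hne]
  · simp [D, Matrix.diagonal_apply_ne _ hr, Pi.single_eq_of_ne hr]

end SLnTrans

end Cfsg.Agent.Lib.Helper39
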