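import Mathlib
import Cfsg.Prelude.Def_Characters
import Cfsg.Agent.Lib.Helper39.SLnTrans
import Cfsg.Agent.Lib.Helper75.CharInd
import Cfsg.Agent.Lib.Helper15.LinChar
import Cfsg.Agent.Lib.Helper80.CharOps

set_option autoImplicit false
set_option linter.unusedSectionVars false
set_option linter.style.haveILetI false

namespace Cfsg.Agent.Lib.Helper39

open Matrix
open scoped ComplexConjugate

section SLnPerm

variable {F : Type*} [Field F] {n : ℕ}

theorem sl_mulVec_ne_zero (g : Matrix.SpecialLinearGroup (Fin n) F) {v : Fin n → F}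
    (hv : v ≠ 0) : (g : Matrix (Fin n) (Fin n) F).mulVec v ≠ 0 := by
  intro h
  apply hv
  have h1 : ((g⁻¹ : Matrix.SpecialLinearGroup (Fin n) F) : Matrix (Fin n) (Fin n) F).mulVec
      ((g : Matrix (Fin n) (Fin n) F).mulVec v) = v := by
    rw [Matrix.mulVec_mulVec, ← Matrix.SpecialLinearGroup.coe_mul, inv_mul_cancel]
    simp
  rw [← h1, h, Matrix.mulVec_zero]

theorem sl_mulVec_injective (g : Matrix.SpecialLinearGroup (Fin n) F) :
    Function.Injective (g : Matrix (Fin n) (Fin n) F).mulVec := by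
  intro v w h
  have h1 : ∀ u : Fin n → F,
      ((g⁻¹ : Matrix.SpecialLinearGroup (Fin n) F) : Matrix (Fin n) (Fin n) F).mulVec
      ((g : Matrix (Fin n) (Fin n) F).mulVec u) = u := by
    intro u
    rw [Matrix.mulVec_mulVec, ← Matrix.SpecialLinearGroup.coe_mul, inv_mul_cancel]
    simp
  rw [← h1 v, h, h1 w]

/-- pairs of non-zero vectors -/
@[ext]
structure NzPair (F : Type*) [Field F] (n : ℕ) where
  fst : Fin n → F
  snd : Fin n → F
  hfst : fst ≠ 0
  hsnd : snd ≠ 0

instance nzPairAction : MulAction (Matrix.SpecialLinearGroup (Fin n) F) (NzPair F n) where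
  smul g p := ⟨(g : Matrix (Fin n) (Fin n) F).mulVec p.fst,
    (g : Matrix (Fin n) (Fin n) F).mulVec p.snd, sl_mulVec_ne_zero g p.hfst,
    sl_mulVec_ne_zero g p.hsnd⟩
  one_smul p := by
    apply NzPair.ext
    · show ((1 : Matrix.SpecialLinearGroup (Fin n) F) : Matrix (Fin n) (Fin n) F).mulVec p.fst = _
      simp
    · show ((1 : Matrix.SpecialLinearGroup (Fin n) F) : Matrix (Fin n) (Fin n) F).mulVec p.snd = _
      simp
  mul_smul g h p := by
    apply NzPair.ext
    · show ((g * h : Matrix.SpecialLinearGroup (Fin n) F) : Matrix (Fin n) (Fin n) F).mulVec p.fst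
        = (g : Matrix (Fin n) (Fin n) F).mulVec ((h : Matrix (Fin n) (Fin n) F).mulVec p.fst)
      rw [Matrix.mulVec_mulVec, Matrix.SpecialLinearGroup.coe_mul]
    · show ((g * h : Matrix.SpecialLinearGroup (Fin n) F) : Matrix (Fin n) (Fin n) F).mulVec p.snd
        = (g : Matrix (Fin n) (Fin n) F).mulVec ((h : Matrix (Fin n) (Fin n) F).mulVec p.snd)
      rw [Matrix.mulVec_mulVec, Matrix.SpecialLinearGroup.coe_mul]

theorem nzPair_smul_fst (g : Matrix.SpecialLinearGroup (Fin n) F) (p : NzPair F n) :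
    (g • p).fst = (g : Matrix (Fin n) (Fin n) F).mulVec p.fst := rfl

theorem nzPair_smul_snd (g : Matrix.SpecialLinearGroup (Fin n) F) (p : NzPair F n) :
    (g • p).snd = (g : Matrix (Fin n) (Fin n) F).mulVec p.snd := rfl

instance nzPair_finite [Finite F] : Finite (NzPair F n) :=
  Finite.of_injective (fun p : NzPair F n => (p.fst, p.snd)) (by
    intro p q h
    simp only [Prod.mk.injEq] at h
    exact NzPair.ext h.1 h.2)

/-- the standard basis vector `e_i`, `i < 2`, of `F^n` with `2 < n` -/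
def stdVec (hn : 2 < n) (i : Fin 2) : Fin n → F := Pi.single (Fin.castLE hn.le i) 1

theorem stdVec_ne_zero (hn : 2 < n) (i : Fin 2) : (stdVec hn i : Fin n → F) ≠ 0 := by
  intro h
  have := congrFun h (Fin.castLE hn.le i)
  simp [stdVec] at this

theorem stdVec_one_zero (hn : 2 < n) : (stdVec hn 0 : Fin n → F) (Fin.castLE hn.le 1) = 0 := by
  unfold stdVec
  rw [Pi.single_apply, if_neg]
  intro h
  have := congrArg Fin.val h
  simp at this

theorem stdVec_zero_zero (hn : 2 < n) : (stdVec hn 0 : Fin n → F) (Fin.castLE hn.le 0) = 1 := by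
  unfold stdVec
  simp

theorem stdVec_one_one (hn : 2 < n) : (stdVec hn 1 : Fin n → F) (Fin.castLE hn.le 1) = 1 := by
  unfold stdVec
  simp

/-- `SL_n` is transitive on non-zero vectors -/
theorem exists_sl_vec (hn : 2 < n) (v : Fin n → F) (hv : v ≠ 0) :
    ∃ g : Matrix.SpecialLinearGroup (Fin n) F,
      (g : Matrix (Fin n) (Fin n) F).mulVec (stdVec hn 0) = v := by
  have h1 : (1 : ℕ) < n := by omega
  have hs : LinearIndependent F (fun _ : Fin 1 => v) := by
    rw [linearIndependent_unique_iff]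
    exact hv
  obtain ⟨g, hg⟩ := exists_sl_of_linearIndependent h1 (fun _ : Fin 1 => v) hs
  refine ⟨g, ?_⟩
  have := hg 0
  exact this

/-- `SL_n`, `n ≥ 3`, is transitive on linearly independent pairs -/
theorem exists_sl_pair (hn : 2 < n) (v w : Fin n → F) (h : LinearIndependent F ![v, w]) :
    ∃ g : Matrix.SpecialLinearGroup (Fin n) F,
      (g : Matrix (Fin n) (Fin n) F).mulVec (stdVec hn 0) = v ∧
      (g : Matrix (Fin n) (Fin n) F).mulVec (stdVec hn 1) = w := by
  obtain ⟨g, hg⟩ := exists_sl_of_linearIndependent hn ![v, w] h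
  exact ⟨g, hg 0, hg 1⟩

/-- orbit representatives on pairs of non-zero vectors -/
def nzRep (hn : 2 < n) : Option Fˣ → NzPair F n
  | none => ⟨stdVec hn 0, stdVec hn 1, stdVec_ne_zero hn 0, stdVec_ne_zero hn 1⟩
  | some c => ⟨stdVec hn 0, (c : F) • stdVec hn 0, stdVec_ne_zero hn 0,
      smul_ne_zero c.ne_zero (stdVec_ne_zero hn 0)⟩

theorem nzRep_surj (hn : 2 < n) (p : NzPair F n) :
    ∃ o : Option Fˣ, ∃ g : Matrix.SpecialLinearGroup (Fin n) F, g • nzRep hn o = p := by
  by_cases h : LinearIndependent F ![p.fst, p.snd]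
  · obtain ⟨g, h0, h1⟩ := exists_sl_pair hn p.fst p.snd h
    refine ⟨none, g, ?_⟩
    apply NzPair.ext
    · exact h0
    · exact h1
  · rw [LinearIndependent.pair_iff] at h
    push Not at h
    obtain ⟨s, t, hst, hne⟩ := h
    -- s • fst + t • snd = 0 with (s,t) ≠ 0
    have ht : t ≠ 0 := by
      intro ht
      rw [ht, zero_smul, add_zero] at hst
      have hs : s = 0 := by
        rcases smul_eq_zero.mp hst with h | h
        · exact h
        · exact absurd h p.hfst
      exact hne hs ht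
    have hs : s ≠ 0 := by
      intro hs
      rw [hs, zero_smul, zero_add] at hst
      rcases smul_eq_zero.mp hst with h | h
      · exact ht h
      · exact p.hsnd h
    have hw : p.snd = (-(t⁻¹ * s)) • p.fst := by
      have h1 : t • p.snd = -(s • p.fst) := by
        rw [eq_neg_iff_add_eq_zero, add_comm]; exact hst
      calc p.snd = t⁻¹ • (t • p.snd) := by rw [smul_smul, inv_mul_cancel₀ ht, one_smul]
        _ = (-(t⁻¹ * s)) • p.fst := by rw [h1, smul_neg, smul_smul, neg_smul]
    have hc : -(t⁻¹ * s) ≠ 0 := neg_ne_zero.mpr (mul_ne_zero (inv_ne_zero ht) hs)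
    obtain ⟨g, hg⟩ := exists_sl_vec hn p.fst p.hfst
    refine ⟨some (Units.mk0 _ hc), g, ?_⟩
    apply NzPair.ext
    · exact hg
    · show (g : Matrix (Fin n) (Fin n) F).mulVec ((-(t⁻¹ * s)) • stdVec hn 0) = p.snd
      rw [Matrix.mulVec_smul, hg, ← hw]

theorem nzRep_inj (hn : 2 < n) (o o' : Option Fˣ) (g : Matrix.SpecialLinearGroup (Fin n) F)
    (h : g • nzRep hn o = (nzRep hn o' : NzPair F n)) : o = o' := by
  have h0 : (g : Matrix (Fin n) (Fin n) F).mulVec (stdVec hn 0) = stdVec hn 0 := by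
    have := congrArg NzPair.fst h
    cases o <;> cases o' <;> exact this
  have h1 := congrArg NzPair.snd h
  rw [nzPair_smul_snd] at h1
  cases o with
  | none =>
    cases o' with
    | none => rfl
    | some c =>
      exfalso
      have h2 : (g : Matrix (Fin n) (Fin n) F).mulVec (stdVec hn 1) = (c : F) • stdVec hn 0 := h1
      have h3 : (g : Matrix (Fin n) (Fin n) F).mulVec (stdVec hn 1) =
          (g : Matrix (Fin n) (Fin n) F).mulVec ((c : F) • stdVec hn 0) := by
        rw [h2, Matrix.mulVec_smul, h0]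
      have h4 := congrFun (sl_mulVec_injective g h3) (Fin.castLE hn.le 1)
      rw [stdVec_one_one, Pi.smul_apply, stdVec_one_zero, smul_zero] at h4
      exact one_ne_zero h4
  | some c =>
    cases o' with
    | none =>
      exfalso
      have h2 : (g : Matrix (Fin n) (Fin n) F).mulVec ((c : F) • stdVec hn 0) = stdVec hn 1 := h1
      rw [Matrix.mulVec_smul, h0] at h2
      have h4 := congrFun h2 (Fin.castLE hn.le 1)
      rw [stdVec_one_one, Pi.smul_apply, stdVec_one_zero, smul_zero] at h4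
      exact one_ne_zero h4.symm
    | some c' =>
      have h2 : (g : Matrix (Fin n) (Fin n) F).mulVec ((c : F) • stdVec hn 0) =
          (c' : F) • stdVec hn 0 := h1
      rw [Matrix.mulVec_smul, h0] at h2
      have h4 := congrFun h2 (Fin.castLE hn.le 0)
      rw [Pi.smul_apply, Pi.smul_apply, stdVec_zero_zero, smul_eq_mul, smul_eq_mul, mul_one,
        mul_one] at h4
      rw [Units.ext h4]

/-- the number of orbits of `SL_n(F)`, `n ≥ 3`, on pairs of non-zero vectors is `q` -/
theorem card_nzPair_orbits [Fintype F] (hn : 2 < n) :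
    Nat.card (Quotient (MulAction.orbitRel (Matrix.SpecialLinearGroup (Fin n) F) (NzPair F n)))
      = Fintype.card F := by
  classical
  have hbij : Function.Bijective (fun o : Option Fˣ =>
      (Quotient.mk (MulAction.orbitRel (Matrix.SpecialLinearGroup (Fin n) F) (NzPair F n))
        (nzRep hn o))) := by
    constructor
    · intro o o' h
      have h1 := Quotient.exact h
      change nzRep hn o ∈ MulAction.orbit _ (nzRep hn o') at h1
      obtain ⟨g, hg⟩ := h1
      exact (nzRep_inj hn o' o g hg).symm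
    · intro x
      induction x using Quotient.inductionOn with
      | _ p =>
        obtain ⟨o, g, hg⟩ := nzRep_surj hn p
        refine ⟨o, ?_⟩
        apply Quotient.sound
        change nzRep hn o ∈ MulAction.orbit _ p
        refine ⟨g⁻¹, ?_⟩
        show g⁻¹ • p = nzRep hn o
        rw [← hg, inv_smul_smul]
  rw [← Nat.card_congr (Equiv.ofBijective _ hbij), Nat.card_eq_fintype_card, Fintype.card_option,
    Fintype.card_units]
  have : 0 < Fintype.card F := Fintype.card_pos
  omega

/-- the permutation character of `SL_n(F)` on the non-zero vectors -/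
noncomputable def slPerm (F : Type*) [Field F] (n : ℕ)
    (g : Matrix.SpecialLinearGroup (Fin n) F) : ℂ :=
  (Nat.card {v : Fin n → F // v ≠ 0 ∧ (g : Matrix (Fin n) (Fin n) F).mulVec v = v} : ℂ)

theorem card_fixedBy_nzPair (g : Matrix.SpecialLinearGroup (Fin n) F) :
    Nat.card (MulAction.fixedBy (NzPair F n) g) =
      Nat.card {v : Fin n → F // v ≠ 0 ∧ (g : Matrix (Fin n) (Fin n) F).mulVec v = v} ^ 2 := by
  rw [sq, ← Nat.card_prod]
  apply Nat.card_congr
  exact
    { toFun := fun x => (⟨x.1.fst, x.1.hfst, congrArg NzPair.fst x.2⟩,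
        ⟨x.1.snd, x.1.hsnd, congrArg NzPair.snd x.2⟩)
      invFun := fun y => ⟨⟨y.1.1, y.2.1, y.1.2.1, y.2.2.1⟩, NzPair.ext y.1.2.2 y.2.2.2⟩
      left_inv := fun x => rfl
      right_inv := fun y => rfl }

theorem sum_slPerm_sq [Fintype F] [DecidableEq F] (hn : 2 < n) :
    ∑ g : Matrix.SpecialLinearGroup (Fin n) F, slPerm F n g ^ 2 =
      (Fintype.card F : ℂ) * (Nat.card (Matrix.SpecialLinearGroup (Fin n) F) : ℂ) := by
  classical
  letI : ∀ g : Matrix.SpecialLinearGroup (Fin n) F, Fintype (MulAction.fixedBy (NzPair F n) g) :=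
    fun g => Fintype.ofFinite _
  letI : Fintype (Quotient (MulAction.orbitRel (Matrix.SpecialLinearGroup (Fin n) F)
    (NzPair F n))) := Fintype.ofFinite _
  have hB := MulAction.sum_card_fixedBy_eq_card_orbits_mul_card_group
    (Matrix.SpecialLinearGroup (Fin n) F) (NzPair F n)
  rw [← Nat.card_eq_fintype_card, ← Nat.card_eq_fintype_card, card_nzPair_orbits hn] at hB
  have hB' := congrArg (Nat.cast : ℕ → ℂ) hB
  push_cast at hB'
  rw [← hB']
  refine Finset.sum_congr rfl (fun g _ => ?_)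
  rw [← Nat.card_eq_fintype_card, card_fixedBy_nzPair]
  unfold slPerm
  push_cast
  rfl

theorem classInner_slPerm_self [Fintype F] [DecidableEq F] (hn : 2 < n) :
    Cfsg.classInner (slPerm F n) (slPerm F n) = (Fintype.card F : ℂ) := by
  unfold Cfsg.classInner
  have h1 : ∑ g : Matrix.SpecialLinearGroup (Fin n) F, slPerm F n g * conj (slPerm F n g) =
      ∑ g : Matrix.SpecialLinearGroup (Fin n) F, slPerm F n g ^ 2 := by
    refine Finset.sum_congr rfl (fun g _ => ?_)
    unfold slPerm
    rw [Complex.conj_natCast, sq]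
  rw [h1, sum_slPerm_sq hn]
  have hG : (Nat.card (Matrix.SpecialLinearGroup (Fin n) F) : ℂ) ≠ 0 := by
    simp [Nat.card_eq_fintype_card]
  field_simp

theorem sl_mul_mulVec (a b : Matrix.SpecialLinearGroup (Fin n) F) (v : Fin n → F) :
    ((a * b : Matrix.SpecialLinearGroup (Fin n) F) : Matrix (Fin n) (Fin n) F).mulVec v =
      (a : Matrix (Fin n) (Fin n) F).mulVec ((b : Matrix (Fin n) (Fin n) F).mulVec v) := by
  rw [Matrix.mulVec_mulVec, Matrix.SpecialLinearGroup.coe_mul]

theorem sl_inv_mulVec (a : Matrix.SpecialLinearGroup (Fin n) F) (v : Fin n → F) :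
    ((a⁻¹ : Matrix.SpecialLinearGroup (Fin n) F) : Matrix (Fin n) (Fin n) F).mulVec
      ((a : Matrix (Fin n) (Fin n) F).mulVec v) = v := by
  rw [← sl_mul_mulVec, inv_mul_cancel]
  simp

theorem sl_inv_mulVec_eq (a : Matrix.SpecialLinearGroup (Fin n) F) {v w : Fin n → F}
    (h : (a : Matrix (Fin n) (Fin n) F).mulVec v = w) :
    ((a⁻¹ : Matrix.SpecialLinearGroup (Fin n) F) : Matrix (Fin n) (Fin n) F).mulVec w = v := by
  rw [← h, sl_inv_mulVec]

/-- the stabiliser of the line spanned by the first basis vector -/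
def lineStab (F : Type*) [Field F] {n : ℕ} (hn : 2 < n) :
    Subgroup (Matrix.SpecialLinearGroup (Fin n) F) where
  carrier := {g | ∃ c : F, (g : Matrix (Fin n) (Fin n) F).mulVec (stdVec hn 0) = c • stdVec hn 0}
  one_mem' := ⟨1, by simp⟩
  mul_mem' := by
    rintro a b ⟨c, hc⟩ ⟨d, hd⟩
    refine ⟨d * c, ?_⟩
    rw [sl_mul_mulVec, hd, Matrix.mulVec_smul, hc, smul_smul]
  inv_mem' := by
    rintro a ⟨c, hc⟩
    have hc0 : c ≠ 0 := by
      rintro rfl
      rw [zero_smul] at hc
      exact sl_mulVec_ne_zero a (stdVec_ne_zero hn 0) hc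
    refine ⟨c⁻¹, ?_⟩
    apply sl_inv_mulVec_eq
    rw [Matrix.mulVec_smul, hc, smul_smul, inv_mul_cancel₀ hc0, one_smul]

/-- the eigenvalue on the first basis vector -/
def lineEig (hn : 2 < n) (g : Matrix.SpecialLinearGroup (Fin n) F) : F :=
  (g : Matrix (Fin n) (Fin n) F) (Fin.castLE hn.le 0) (Fin.castLE hn.le 0)

theorem mulVec_stdVec_zero (hn : 2 < n) (g : Matrix.SpecialLinearGroup (Fin n) F) :
    (g : Matrix (Fin n) (Fin n) F).mulVec (stdVec hn 0) (Fin.castLE hn.le 0) = lineEig hn g := by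
  unfold stdVec lineEig
  rw [Matrix.mulVec_single_one]
  rfl

theorem mem_lineStab_iff (hn : 2 < n) (g : Matrix.SpecialLinearGroup (Fin n) F) :
    g ∈ lineStab F hn ↔
      (g : Matrix (Fin n) (Fin n) F).mulVec (stdVec hn 0) = lineEig hn g • stdVec hn 0 := by
  constructor
  · rintro ⟨c, hc⟩
    have h1 := congrFun hc (Fin.castLE hn.le 0)
    rw [mulVec_stdVec_zero, Pi.smul_apply, stdVec_zero_zero, smul_eq_mul, mul_one] at h1
    rw [h1]
    exact hc
  · intro h
    exact ⟨_, h⟩

theorem lineEig_ne_zero (hn : 2 < n) {g : Matrix.SpecialLinearGroup (Fin n) F}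
    (hg : g ∈ lineStab F hn) : lineEig hn g ≠ 0 := by
  intro h0
  have h := (mem_lineStab_iff hn g).mp hg
  rw [h0, zero_smul] at h
  exact sl_mulVec_ne_zero g (stdVec_ne_zero hn 0) h

theorem lineEig_mul (hn : 2 < n) {g h : Matrix.SpecialLinearGroup (Fin n) F}
    (hg : g ∈ lineStab F hn) (hh : h ∈ lineStab F hn) :
    lineEig hn (g * h) = lineEig hn g * lineEig hn h := by
  have h1 := (mem_lineStab_iff hn g).mp hg
  have h2 := (mem_lineStab_iff hn h).mp hh
  rw [← mulVec_stdVec_zero hn (g * h), sl_mul_mulVec, h2, Matrix.mulVec_smul, h1, Pi.smul_apply,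
    Pi.smul_apply, stdVec_zero_zero, smul_eq_mul, smul_eq_mul, mul_one, mul_comm]

theorem lineEig_one (hn : 2 < n) : lineEig hn (1 : Matrix.SpecialLinearGroup (Fin n) F) = 1 := by
  unfold lineEig
  simp

theorem lineEig_eq_one_iff (hn : 2 < n) {g : Matrix.SpecialLinearGroup (Fin n) F}
    (hg : g ∈ lineStab F hn) :
    lineEig hn g = 1 ↔ (g : Matrix (Fin n) (Fin n) F).mulVec (stdVec hn 0) = stdVec hn 0 := by
  have h1 := (mem_lineStab_iff hn g).mp hg
  constructor
  · intro h
    rw [h1, h, one_smul]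
  · intro h
    rw [← mulVec_stdVec_zero, h, stdVec_zero_zero]

/-- the eigenvalue homomorphism of the line stabiliser -/
noncomputable def lineHom (hn : 2 < n) : lineStab F hn →* Fˣ where
  toFun p := Units.mk0 (lineEig hn p.1) (lineEig_ne_zero hn p.2)
  map_one' := by
    apply Units.ext
    exact lineEig_one hn
  map_mul' := fun p q => by
    apply Units.ext
    exact lineEig_mul hn p.2 q.2

/-- the linear character of the line stabiliser attached to a multiplicative character -/
noncomputable def lineChar (hn : 2 < n) (χ : MulChar F ℂ) : lineStab F hn → ℂ :=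
  fun p => χ (lineEig hn p.1)

theorem isCharacter_lineChar (hn : 2 < n) (χ : MulChar F ℂ) :
    Cfsg.IsCharacter (lineStab F hn) (lineChar hn χ) := by
  have h := Cfsg.Agent.Lib.Helper15.isCharacter_of_hom ((MulChar.toUnitHom χ).comp (lineHom hn))
  convert h using 1
  funext p
  show χ (lineEig hn p.1) = _
  rw [MonoidHom.comp_apply, MulChar.coe_toUnitHom]
  rfl

theorem lineChar_one' (hn : 2 < n) (χ : MulChar F ℂ) : lineChar hn χ 1 = 1 := by
  show χ (lineEig hn (1 : Matrix.SpecialLinearGroup (Fin n) F)) = 1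
  rw [lineEig_one, map_one]

/-- fibres of the orbit map `x ↦ x e₀` all have the same size -/
theorem card_sl_fiber (hn : 2 < n) (Q : (Fin n → F) → Prop) (hQ : ∀ v, Q v → v ≠ 0) :
    Nat.card {x : Matrix.SpecialLinearGroup (Fin n) F //
        Q ((x : Matrix (Fin n) (Fin n) F).mulVec (stdVec hn 0))} =
      Nat.card {v : Fin n → F // Q v} *
      Nat.card {x : Matrix.SpecialLinearGroup (Fin n) F //
        (x : Matrix (Fin n) (Fin n) F).mulVec (stdVec hn 0) = stdVec hn 0} := by
  classical
  choose t ht using fun v : {v : Fin n → F // v ≠ 0} => exists_sl_vec hn v.1 v.2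
  rw [← Nat.card_prod]
  apply Nat.card_congr
  exact
    { toFun := fun x => (⟨(x.1 : Matrix (Fin n) (Fin n) F).mulVec (stdVec hn 0), x.2⟩,
        ⟨(t ⟨_, hQ _ x.2⟩)⁻¹ * x.1, by
          rw [sl_mul_mulVec]
          exact sl_inv_mulVec_eq _ (ht ⟨_, hQ _ x.2⟩)⟩)
      invFun := fun y => ⟨t ⟨y.1.1, hQ _ y.1.2⟩ * y.2.1, by
        rw [sl_mul_mulVec, y.2.2, ht]
        exact y.1.2⟩
      left_inv := fun x => by
        apply Subtype.ext
        show t ⟨_, hQ _ x.2⟩ * ((t ⟨_, hQ _ x.2⟩)⁻¹ * x.1) = x.1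
        rw [mul_inv_cancel_left]
      right_inv := fun y => by
        have h1 : ((t ⟨y.1.1, hQ _ y.1.2⟩ * y.2.1 : Matrix.SpecialLinearGroup (Fin n) F) :
            Matrix (Fin n) (Fin n) F).mulVec (stdVec hn 0) = y.1.1 := by
          rw [sl_mul_mulVec, y.2.2, ht]
        apply Prod.ext
        · apply Subtype.ext
          exact h1
        · apply Subtype.ext
          show (t ⟨_, _⟩)⁻¹ * (t ⟨y.1.1, hQ _ y.1.2⟩ * y.2.1) = y.2.1
          have h2 : t ⟨((t ⟨y.1.1, hQ _ y.1.2⟩ * y.2.1 : Matrix.SpecialLinearGroup (Fin n) F) :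
            Matrix (Fin n) (Fin n) F).mulVec (stdVec hn 0), by rw [h1]; exact hQ _ y.1.2⟩ =
              t ⟨y.1.1, hQ _ y.1.2⟩ := by
            congr 1
            exact Subtype.ext h1
          rw [h2, inv_mul_cancel_left] }

theorem sum_mulChar_apply [Fintype F] [DecidableEq F] [Fintype (MulChar F ℂ)] (a : Fˣ) :
    ∑ χ : MulChar F ℂ, χ (a : F) = if a = 1 then ((Fintype.card F : ℂ) - 1) else 0 := by
  haveI : NeZero (Monoid.exponent Fˣ) := ⟨Monoid.exponent_ne_zero_of_finite⟩
  split_ifs with ha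
  · subst ha
    have hc := MulChar.card_eq_card_units_of_hasEnoughRootsOfUnity F ℂ
    rw [Nat.card_eq_fintype_card, Nat.card_eq_fintype_card, Fintype.card_units] at hc
    simp only [Units.val_one, map_one, Finset.sum_const, Finset.card_univ, nsmul_eq_mul, mul_one]
    rw [hc, Nat.cast_sub Fintype.card_pos, Nat.cast_one]
  · have ha' : (a : F) ≠ 1 := by
      intro h
      exact ha (Units.ext h)
    obtain ⟨χ, hχ⟩ := MulChar.exists_apply_ne_one_of_hasEnoughRootsOfUnity F ℂ ha'
    refine eq_zero_of_mul_eq_self_left hχ ?_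
    simp only [Finset.mul_sum, ← MulChar.mul_apply]
    exact Fintype.sum_bijective _ (Group.mulLeft_bijective χ) _ _ fun χ' ↦ rfl

theorem sum_extendByZero_lineChar [Fintype F] [DecidableEq F] [Fintype (MulChar F ℂ)]
    (hn : 2 < n) (y : Matrix.SpecialLinearGroup (Fin n) F) :
    ∑ χ : MulChar F ℂ, Cfsg.extendByZero (lineStab F hn) (lineChar hn χ) y =
      if (y : Matrix (Fin n) (Fin n) F).mulVec (stdVec hn 0) = stdVec hn 0
        then ((Fintype.card F : ℂ) - 1) else 0 := by
  by_cases hy : y ∈ lineStab F hn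
  · have h1 : ∀ χ : MulChar F ℂ, Cfsg.extendByZero (lineStab F hn) (lineChar hn χ) y =
        χ ((Units.mk0 (lineEig hn y) (lineEig_ne_zero hn hy) : Fˣ) : F) := by
      intro χ
      rw [Cfsg.Agent.Lib.Helper75.extendByZero_mem _ _ hy]
      rfl
    simp only [h1]
    rw [sum_mulChar_apply]
    have h2 : (Units.mk0 (lineEig hn y) (lineEig_ne_zero hn hy) = 1) ↔
        ((y : Matrix (Fin n) (Fin n) F).mulVec (stdVec hn 0) = stdVec hn 0) := by
      rw [← lineEig_eq_one_iff hn hy]
      constructor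
      · intro h
        have := congrArg Units.val h
        simpa using this
      · intro h
        apply Units.ext
        simpa using h
    exact if_congr h2 rfl rfl
  · have h1 : ∀ χ : MulChar F ℂ, Cfsg.extendByZero (lineStab F hn) (lineChar hn χ) y = 0 :=
      fun χ => Cfsg.Agent.Lib.Helper75.extendByZero_not_mem _ _ hy
    simp only [h1, Finset.sum_const_zero]
    rw [if_neg]
    intro h
    exact hy ⟨1, by rw [h, one_smul]⟩

theorem card_lineStab [Fintype F] [DecidableEq F] (hn : 2 < n) :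
    Nat.card (lineStab F hn) = (Fintype.card F - 1) *
      Nat.card {x : Matrix.SpecialLinearGroup (Fin n) F //
        (x : Matrix (Fin n) (Fin n) F).mulVec (stdVec hn 0) = stdVec hn 0} := by
  have h1 := card_sl_fiber hn (fun v : Fin n → F => ∃ c : Fˣ, v = (c : F) • stdVec hn 0) (by
    rintro v ⟨c, rfl⟩
    exact smul_ne_zero c.ne_zero (stdVec_ne_zero hn 0))
  have h2 : Nat.card {v : Fin n → F // ∃ c : Fˣ, v = (c : F) • stdVec hn 0} =
      Fintype.card F - 1 := by
    rw [← Fintype.card_units, ← Nat.card_eq_fintype_card]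
    apply Nat.card_congr
    refine (Equiv.ofBijective (fun c : Fˣ => (⟨(c : F) • stdVec hn 0, c, rfl⟩ :
      {v : Fin n → F // ∃ c : Fˣ, v = (c : F) • stdVec hn 0})) ⟨?_, ?_⟩).symm
    · intro c d h
      have h3 := congrFun (congrArg Subtype.val h) (Fin.castLE hn.le 0)
      simp only [Pi.smul_apply, stdVec_zero_zero, smul_eq_mul, mul_one] at h3
      exact Units.ext h3
    · rintro ⟨v, c, rfl⟩
      exact ⟨c, rfl⟩
  rw [← h2, ← h1]
  apply Nat.card_congr
  apply Equiv.subtypeEquivRight
  intro x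
  constructor
  · intro hx
    exact ⟨Units.mk0 (lineEig hn x) (lineEig_ne_zero hn hx), (mem_lineStab_iff hn x).mp hx⟩
  · rintro ⟨c, hc⟩
    exact ⟨c, hc⟩

theorem slPerm_eq_sum_ind [Fintype F] [DecidableEq F] [Fintype (MulChar F ℂ)] (hn : 2 < n)
    (g : Matrix.SpecialLinearGroup (Fin n) F) :
    slPerm F n g = ∑ χ : MulChar F ℂ, Cfsg.indFun (lineStab F hn) (lineChar hn χ) g := by
  classical
  unfold Cfsg.indFun
  rw [← Finset.mul_sum, Finset.sum_comm]
  simp only [sum_extendByZero_lineChar]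
  rw [← Finset.sum_filter, Finset.sum_const, nsmul_eq_mul]
  have h1 : (Finset.univ.filter (fun x : Matrix.SpecialLinearGroup (Fin n) F =>
      ((x⁻¹ * g * x : Matrix.SpecialLinearGroup (Fin n) F) : Matrix (Fin n) (Fin n) F).mulVec
        (stdVec hn 0) = stdVec hn 0)).card =
      Nat.card {x : Matrix.SpecialLinearGroup (Fin n) F //
        (x : Matrix (Fin n) (Fin n) F).mulVec (stdVec hn 0) ≠ 0 ∧
        (g : Matrix (Fin n) (Fin n) F).mulVec ((x : Matrix (Fin n) (Fin n) F).mulVec (stdVec hn 0))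
          = (x : Matrix (Fin n) (Fin n) F).mulVec (stdVec hn 0)} := by
    rw [← Fintype.card_subtype, ← Nat.card_eq_fintype_card]
    apply Nat.card_congr
    apply Equiv.subtypeEquivRight
    intro x
    constructor
    · intro h
      refine ⟨sl_mulVec_ne_zero x (stdVec_ne_zero hn 0), ?_⟩
      rw [mul_assoc, sl_mul_mulVec] at h
      have h2 := sl_inv_mulVec_eq x⁻¹ h
      rw [inv_inv] at h2
      rw [← sl_mul_mulVec]
      exact h2.symm
    · rintro ⟨_, h⟩
      rw [mul_assoc, sl_mul_mulVec, sl_mul_mulVec, h, sl_inv_mulVec]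
  have h3 := card_sl_fiber hn
    (fun v : Fin n → F => v ≠ 0 ∧ (g : Matrix (Fin n) (Fin n) F).mulVec v = v) (fun v hv => hv.1)
  rw [h1, h3, card_lineStab hn]
  unfold slPerm
  have hs : (Nat.card {x : Matrix.SpecialLinearGroup (Fin n) F //
        (x : Matrix (Fin n) (Fin n) F).mulVec (stdVec hn 0) = stdVec hn 0} : ℂ) ≠ 0 := by
    haveI : Nonempty {x : Matrix.SpecialLinearGroup (Fin n) F //
        (x : Matrix (Fin n) (Fin n) F).mulVec (stdVec hn 0) = stdVec hn 0} := ⟨⟨1, by simp⟩⟩
    exact_mod_cast (Nat.card_pos).ne'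
  have hq2 : 2 ≤ Fintype.card F := Fintype.one_lt_card
  have hq : ((Fintype.card F : ℂ) - 1) ≠ 0 := by
    have h3 : ((Fintype.card F - 1 : ℕ) : ℂ) ≠ 0 := by
      exact_mod_cast (by omega : Fintype.card F - 1 ≠ 0)
    rwa [Nat.cast_sub (by omega), Nat.cast_one] at h3
  rw [Nat.cast_mul, Nat.cast_mul, Nat.cast_sub (by omega), Nat.cast_one]
  field_simp

open Cfsg.Agent.Lib.Helper3 Cfsg.Agent.Lib.Helper75 in
/-- the permutation character of `SL_n(F)`, `n ≥ 3`, on non-zero vectors is the trivial character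
plus `q - 1` distinct irreducible characters -/
theorem slPerm_decomp [Fintype F] [DecidableEq F] (hn : 2 < n) :
    ∃ χ : Fin (Fintype.card F - 1) → (Matrix.SpecialLinearGroup (Fin n) F → ℂ),
      (∀ i, Cfsg.IsIrrCharacter (Matrix.SpecialLinearGroup (Fin n) F) (χ i)) ∧
      Function.Injective χ ∧
      ∀ g : Matrix.SpecialLinearGroup (Fin n) F, slPerm F n g = 1 + ∑ i, χ i g := by
  classical
  have hfin := Cfsg.Agent.Lib.Helper3.irr_finite (G := Matrix.SpecialLinearGroup (Fin n) F)
  letI hft : Fintype (Cfsg.IrrCharacter (Matrix.SpecialLinearGroup (Fin n) F)) :=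
    Fintype.ofFinite _
  letI : Fintype (MulChar F ℂ) := Fintype.ofFinite _
  have hq2 : 2 ≤ Fintype.card F := Fintype.one_lt_card
  have hIc : ∀ χ : MulChar F ℂ, Cfsg.IsCharacter (Matrix.SpecialLinearGroup (Fin n) F)
      (Cfsg.indFun (lineStab F hn) (lineChar hn χ)) :=
    fun χ => isCharacter_indFun _ (isCharacter_lineChar hn χ)
  have hπ : slPerm F n = ∑ χ : MulChar F ℂ, Cfsg.indFun (lineStab F hn) (lineChar hn χ) := by
    funext g
    rw [slPerm_eq_sum_ind hn g, Finset.sum_apply]
  have hπc : Cfsg.IsCharacter (Matrix.SpecialLinearGroup (Fin n) F) (slPerm F n) := by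
    rw [hπ]
    exact isCharacter_sum _ _ (fun χ _ => hIc χ)
  obtain ⟨m, hm, hsum⟩ := char_eq_sum_irr hπc
  choose a ha hasum using fun χ : MulChar F ℂ => char_eq_sum_irr (hIc χ)
  have hma : ∀ ψ, m ψ = ∑ χ, a χ ψ := by
    intro ψ
    have h1 : Cfsg.classInner (slPerm F n) ψ.1 =
        ∑ χ : MulChar F ℂ, Cfsg.classInner (Cfsg.indFun (lineStab F hn) (lineChar hn χ)) ψ.1 := by
      rw [hπ, classInner_sum_left]
    rw [hm ψ] at h1
    simp only [ha] at h1
    exact_mod_cast h1
  have hnorm : ∑ ψ, m ψ * m ψ = Fintype.card F := by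
    have h2 : Cfsg.classInner (slPerm F n) (slPerm F n) =
        ∑ ψ : Cfsg.IrrCharacter (Matrix.SpecialLinearGroup (Fin n) F), ((m ψ : ℂ)) * (m ψ : ℂ) := by
      have h3 : Cfsg.classInner (slPerm F n) (slPerm F n) =
          Cfsg.classInner (∑ ψ : Cfsg.IrrCharacter (Matrix.SpecialLinearGroup (Fin n) F),
            (m ψ : ℂ) • (ψ : Matrix.SpecialLinearGroup (Fin n) F → ℂ)) (slPerm F n) := by
        rw [← hsum]
      rw [h3, classInner_sum_left]
      refine Finset.sum_congr rfl (fun ψ _ => ?_)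
      rw [classInner_smul_left, classInner_conj_symm, hm ψ]
      simp
    rw [classInner_slPerm_self hn] at h2
    exact_mod_cast h2.symm
  have hidx : ∀ χ : MulChar F ℂ, Cfsg.indFun (lineStab F hn) (lineChar hn χ) 1 =
      ((lineStab F hn).index : ℂ) := by
    intro χ
    rw [indFun_one, lineChar_one', mul_one]
  have hN1 : ∀ χ, 1 ≤ ∑ ψ, a χ ψ := by
    intro χ
    by_contra hcon
    have hs0 : ∑ ψ, a χ ψ = 0 := by omega
    have h0 : ∀ ψ, a χ ψ = 0 := fun ψ => (Finset.sum_eq_zero_iff.mp hs0) ψ (Finset.mem_univ _)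
    have hz : Cfsg.indFun (lineStab F hn) (lineChar hn χ) = 0 := by
      rw [hasum χ]
      simp [h0]
    have h1 := congrFun hz 1
    rw [hidx, Pi.zero_apply] at h1
    have h2 : (lineStab F hn).index ≠ 0 := Subgroup.index_ne_zero_of_finite
    exact h2 (by exact_mod_cast h1)
  let triv : Cfsg.IrrCharacter (Matrix.SpecialLinearGroup (Fin n) F) :=
    ⟨fun _ => 1, Cfsg.Agent.Lib.Helper80.isIrrCharacter_one⟩
  have htriv : a 1 triv = 1 := by
    have h1 := ha 1 triv
    letI : Fintype (lineStab F hn) := Fintype.ofFinite _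
    rw [frobenius_reciprocity _ _ (isClassFunction_of_isCharacter (isCharacter_of_irr triv.2))]
      at h1
    have h2 : Cfsg.classInner (lineChar hn (1 : MulChar F ℂ))
        (fun h : lineStab F hn => (triv.1 (h : Matrix.SpecialLinearGroup (Fin n) F))) = 1 := by
      unfold Cfsg.classInner
      have h3 : ∀ p : lineStab F hn, lineChar hn (1 : MulChar F ℂ) p *
          conj (triv.1 (p : Matrix.SpecialLinearGroup (Fin n) F)) = 1 := by
        intro p
        show (1 : MulChar F ℂ) (lineEig hn p.1) * conj (1 : ℂ) = 1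
        rw [MulChar.one_apply (isUnit_iff_ne_zero.mpr (lineEig_ne_zero hn p.2))]
        simp
      simp only [h3, Finset.sum_const, Finset.card_univ, nsmul_eq_mul, mul_one]
      rw [← Nat.card_eq_fintype_card]
      exact inv_mul_cancel₀ (by simp [Nat.card_eq_fintype_card])
    rw [h2] at h1
    exact_mod_cast h1.symm
  have hN2 : 2 ≤ ∑ ψ, a 1 ψ := by
    by_contra hcon
    have h0 : ∀ ψ, ψ ≠ triv → a 1 ψ = 0 := by
      intro ψ hψ
      have h1 : a 1 triv + a 1 ψ ≤ ∑ ψ, a 1 ψ := by
        rw [← Finset.sum_pair (Ne.symm hψ)]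
        exact Finset.sum_le_sum_of_subset (Finset.subset_univ _)
      omega
    have hz : Cfsg.indFun (lineStab F hn) (lineChar hn (1 : MulChar F ℂ)) = triv.1 := by
      rw [hasum 1, Finset.sum_eq_single triv]
      · rw [htriv]
        simp
      · intro ψ _ hψ
        rw [h0 ψ hψ]
        simp
      · intro h
        exact absurd (Finset.mem_univ _) h
    have h1 := congrFun hz 1
    rw [hidx] at h1
    have h1' : (((lineStab F hn).index : ℕ) : ℂ) = ((1 : ℕ) : ℂ) := by
      rw [h1, Nat.cast_one]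
    have hidx1 : (lineStab F hn).index = 1 := by exact_mod_cast h1'
    rw [Subgroup.index_eq_one] at hidx1
    obtain ⟨g, hg⟩ := exists_sl_vec hn (stdVec hn 1 : Fin n → F) (stdVec_ne_zero hn 1)
    have hgP : g ∈ lineStab F hn := by
      rw [hidx1]
      trivial
    obtain ⟨c, hc⟩ := hgP
    rw [hg] at hc
    have h5 := congrFun hc (Fin.castLE hn.le 1)
    rw [stdVec_one_one, Pi.smul_apply, stdVec_one_zero, smul_zero] at h5
    exact one_ne_zero h5
  have hcardΛ : Fintype.card (MulChar F ℂ) = Fintype.card F - 1 := by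
    haveI : NeZero (Monoid.exponent Fˣ) := ⟨Monoid.exponent_ne_zero_of_finite⟩
    have hc := MulChar.card_eq_card_units_of_hasEnoughRootsOfUnity F ℂ
    rw [Nat.card_eq_fintype_card, Nat.card_eq_fintype_card, Fintype.card_units] at hc
    exact hc
  have htot : Fintype.card F ≤ ∑ ψ, m ψ := by
    have h1 : ∑ ψ, m ψ = ∑ χ, ∑ ψ, a χ ψ := by
      simp only [hma]
      exact Finset.sum_comm
    rw [h1]
    have h2 : ∑ χ : MulChar F ℂ, (if χ = 1 then 2 else 1) ≤ ∑ χ, ∑ ψ, a χ ψ := by
      apply Finset.sum_le_sum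
      intro χ _
      split_ifs with h
      · subst h
        exact hN2
      · exact hN1 χ
    have h3 : ∑ χ : MulChar F ℂ, (if χ = 1 then 2 else 1) = Fintype.card F := by
      have h4 : ∀ χ : MulChar F ℂ, (if χ = 1 then 2 else 1) = 1 + (if χ = 1 then 1 else 0) := by
        intro χ
        split_ifs <;> rfl
      simp only [h4, Finset.sum_add_distrib, Finset.sum_const, Finset.card_univ, smul_eq_mul,
        mul_one, Finset.sum_ite_eq', Finset.mem_univ, if_true]
      rw [hcardΛ]
      omega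
    omega
  have hle : ∀ ψ, m ψ * m ψ = m ψ := by
    have hge : ∀ ψ, m ψ ≤ m ψ * m ψ := fun ψ => Nat.le_mul_self _
    have h1 : ∑ ψ, (m ψ * m ψ - m ψ) = 0 := by
      have h2 : ∑ ψ, (m ψ * m ψ - m ψ) = ∑ ψ, m ψ * m ψ - ∑ ψ, m ψ := by
        rw [Finset.sum_tsub_distrib]
        intro ψ _
        exact hge ψ
      rw [h2]
      omega
    intro ψ
    have h3 := (Finset.sum_eq_zero_iff.mp h1) ψ (Finset.mem_univ _)
    have h4 := hge ψ
    omega
  have hm01 : ∀ ψ, m ψ = 0 ∨ m ψ = 1 := by
    intro ψ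
    have h1 := hle ψ
    rcases Nat.eq_zero_or_pos (m ψ) with h | h
    · left
      exact h
    · right
      nlinarith
  have hsumm : ∑ ψ, m ψ = Fintype.card F := by
    rw [← hnorm]
    exact Finset.sum_congr rfl (fun ψ _ => (hle ψ).symm)
  let S : Finset (Cfsg.IrrCharacter (Matrix.SpecialLinearGroup (Fin n) F)) :=
    Finset.univ.filter (fun ψ => m ψ = 1)
  have hScard : S.card = Fintype.card F := by
    rw [← hsumm, Finset.card_eq_sum_ones, Finset.sum_filter]
    refine Finset.sum_congr rfl (fun ψ _ => ?_)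
    rcases hm01 ψ with h | h <;> simp [h]
  have htrivS : triv ∈ S := by
    rw [Finset.mem_filter]
    refine ⟨Finset.mem_univ _, ?_⟩
    rcases hm01 triv with h | h
    · exfalso
      rw [hma triv] at h
      have h1 := (Finset.sum_eq_zero_iff.mp h) 1 (Finset.mem_univ _)
      omega
    · exact h
  have hS'card : (S.erase triv).card = Fintype.card F - 1 := by
    rw [Finset.card_erase_of_mem htrivS, hScard]
  let e := (Finset.equivFinOfCardEq hS'card).symm
  refine ⟨fun i => (e i).1.1, fun i => (e i).1.2, ?_, ?_⟩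
  · intro i j h
    exact e.injective (Subtype.ext (Subtype.ext h))
  · intro g
    have h1 : slPerm F n g = ∑ ψ ∈ S, ψ.1 g := by
      conv_lhs => rw [hsum]
      rw [Finset.sum_apply, Finset.sum_filter]
      refine Finset.sum_congr rfl (fun ψ _ => ?_)
      rcases hm01 ψ with h | h <;> simp [h]
    rw [h1, ← Finset.add_sum_erase S _ htrivS]
    congr 1
    rw [← Finset.sum_coe_sort (S.erase triv)]
    exact (Fintype.sum_equiv e _ _ (fun i => rfl)).symm

end SLnPerm

end Cfsg.Agent.Lib.Helper39
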