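import Mathlib
import Cfsg.Agent.Lib.Helper39.ThreeDegD

set_option autoImplicit false
set_option linter.style.haveILetI false
open Cfsg

/-!
# Three character degrees: derived length at most three (Isaacs, Theorem 12.15)
-/

namespace Cfsg.Agent.Lib.Helper39.ThreeDeg

universe u

theorem three_deg_dl : ∀ (n : ℕ) (G : Type u) [Group G] [Finite G], Nat.card G = n →
    ∀ a b : ℕ, (∀ χ : Cfsg.IrrCharacter G, Cfsg.charDegree (χ : G → ℂ) = 1 ∨
      Cfsg.charDegree (χ : G → ℂ) = a ∨ Cfsg.charDegree (χ : G → ℂ) = b) →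
    derivedSeries G 3 = ⊥ := by
  intro n
  induction n using Nat.strong_induction_on with
  | _ n ih =>
  intro G _ _ hn a b hcd
  classical
  have h32 : derivedSeries G 3 ≤ derivedSeries G 2 := derivedSeries_antitone G (by norm_num)
  have htwo : ∀ m : ℕ, (∀ χ : Cfsg.IrrCharacter G, Cfsg.charDegree (χ : G → ℂ) = 1 ∨
      Cfsg.charDegree (χ : G → ℂ) = m) → derivedSeries G 3 = ⊥ := by
    intro m hm
    have h2 := two_deg_dl2 m hm
    rw [h2] at h32
    exact eq_bot_iff.2 h32
  by_cases hexa : (∃ χ : Cfsg.IrrCharacter G, Cfsg.charDegree (χ : G → ℂ) = a) ∧ a ≠ 1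
  swap
  · apply htwo b
    intro χ
    rcases hcd χ with h | h | h
    · exact Or.inl h
    · left
      by_contra hne
      exact hexa ⟨⟨χ, h⟩, fun ha1 => hne (h.trans ha1)⟩
    · exact Or.inr h
  by_cases hexb : (∃ χ : Cfsg.IrrCharacter G, Cfsg.charDegree (χ : G → ℂ) = b) ∧ b ≠ 1
  swap
  · apply htwo a
    intro χ
    rcases hcd χ with h | h | h
    · exact Or.inl h
    · exact Or.inr h
    · left
      by_contra hne
      exact hexb ⟨⟨χ, h⟩, fun hb1 => hne (h.trans hb1)⟩
  by_cases hab : a = b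
  · apply htwo a
    intro χ
    rcases hcd χ with h | h | h
    · exact Or.inl h
    · exact Or.inr h
    · exact Or.inr (h.trans hab.symm)
  have key : ∀ a b : ℕ, 1 < a → a < b →
      (∀ χ : Cfsg.IrrCharacter G, Cfsg.charDegree (χ : G → ℂ) = 1 ∨
        Cfsg.charDegree (χ : G → ℂ) = a ∨ Cfsg.charDegree (χ : G → ℂ) = b) →
      (∃ χ : Cfsg.IrrCharacter G, Cfsg.charDegree (χ : G → ℂ) = a) →
      (∃ χ : Cfsg.IrrCharacter G, Cfsg.charDegree (χ : G → ℂ) = b) →
      derivedSeries G 3 = ⊥ := by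
    intro a b ha hab hcd hexa hexb
    by_cases hcop : Nat.Coprime a b
    · exact caseI ha hab hcop hcd hexa hexb
    · have hg : Nat.gcd a b ≠ 1 := hcop
      have hs : (Nat.gcd a b).minFac.Prime := Nat.minFac_prime hg
      have hsa : (Nat.gcd a b).minFac ∣ a := (Nat.minFac_dvd _).trans (Nat.gcd_dvd_left a b)
      have hsb : (Nat.gcd a b).minFac ∣ b := (Nat.minFac_dvd _).trans (Nat.gcd_dvd_right a b)
      exact caseII ha hab hs hsa hsb hcd hexa
        (fun H _ _ hlt a' b' hcd' => ih (Nat.card H) (hn ▸ hlt) H rfl a' b' hcd')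
  have ha1 : 1 < a := by
    obtain ⟨⟨χ, hχ⟩, hne⟩ := hexa
    have := Helper80.charDegree_pos χ.2
    omega
  have hb1 : 1 < b := by
    obtain ⟨⟨χ, hχ⟩, hne⟩ := hexb
    have := Helper80.charDegree_pos χ.2
    omega
  rcases lt_or_gt_of_ne hab with h | h
  · exact key a b ha1 h hcd hexa.1 hexb.1
  · refine key b a hb1 h (fun χ => ?_) hexb.1 hexa.1
    rcases hcd χ with h' | h' | h'
    · exact Or.inl h'
    · exact Or.inr (Or.inr h')
    · exact Or.inr (Or.inl h')

/-- exactly three character degrees: derived length at most three -/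
theorem three_deg_card {G : Type u} [Group G] [Finite G]
    (hcd : Nat.card {n : ℕ // ∃ χ : Cfsg.IrrCharacter G, Cfsg.charDegree (χ : G → ℂ) = n} = 3) :
    derivedSeries G 3 = ⊥ := by
  classical
  have h3 : Set.ncard {n : ℕ | ∃ χ : Cfsg.IrrCharacter G,
      Cfsg.charDegree (χ : G → ℂ) = n} = 3 := by
    rw [← _root_.Nat.card_coe_set_eq]
    exact hcd
  obtain ⟨x, y, z, -, -, -, hS⟩ := Set.ncard_eq_three.1 h3
  have hmem : ∀ χ : Cfsg.IrrCharacter G, Cfsg.charDegree (χ : G → ℂ) = x ∨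
      Cfsg.charDegree (χ : G → ℂ) = y ∨ Cfsg.charDegree (χ : G → ℂ) = z := by
    intro χ
    have h : Cfsg.charDegree (χ : G → ℂ) ∈ {n : ℕ | ∃ χ : Cfsg.IrrCharacter G,
        Cfsg.charDegree (χ : G → ℂ) = n} := ⟨χ, rfl⟩
    rw [hS] at h
    simpa using h
  have h1 : (1 : ℕ) ∈ ({x, y, z} : Set ℕ) := by
    rw [← hS]
    exact ⟨⟨fun _ => 1, Helper80.isIrrCharacter_one⟩, charDegree_of_one_eq (n := 1) (by simp)⟩
  simp only [Set.mem_insert_iff, Set.mem_singleton_iff] at h1
  rcases h1 with h | h | h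
  · refine three_deg_dl _ G rfl y z (fun χ => ?_)
    rcases hmem χ with h' | h' | h'
    · exact Or.inl (h'.trans h.symm)
    · exact Or.inr (Or.inl h')
    · exact Or.inr (Or.inr h')
  · refine three_deg_dl _ G rfl x z (fun χ => ?_)
    rcases hmem χ with h' | h' | h'
    · exact Or.inr (Or.inl h')
    · exact Or.inl (h'.trans h.symm)
    · exact Or.inr (Or.inr h')
  · refine three_deg_dl _ G rfl x y (fun χ => ?_)
    rcases hmem χ with h' | h' | h'
    · exact Or.inr (Or.inl h')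
    · exact Or.inr (Or.inr h')
    · exact Or.inl (h'.trans h.symm)

end Cfsg.Agent.Lib.Helper39.ThreeDeg
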